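import Mathlib

/-!
# A Baer–Suzuki type theorem for solvable groups: basics (helper24)

Prefix `h24bs`.  A `p`-group `Q` of automorphisms of a finite abelian `p'`-group `W`,
normalized by a group `N` of automorphisms: fixed points, norm maps, restriction to a
stabilized subgroup, and the decomposition lemma `h24bs_R2b`.
-/

set_option autoImplicit false

namespace Cfsg.Agent.Helper24

universe u

section Base

variable {W : Type u} [CommGroup W]

/-- Common fixed points of a subgroup of automorphisms. -/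
def h24bsFix (Y : Subgroup (MulAut W)) : Subgroup W where
  carrier := {w | ∀ y ∈ Y, y w = w}
  mul_mem' := by
    intro a b ha hb y hy
    rw [map_mul, ha y hy, hb y hy]
  one_mem' := fun y _ => map_one y
  inv_mem' := by
    intro a ha y hy
    rw [map_inv, ha y hy]

theorem h24bs_mem_fix {Y : Subgroup (MulAut W)} {w : W} :
    w ∈ h24bsFix Y ↔ ∀ y ∈ Y, y w = w := Iff.rfl

theorem h24bs_pow_fix {f : MulAut W} {u : W} (h : f u = u) (m : ℕ) : (f ^ m) u = u := by
  induction m with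
  | zero => simp
  | succ m ih => rw [pow_succ, MulAut.mul_apply, h, ih]

/-- The finset of elements of a subgroup of automorphisms. -/
noncomputable def h24bsFin [Finite W] (Y : Subgroup (MulAut W)) : Finset (MulAut W) :=
  (Set.toFinite (Y : Set (MulAut W))).toFinset

theorem h24bs_mem_fin [Finite W] {Y : Subgroup (MulAut W)} {y : MulAut W} :
    y ∈ h24bsFin Y ↔ y ∈ Y := by
  simp [h24bsFin]

theorem h24bs_card_fin [Finite W] (Y : Subgroup (MulAut W)) :
    (h24bsFin Y).card = Nat.card Y := by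
  rw [h24bsFin]; exact (Nat.card_eq_card_finite_toFinset _).symm

/-- The norm map of a subgroup of automorphisms. -/
noncomputable def h24bsNorm [Finite W] (Y : Subgroup (MulAut W)) : W →* W :=
  ∏ y ∈ h24bsFin Y, y.toMonoidHom

theorem h24bsNorm_apply [Finite W] (Y : Subgroup (MulAut W)) (w : W) :
    h24bsNorm Y w = ∏ y ∈ h24bsFin Y, y w := by
  rw [h24bsNorm, MonoidHom.finsetProd_apply]; rfl

theorem h24bsNorm_mem_fix [Finite W] (Y : Subgroup (MulAut W)) (w : W) :
    h24bsNorm Y w ∈ h24bsFix Y := by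
  intro y₀ hy₀
  rw [h24bsNorm_apply, map_prod]
  refine Finset.prod_equiv (Equiv.mulLeft y₀) ?_ ?_
  · intro y
    simp only [h24bs_mem_fin, Equiv.coe_mulLeft]
    exact (Subgroup.mul_mem_cancel_left Y hy₀).symm
  · intro y _; rfl

theorem h24bsNorm_of_fix [Finite W] {Y : Subgroup (MulAut W)} {w : W} (h : w ∈ h24bsFix Y) :
    h24bsNorm Y w = w ^ Nat.card Y := by
  rw [h24bsNorm_apply, ← h24bs_card_fin, ← Finset.prod_const]
  exact Finset.prod_congr rfl (fun y hy => h y (h24bs_mem_fin.mp hy))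

/-- An automorphism commuting with all of `Y` commutes with the norm map. -/
theorem h24bsNorm_comm [Finite W] {Y : Subgroup (MulAut W)} {x : MulAut W}
    (hx : ∀ y ∈ Y, x * y = y * x) (w : W) : x (h24bsNorm Y w) = h24bsNorm Y (x w) := by
  rw [h24bsNorm_apply, h24bsNorm_apply, map_prod]
  refine Finset.prod_congr rfl (fun y hy => ?_)
  have := hx y (h24bs_mem_fin.mp hy)
  calc x (y w) = (x * y) w := rfl
    _ = (y * x) w := by rw [this]
    _ = y (x w) := rfl

/-- An automorphism normalizing `Y` commutes with the norm map. -/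
theorem h24bsNorm_normalizer [Finite W] {Y : Subgroup (MulAut W)} {n : MulAut W}
    (hn : ∀ y, y ∈ Y ↔ n * y * n⁻¹ ∈ Y) (w : W) : n (h24bsNorm Y w) = h24bsNorm Y (n w) := by
  rw [h24bsNorm_apply, h24bsNorm_apply, map_prod]
  refine Finset.prod_equiv (MulAut.conj n).toEquiv ?_ ?_
  · intro y
    simp only [h24bs_mem_fin]
    exact hn y
  · intro y _
    show n (y w) = (n * y * n⁻¹) (n w)
    simp [MulAut.mul_apply]

theorem h24bs_pow_cancel [Finite W] {m : ℕ} (hm : (Nat.card W).Coprime m) {x y : W}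
    (h : x ^ m = y ^ m) : x = y := by
  have h1 : (x * y⁻¹) ^ m = 1 := by rw [mul_pow, inv_pow, h, mul_inv_cancel]
  have h2 : orderOf (x * y⁻¹) ∣ m := orderOf_dvd_of_pow_eq_one h1
  have h3 : orderOf (x * y⁻¹) ∣ Nat.card W := orderOf_dvd_natCard _
  have h4 := Nat.dvd_gcd h3 h2
  rw [Nat.Coprime.gcd_eq_one hm] at h4
  exact mul_inv_eq_one.mp (orderOf_eq_one_iff.mp (Nat.dvd_one.mp h4))

theorem h24bs_card_coprime [Finite W] {p : ℕ} [Fact p.Prime] (hW : (Nat.card W).Coprime p)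
    {Y : Subgroup (MulAut W)} (hY : IsPGroup p Y) : (Nat.card W).Coprime (Nat.card Y) := by
  obtain ⟨k, hk⟩ := IsPGroup.iff_card.mp hY
  rw [hk]; exact Nat.Coprime.pow_right k hW

theorem h24bs_orbit_prod_fix {p : ℕ} {f : MulAut W} (hf : f ^ p = 1) (v : W) :
    f (∏ j ∈ Finset.range p, (f ^ j) v) = ∏ j ∈ Finset.range p, (f ^ j) v := by
  rw [map_prod]
  have h1 : ∀ j, f ((f ^ j) v) = (f ^ (j + 1)) v := fun j => by rw [pow_succ']; rfl
  simp only [h1]
  have h2 := Finset.prod_range_succ' (fun j => (f ^ j) v) p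
  have h3 := Finset.prod_range_succ (fun j => (f ^ j) v) p
  rw [h3] at h2
  have h4 : (f ^ p) v = (f ^ 0) v := by rw [hf, pow_zero]
  simp only [h4] at h2
  exact (mul_right_cancel h2).symm

theorem h24bs_pow_modEq {G : Type*} [Monoid G] {p : ℕ} {z : G} (hz : z ^ p = 1) {a b : ℕ}
    (h : a ≡ b [MOD p]) : z ^ a = z ^ b := by
  have h1 : ∀ c : ℕ, z ^ c = z ^ (c % p) := by
    intro c
    conv_lhs => rw [← Nat.mod_add_div c p]
    rw [pow_add, pow_mul, hz, one_pow, mul_one]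
  rw [h1 a, h1 b, show a % p = b % p from h]

theorem h24bs_pow_of_dvd {G : Type*} [Monoid G] {p : ℕ} {z : G} (hz : z ^ p = 1) {i : ℕ}
    (h : p ∣ i) : z ^ i = 1 := by
  obtain ⟨k, rfl⟩ := h
  rw [pow_mul, hz, one_pow]

theorem h24bs_fpf_pow {p : ℕ} [Fact p.Prime] {z : MulAut W} (hz : z ^ p = 1)
    (hfpf : ∀ w, z w = w → w = 1) {i : ℕ} (hi : ¬ p ∣ i) {u : W} (h : (z ^ i) u = u) :
    u = 1 := by
  have hp := (Fact.out : p.Prime)
  have hcop : Nat.Coprime i p := Nat.Coprime.symm ((Nat.Prime.coprime_iff_not_dvd hp).mpr hi)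
  obtain ⟨m, -, hm⟩ := Nat.exists_mul_mod_eq_one_of_coprime hcop hp.one_lt
  apply hfpf
  have h1 : (z ^ i) ^ m = z := by
    rw [← pow_mul]
    conv_lhs => rw [← Nat.mod_add_div (i * m) p]
    rw [hm, pow_add, pow_mul, hz, one_pow, mul_one, pow_one]
  rw [← h1]; exact h24bs_pow_fix h m

/-- The decomposition lemma. -/
theorem h24bs_R2b {p : ℕ} [Fact p.Prime] {x y : MulAut W} (hx : x ^ p = 1)
    (hxy : x * y = y * x) (hfpf : ∀ w, x w = w → w = 1) (v : W) :
    ∏ k ∈ Finset.range p, ∏ j ∈ Finset.range p, ((y * x ^ k) ^ j) v = v ^ p := by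
  have hp := (Fact.out : p.Prime)
  have hc : Commute y x := hxy.symm
  have h1 : ∀ k j, ((y * x ^ k) ^ j) v = (y ^ j) (((x ^ j) ^ k) v) := by
    intro k j
    rw [(hc.pow_right k).mul_pow, ← pow_mul, ← pow_mul, mul_comm k j]; rfl
  simp only [h1]
  rw [Finset.prod_comm]
  have h2 : ∀ j ∈ Finset.range p, ∏ k ∈ Finset.range p, (y ^ j) (((x ^ j) ^ k) v)
      = if j = 0 then v ^ p else 1 := by
    intro j hj
    rw [← map_prod]
    split_ifs with h0
    · subst h0; simp [Finset.prod_const]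
    · have hj' : ¬ p ∣ j := fun hd =>
        h0 (Nat.eq_zero_of_dvd_of_lt hd (Finset.mem_range.mp hj))
      have hxj : (x ^ j) ^ p = 1 := by rw [← pow_mul, mul_comm, pow_mul, hx, one_pow]
      have := h24bs_fpf_pow hx hfpf hj' (h24bs_orbit_prod_fix hxj v)
      rw [this, map_one]
  rw [Finset.prod_congr rfl h2]
  simp [hp.pos]

/-- If all `y * x^k` are fixed-point-free of order dividing `p`, then `W` is trivial. -/
theorem h24bs_R2a [Finite W] {p : ℕ} [Fact p.Prime] (hW : (Nat.card W).Coprime p)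
    {x y : MulAut W} (hx : x ^ p = 1) (hxy : x * y = y * x) (hfpf : ∀ w, x w = w → w = 1)
    (hy : ∀ k < p, (y * x ^ k) ^ p = 1 ∧ ∀ w, (y * x ^ k) w = w → w = 1) (v : W) : v = 1 := by
  have h := h24bs_R2b hx hxy hfpf v
  have h1 : ∀ k ∈ Finset.range p, ∏ j ∈ Finset.range p, ((y * x ^ k) ^ j) v = 1 := fun k hk =>
    (hy k (Finset.mem_range.mp hk)).2 _
      (h24bs_orbit_prod_fix (hy k (Finset.mem_range.mp hk)).1 v)
  rw [Finset.prod_congr rfl h1, Finset.prod_const_one] at h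
  exact h24bs_pow_cancel hW (by rw [one_pow]; exact h.symm)

/-- The stabilizer of a subgroup `V` of `W`. -/
def h24bsStab (V : Subgroup W) : Subgroup (MulAut W) where
  carrier := {n | ∀ v, n v ∈ V ↔ v ∈ V}
  mul_mem' := by
    intro n m hn hm v
    rw [MulAut.mul_apply, hn, hm]
  one_mem' := fun v => Iff.rfl
  inv_mem' := by
    intro n hn v
    rw [← hn (n⁻¹ v), MulAut.apply_inv_self]

theorem h24bs_mem_stab {V : Subgroup W} {n : MulAut W} :
    n ∈ h24bsStab V ↔ ∀ v, n v ∈ V ↔ v ∈ V := Iff.rfl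

theorem h24bs_stab_of_map {V : Subgroup W} {n : MulAut W} (h : V.map n.toMonoidHom = V) :
    n ∈ h24bsStab V := by
  intro v
  constructor
  · intro hv
    rw [← h] at hv
    obtain ⟨v', hv', e⟩ := Subgroup.mem_map.mp hv
    have : v' = v := n.injective e
    rw [← this]; exact hv'
  · intro hv
    rw [← h]; exact Subgroup.mem_map_of_mem _ hv

/-- Restriction to a stabilized subgroup. -/
def h24bsRes (V : Subgroup W) : h24bsStab V →* MulAut V where
  toFun n :=
    { toFun := fun v => ⟨n.1 v.1, (n.2 v.1).mpr v.2⟩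
      invFun := fun v => ⟨n.1⁻¹ v.1, ((h24bsStab V).inv_mem n.2 v.1).mpr v.2⟩
      left_inv := fun v => Subtype.ext (by simp)
      right_inv := fun v => Subtype.ext (by simp)
      map_mul' := fun v v' => Subtype.ext (map_mul n.1 v.1 v'.1) }
  map_one' := by ext v; rfl
  map_mul' := fun n m => by ext v; rfl

/-- The claim: some element of `W` is fixed by no `N`-conjugate of `a`. -/
def h24bsClaim (N : Subgroup (MulAut W)) (a : MulAut W) : Prop :=
  ∃ w : W, ∀ n ∈ N, (n * a * n⁻¹) w ≠ w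

end Base

/-- The induction statement at size `k`. -/
def h24bsStmt (p : ℕ) (k : ℕ) : Prop :=
  ∀ (W : Type u) [CommGroup W] [Finite W], Nat.card W ≤ k → (Nat.card W).Coprime p →
    ∀ N Q : Subgroup (MulAut W), Q ≤ N → (∀ n ∈ N, ∀ q ∈ Q, n * q * n⁻¹ ∈ Q) → IsPGroup p Q →
    ∀ a ∈ Q, a ≠ 1 → h24bsClaim N a

section RL

variable {W : Type u} [CommGroup W]

/-- Restriction lemma: the induction hypothesis applied to a stabilized subgroup. -/
theorem h24bs_RL {p : ℕ} [Fact p.Prime] {k : ℕ} (IH : h24bsStmt.{u} p k) [Finite W]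
    (hW : (Nat.card W).Coprime p) {N Q : Subgroup (MulAut W)} (hQN : Q ≤ N)
    (hnorm : ∀ n ∈ N, ∀ q ∈ Q, n * q * n⁻¹ ∈ Q) (hQ : IsPGroup p Q) {a : MulAut W} (ha : a ∈ Q)
    (V : Subgroup W) (hVk : Nat.card V ≤ k) (haV : a ∈ h24bsStab V)
    (hne : ∃ v ∈ V, a v ≠ v) :
    ∃ v ∈ V, ∀ n ∈ N, n ∈ h24bsStab V → (n * a * n⁻¹) v ≠ v := by
  classical
  let N' : Subgroup (MulAut V) := (N.subgroupOf (h24bsStab V)).map (h24bsRes V)
  let Q' : Subgroup (MulAut V) := (Q.subgroupOf (h24bsStab V)).map (h24bsRes V)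
  have hQN' : Q' ≤ N' := Subgroup.map_mono (Subgroup.comap_mono hQN)
  have hQ' : IsPGroup p Q' := (hQ.comap_subtype).map (h24bsRes V)
  have hnorm' : ∀ n ∈ N', ∀ q ∈ Q', n * q * n⁻¹ ∈ Q' := by
    rintro _ ⟨n, hn, rfl⟩ _ ⟨q, hq, rfl⟩
    refine ⟨n * q * n⁻¹, ?_, by simp⟩
    rw [SetLike.mem_coe, Subgroup.mem_subgroupOf] at hn hq ⊢
    exact hnorm _ hn _ hq
  have ha' : h24bsRes V ⟨a, haV⟩ ∈ Q' :=
    ⟨⟨a, haV⟩, Subgroup.mem_subgroupOf.mpr ha, rfl⟩
  have hne' : h24bsRes V ⟨a, haV⟩ ≠ 1 := by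
    obtain ⟨v, hv, hav⟩ := hne
    intro h1
    apply hav
    have := congrArg (fun f : MulAut V => (f ⟨v, hv⟩).1) h1
    exact this
  have hc : (Nat.card V).Coprime p :=
    Nat.Coprime.coprime_dvd_left (Subgroup.card_subgroup_dvd_card V) hW
  obtain ⟨v, hv⟩ := IH V hVk hc N' Q' hQN' hnorm' hQ' _ ha' hne'
  refine ⟨v.1, v.2, fun n hn hst h => ?_⟩
  have hmem : h24bsRes V ⟨n, hst⟩ ∈ N' := ⟨⟨n, hst⟩, Subgroup.mem_subgroupOf.mpr hn, rfl⟩
  apply hv _ hmem
  apply Subtype.ext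
  rw [← map_inv]
  exact h

end RL

end Cfsg.Agent.Helper24
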