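import Mathlib

/-!
# Lower central series of a `p`-group generated by elements of order `p` (helper24)

Prefix `h24bs`.  If `M` is generated by elements of order dividing `p` (`p` odd) then the last
nontrivial term of its lower central series has exponent `p`, the one before is abelian of
exponent `p`, and `M` itself has exponent `p` if its class is at most two.
-/

set_option autoImplicit false

namespace Cfsg.Agent.Helper24

universe u

open scoped commutatorElement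

section Lcs

variable {H : Type u} [Group H]

/-- Power formula: if `s * g = g * s * e` with `e` commuting with `g` and `s`. -/
theorem h24bs_power_formula {g s e : H} (h : s * g = g * s * e) (hg : Commute e g)
    (hs : Commute e s) (k : ℕ) :
    (g * s) ^ k = g ^ k * s ^ k * e ^ (∑ i ∈ Finset.range k, i) := by
  have h1 : ∀ k : ℕ, s ^ k * g = g * s ^ k * e ^ k := by
    intro k
    induction k with
    | zero => simp
    | succ k ih =>
      have h2 := (hs.pow_left k).eq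
      calc s ^ (k + 1) * g = s ^ k * (s * g) := by rw [pow_succ, mul_assoc]
        _ = s ^ k * (g * s * e) := by rw [h]
        _ = (s ^ k * g) * s * e := by group
        _ = g * s ^ k * e ^ k * s * e := by rw [ih]
        _ = g * s ^ k * (e ^ k * s) * e := by group
        _ = g * s ^ k * (s * e ^ k) * e := by rw [h2]
        _ = g * s ^ (k + 1) * e ^ (k + 1) := by group
  induction k with
  | zero => simp
  | succ k ih =>
    rw [pow_succ, ih, Finset.sum_range_succ]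
    generalize (∑ i ∈ Finset.range k, i) = T
    have he1 : e ^ T * g = g * e ^ T := (hg.pow_left T).eq
    have he2 : e ^ T * s = s * e ^ T := (hs.pow_left T).eq
    have he3 : e ^ k * s = s * e ^ k := (hs.pow_left k).eq
    calc g ^ k * s ^ k * e ^ T * (g * s)
        = g ^ k * s ^ k * (e ^ T * g) * s := by group
      _ = g ^ k * s ^ k * (g * e ^ T) * s := by rw [he1]
      _ = g ^ k * (s ^ k * g) * (e ^ T * s) := by group
      _ = g ^ k * (g * s ^ k * e ^ k) * (s * e ^ T) := by rw [h1 k, he2]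
      _ = g ^ k * g * s ^ k * (e ^ k * s) * e ^ T := by group
      _ = g ^ k * g * s ^ k * (s * e ^ k) * e ^ T := by rw [he3]
      _ = g ^ (k + 1) * s ^ (k + 1) * e ^ (T + k) := by group

theorem h24bs_dvd_tri {p : ℕ} (hp : p.Prime) (hp2 : p ≠ 2) : p ∣ ∑ i ∈ Finset.range p, i := by
  have h1 : p ∣ (∑ i ∈ Finset.range p, i) * 2 := by
    rw [Finset.sum_range_id_mul_two]; exact dvd_mul_right _ _
  have hcop : Nat.Coprime p 2 := (Nat.coprime_primes hp Nat.prime_two).mpr hp2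
  exact hcop.dvd_of_dvd_mul_right h1

theorem h24bs_mul_pow_p {p : ℕ} (hp : p.Prime) (hp2 : p ≠ 2) {g s e : H}
    (h : s * g = g * s * e) (hg : Commute e g) (hs : Commute e s) (he : e ^ p = 1) :
    (g * s) ^ p = g ^ p * s ^ p := by
  rw [h24bs_power_formula h hg hs p]
  obtain ⟨c, hc⟩ := h24bs_dvd_tri hp hp2
  rw [hc, pow_mul, he, one_pow, mul_one]

theorem h24bs_conj_pow_one {p : ℕ} {y : H} (hy : y ^ p = 1) (a : H) :
    (a * y * a⁻¹) ^ p = 1 := by
  rw [conj_pow, hy, mul_one, mul_inv_cancel]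

theorem h24bs_lcs_le (M : Subgroup H) (k : ℕ) : M.lowerCentralSeries k ≤ M :=
  M.lowerCentralSeries_antitone (Nat.zero_le k)

theorem h24bs_lcs_conj (M : Subgroup H) (k : ℕ) {m x : H} (hm : m ∈ M)
    (hx : x ∈ M.lowerCentralSeries k) : m * x * m⁻¹ ∈ M.lowerCentralSeries k :=
  (Subgroup.mem_normalizer_iff.mp (M.self_le_normalizer_lowerCentralSeries k hm) x).mp hx

/-- The last nontrivial term is central. -/
theorem h24bs_lcs_central {M : Subgroup H} {k : ℕ} (hk : M.lowerCentralSeries (k + 1) = ⊥)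
    {x m : H} (hx : x ∈ M.lowerCentralSeries k) (hm : m ∈ M) : x * m = m * x := by
  have h : ⁅x, m⁆ ∈ M.lowerCentralSeries (k + 1) := Subgroup.commutator_mem_commutator hx hm
  rw [hk] at h
  exact commutatorElement_eq_one_iff_mul_comm.mp (Subgroup.mem_bot.mp h)

/-- The last nontrivial term (when it is not `M` itself) has exponent `p`. -/
theorem h24bs_lcs_exp_last {p : ℕ} {M : Subgroup H} {S : Set H}
    (hMS : M = Subgroup.closure S) (hS : ∀ s ∈ S, s ^ p = 1) {n : ℕ}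
    (hn : M.lowerCentralSeries (n + 2) = ⊥) :
    ∀ g ∈ M.lowerCentralSeries (n + 1), g ^ p = 1 := by
  have hcen : ∀ {x m : H}, x ∈ M.lowerCentralSeries (n + 1) → m ∈ M → x * m = m * x :=
    fun hx hm => h24bs_lcs_central hn hx hm
  have hcm : ∀ {x m : H}, x ∈ M.lowerCentralSeries n → m ∈ M →
      ⁅x, m⁆ ∈ M.lowerCentralSeries (n + 1) :=
    fun hx hm => Subgroup.commutator_mem_commutator hx hm
  -- step 1
  have hhom : ∀ x ∈ M.lowerCentralSeries n, ∀ m₁ ∈ M, ∀ m₂ ∈ M,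
      ⁅x, m₁ * m₂⁆ = ⁅x, m₁⁆ * ⁅x, m₂⁆ := by
    intro x hx m₁ hm₁ m₂ hm₂
    have hc := hcen (hcm hx hm₂) (inv_mem hm₁)
    calc ⁅x, m₁ * m₂⁆ = x * m₁ * x⁻¹ * (⁅x, m₂⁆ * m₁⁻¹) := by
          simp only [commutatorElement_def]; group
      _ = x * m₁ * x⁻¹ * (m₁⁻¹ * ⁅x, m₂⁆) := by rw [hc]
      _ = ⁅x, m₁⁆ * ⁅x, m₂⁆ := by simp only [commutatorElement_def]; group
  have step1 : ∀ x ∈ M.lowerCentralSeries n, ∀ m ∈ M, ⁅x, m⁆ ^ p = 1 := by
    intro x hx m hm
    have hm' : m ∈ Subgroup.closure S := hMS ▸ hm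
    have hcl : ∀ y, y ∈ Subgroup.closure S → y ∈ M := fun y hy => hMS ▸ hy
    induction hm' using Subgroup.closure_induction with
    | mem s hs =>
      have hsM : s ∈ M := hcl _ (Subgroup.subset_closure hs)
      have hpow : ∀ j : ℕ, ⁅x, s ^ j⁆ = ⁅x, s⁆ ^ j := by
        intro j
        induction j with
        | zero => simp
        | succ j ih => rw [pow_succ, hhom x hx _ (pow_mem hsM j) _ hsM, ih, pow_succ]
      rw [← hpow, hS s hs]; simp
    | one => simp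
    | mul m₁ m₂ h₁ h₂ ih₁ ih₂ =>
      have hm₁ := hcl _ h₁
      have hm₂ := hcl _ h₂
      rw [hhom x hx _ hm₁ _ hm₂]
      have hc : Commute ⁅x, m₁⁆ ⁅x, m₂⁆ :=
        hcen (hcm hx hm₁) (h24bs_lcs_le M _ (hcm hx hm₂))
      rw [hc.mul_pow, ih₁ hm₁, ih₂ hm₂, mul_one]
    | inv m h₁ ih =>
      have hm₁ := hcl _ h₁
      have h1 : ⁅x, m⁆ * ⁅x, m⁻¹⁆ = 1 := by
        rw [← hhom x hx _ hm₁ _ (inv_mem hm₁), mul_inv_cancel]; simp
      have h2 : ⁅x, m⁻¹⁆ = ⁅x, m⁆⁻¹ := (eq_inv_of_mul_eq_one_right h1)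
      rw [h2, inv_pow, ih hm₁, inv_one]
  -- step 2
  intro g hg
  have hg' : g ∈ Subgroup.closure {g | ∃ g₁ ∈ M.lowerCentralSeries n, ∃ g₂ ∈ M, ⁅g₁, g₂⁆ = g} :=
    hg
  induction hg' using Subgroup.closure_induction with
  | mem y hy =>
    obtain ⟨g₁, hg₁, g₂, hg₂, rfl⟩ := hy
    exact step1 g₁ hg₁ g₂ hg₂
  | one => simp
  | mul x y hx hy ihx ihy =>
    have hx' : x ∈ M.lowerCentralSeries (n + 1) := hx
    have hy' : y ∈ M.lowerCentralSeries (n + 1) := hy
    have hc : Commute x y := hcen hx' (h24bs_lcs_le M _ hy')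
    rw [hc.mul_pow, ihx hx', ihy hy', mul_one]
  | inv x hx ih =>
    have hx' : x ∈ M.lowerCentralSeries (n + 1) := hx
    rw [inv_pow, ih hx', inv_one]

/-- The term before the last is abelian. -/
theorem h24bs_lcs_ab {M : Subgroup H} {n : ℕ} (hn : M.lowerCentralSeries (n + 3) = ⊥)
    {x y : H} (hx : x ∈ M.lowerCentralSeries (n + 1)) (hy : y ∈ M.lowerCentralSeries (n + 1)) :
    x * y = y * x := by
  have h1 : ⁅⁅M, M.lowerCentralSeries (n + 1)⁆, M.lowerCentralSeries n⁆ = ⊥ := by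
    rw [Subgroup.commutator_comm M, Subgroup.commutator_eq_bot_iff_le_centralizer]
    intro g hg
    rw [Subgroup.mem_centralizer_iff]
    intro h hh
    have hg' : g ∈ M.lowerCentralSeries (n + 2) := hg
    exact (h24bs_lcs_central hn hg' (h24bs_lcs_le M _ hh)).symm
  have h2 : ⁅⁅M.lowerCentralSeries (n + 1), M.lowerCentralSeries n⁆, M⁆ = ⊥ := by
    have h3 : ⁅⁅M.lowerCentralSeries (n + 1), M.lowerCentralSeries n⁆, M⁆
        ≤ M.lowerCentralSeries (n + 3) :=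
      Subgroup.commutator_mono (Subgroup.commutator_mono le_rfl (h24bs_lcs_le M n)) le_rfl
    rw [hn] at h3
    exact le_bot_iff.mp h3
  have h3 : ⁅⁅M.lowerCentralSeries n, M⁆, M.lowerCentralSeries (n + 1)⁆ = ⊥ :=
    Subgroup.commutator_commutator_eq_bot_of_rotate h1 h2
  have h4 : ⁅x, y⁆ ∈ ⁅⁅M.lowerCentralSeries n, M⁆, M.lowerCentralSeries (n + 1)⁆ :=
    Subgroup.commutator_mem_commutator hx hy
  rw [h3] at h4
  exact commutatorElement_eq_one_iff_mul_comm.mp (Subgroup.mem_bot.mp h4)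

/-- The term before the last has exponent `p`. -/
theorem h24bs_lcs_exp_pen {p : ℕ} (hp : p.Prime) (hp2 : p ≠ 2) {M : Subgroup H} {S : Set H}
    (hMS : M = Subgroup.closure S) (hS : ∀ s ∈ S, s ^ p = 1) {n : ℕ}
    (hn : M.lowerCentralSeries (n + 3) = ⊥) :
    ∀ g ∈ M.lowerCentralSeries (n + 1), g ^ p = 1 := by
  have hlast := h24bs_lcs_exp_last hMS hS (n := n + 1) hn
  have hcl : ∀ y, y ∈ Subgroup.closure S → y ∈ M := fun y hy => hMS ▸ hy
  have hcm : ∀ {x m : H}, x ∈ M.lowerCentralSeries n → m ∈ M →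
      ⁅x, m⁆ ∈ M.lowerCentralSeries (n + 1) :=
    fun hx hm => Subgroup.commutator_mem_commutator hx hm
  have step1 : ∀ x ∈ M.lowerCentralSeries n, ∀ s ∈ S, ⁅x, s⁆ ^ p = 1 := by
    intro x hx s hs
    have hsM : s ∈ M := hcl _ (Subgroup.subset_closure hs)
    have hgM : ⁅x, s⁆ ∈ M.lowerCentralSeries (n + 1) := hcm hx hsM
    have h1 : ⁅x, s⁆ * s = x * s * x⁻¹ := by simp only [commutatorElement_def]; group
    have h2 : (⁅x, s⁆ * s) ^ p = 1 := by rw [h1]; exact h24bs_conj_pow_one (hS s hs) x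
    have he : (⁅x, s⁆ * s)⁻¹ * (s * ⁅x, s⁆) ∈ M.lowerCentralSeries (n + 2) := by
      have h3 : (⁅x, s⁆ * s)⁻¹ * (s * ⁅x, s⁆) = ⁅s⁻¹, ⁅x, s⁆⁻¹⁆ := by
        simp only [commutatorElement_def]; group
      rw [h3]
      have h4 : ⁅s⁻¹, ⁅x, s⁆⁻¹⁆ ∈ ⁅M, M.lowerCentralSeries (n + 1)⁆ :=
        Subgroup.commutator_mem_commutator (inv_mem hsM) (inv_mem hgM)
      rw [Subgroup.commutator_comm] at h4
      exact h4
    have hce : ∀ m ∈ M, Commute ((⁅x, s⁆ * s)⁻¹ * (s * ⁅x, s⁆)) m :=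
      fun m hm => h24bs_lcs_central hn he hm
    have h5 := h24bs_mul_pow_p hp hp2 (g := ⁅x, s⁆) (s := s)
      (e := (⁅x, s⁆ * s)⁻¹ * (s * ⁅x, s⁆)) (by group)
      (hce _ (h24bs_lcs_le M _ hgM)) (hce _ hsM) (hlast _ he)
    rw [h2, hS s hs, mul_one] at h5
    exact h5.symm
  have step2 : ∀ m ∈ M, ∀ x ∈ M.lowerCentralSeries n, ⁅x, m⁆ ^ p = 1 := by
    intro m hm
    have hm' : m ∈ Subgroup.closure S := hMS ▸ hm
    induction hm' using Subgroup.closure_induction with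
    | mem s hs => exact fun x hx => step1 x hx s hs
    | one => intro x _; simp
    | mul m₁ m₂ h₁ h₂ ih₁ ih₂ =>
      intro x hx
      have hm₁ := hcl _ h₁
      have hm₂ := hcl _ h₂
      have h1 : ⁅x, m₁ * m₂⁆ = ⁅x, m₁⁆ * (m₁ * ⁅x, m₂⁆ * m₁⁻¹) := by
        simp only [commutatorElement_def]; group
      have hc : Commute ⁅x, m₁⁆ (m₁ * ⁅x, m₂⁆ * m₁⁻¹) :=
        h24bs_lcs_ab hn (hcm hx hm₁) (h24bs_lcs_conj M _ hm₁ (hcm hx hm₂))
      rw [h1, hc.mul_pow, ih₁ hm₁ x hx, h24bs_conj_pow_one (ih₂ hm₂ x hx), mul_one]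
    | inv m h₁ ih =>
      intro x hx
      have hm₁ := hcl _ h₁
      have h1 : ⁅x, m⁻¹⁆ = m⁻¹ * ⁅x, m⁆⁻¹ * m⁻¹⁻¹ := by
        simp only [commutatorElement_def]; group
      rw [h1]
      exact h24bs_conj_pow_one (by rw [inv_pow, ih hm₁ x hx, inv_one]) _
  intro g hg
  have hg' : g ∈ Subgroup.closure {g | ∃ g₁ ∈ M.lowerCentralSeries n, ∃ g₂ ∈ M, ⁅g₁, g₂⁆ = g} :=
    hg
  induction hg' using Subgroup.closure_induction with
  | mem y hy =>
    obtain ⟨g₁, hg₁, g₂, hg₂, rfl⟩ := hy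
    exact step2 g₂ hg₂ g₁ hg₁
  | one => simp
  | mul x y hx hy ihx ihy =>
    have hx' : x ∈ M.lowerCentralSeries (n + 1) := hx
    have hy' : y ∈ M.lowerCentralSeries (n + 1) := hy
    have hc : Commute x y := h24bs_lcs_ab hn hx' hy'
    rw [hc.mul_pow, ihx hx', ihy hy', mul_one]
  | inv x hx ih =>
    have hx' : x ∈ M.lowerCentralSeries (n + 1) := hx
    rw [inv_pow, ih hx', inv_one]

/-- If `M` has class at most two then it has exponent `p`. -/
theorem h24bs_lcs_exp_class2 {p : ℕ} (hp : p.Prime) (hp2 : p ≠ 2) {M : Subgroup H} {S : Set H}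
    (hMS : M = Subgroup.closure S) (hS : ∀ s ∈ S, s ^ p = 1)
    (hn : M.lowerCentralSeries 2 = ⊥) : ∀ g ∈ M, g ^ p = 1 := by
  have hlast := h24bs_lcs_exp_last hMS hS (n := 0) hn
  have hcl : ∀ y, y ∈ Subgroup.closure S → y ∈ M := fun y hy => hMS ▸ hy
  intro g hg
  have hg' : g ∈ Subgroup.closure S := hMS ▸ hg
  induction hg' using Subgroup.closure_induction with
  | mem s hs => exact hS s hs
  | one => simp
  | mul m₁ m₂ h₁ h₂ ih₁ ih₂ =>
    have hm₁ := hcl _ h₁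
    have hm₂ := hcl _ h₂
    have he : (m₁ * m₂)⁻¹ * (m₂ * m₁) ∈ M.lowerCentralSeries 1 := by
      have h3 : (m₁ * m₂)⁻¹ * (m₂ * m₁) = ⁅m₂⁻¹, m₁⁻¹⁆ := by
        simp only [commutatorElement_def]; group
      rw [h3]
      exact Subgroup.commutator_mem_commutator (inv_mem hm₂) (inv_mem hm₁)
    have hce : ∀ m ∈ M, Commute ((m₁ * m₂)⁻¹ * (m₂ * m₁)) m :=
      fun m hm => h24bs_lcs_central hn he hm
    rw [h24bs_mul_pow_p hp hp2 (g := m₁) (s := m₂) (e := (m₁ * m₂)⁻¹ * (m₂ * m₁)) (by group)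
      (hce _ hm₁) (hce _ hm₂) (hlast _ he), ih₁ hm₁, ih₂ hm₂, mul_one]
  | inv m h₁ ih =>
    rw [inv_pow, ih (hcl _ h₁), inv_one]

end Lcs

end Cfsg.Agent.Helper24
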