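import Cfsg.Agent.Helper24.BSBase

/-!
# Regular orbits for groups of class two and exponent `p` (helper24)

Prefix `h24bs`.  `h24bs_reg`: a group `U` of automorphisms of exponent `p` (`p` odd) whose
commutators are powers of a central fixed-point-free `z`, and whose centre acts by powers of
`z`, has a vector whose stabilizer acts trivially.
-/

set_option autoImplicit false

namespace Cfsg.Agent.Helper24

universe u

theorem h24bs_rel_pow {G : Type*} [Group G] {z c d : G} {l : ℕ} (h : d * c = z ^ l * (c * d))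
    (hzc : Commute z c) : ∀ t : ℕ, d * c ^ t = z ^ (l * t) * (c ^ t * d) := by
  intro t
  induction t with
  | zero => simp
  | succ t ih =>
    have hcomm : c ^ t * z ^ l = z ^ l * c ^ t := ((hzc.pow_left l).pow_right t).eq.symm
    calc d * c ^ (t + 1) = (d * c ^ t) * c := by rw [pow_succ, mul_assoc]
      _ = z ^ (l * t) * (c ^ t * d) * c := by rw [ih]
      _ = z ^ (l * t) * c ^ t * (d * c) := by simp only [mul_assoc]
      _ = z ^ (l * t) * c ^ t * (z ^ l * (c * d)) := by rw [h]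
      _ = z ^ (l * t) * (c ^ t * z ^ l) * (c * d) := by simp only [mul_assoc]
      _ = z ^ (l * t) * (z ^ l * c ^ t) * (c * d) := by rw [hcomm]
      _ = z ^ (l * (t + 1)) * (c ^ (t + 1) * d) := by
          rw [mul_add, mul_one, pow_add, pow_succ]; simp only [mul_assoc]

theorem h24bs_rel_pow_left {G : Type*} [Group G] {z c d : G} {l : ℕ}
    (h : d * c = z ^ l * (c * d)) (hzd : Commute z d) :
    ∀ t : ℕ, d ^ t * c = z ^ (l * t) * (c * d ^ t) := by
  intro t
  induction t with
  | zero => simp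
  | succ t ih =>
    have hcomm : d * z ^ (l * t) = z ^ (l * t) * d := (hzd.pow_left (l * t)).eq.symm
    calc d ^ (t + 1) * c = d * (d ^ t * c) := by rw [pow_succ', mul_assoc]
      _ = d * (z ^ (l * t) * (c * d ^ t)) := by rw [ih]
      _ = (d * z ^ (l * t)) * (c * d ^ t) := by simp only [mul_assoc]
      _ = z ^ (l * t) * d * (c * d ^ t) := by rw [hcomm]
      _ = z ^ (l * t) * (d * c) * d ^ t := by simp only [mul_assoc]
      _ = z ^ (l * t) * (z ^ l * (c * d)) * d ^ t := by rw [h]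
      _ = z ^ (l * (t + 1)) * (c * d ^ (t + 1)) := by
          rw [mul_add, mul_one, pow_add, pow_succ']; simp only [mul_assoc]

theorem h24bs_solve {p : ℕ} (hp : p.Prime) {l : ℕ} (hl : ¬ p ∣ l) (ν : ℕ) :
    ∃ t, p ∣ l * t + ν := by
  have hcop : Nat.Coprime l p := Nat.Coprime.symm ((Nat.Prime.coprime_iff_not_dvd hp).mpr hl)
  obtain ⟨t, -, ht⟩ := Nat.exists_mul_mod_eq_of_coprime ((p - 1) * ν) hcop hp.ne_zero
  refine ⟨t, ?_⟩
  have h1 : l * t ≡ (p - 1) * ν [MOD p] := ht
  have h2 : l * t + ν ≡ (p - 1) * ν + ν [MOD p] := h1.add_right ν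
  have h3 : (p - 1) * ν + ν = p * ν := by
    obtain ⟨q, rfl⟩ : ∃ q, p = q + 1 := ⟨p - 1, (Nat.sub_add_cancel hp.pos).symm⟩
    simp; ring
  rw [h3] at h2
  exact (Nat.modEq_zero_iff_dvd).mp (h2.trans (Nat.modEq_zero_iff_dvd.mpr (dvd_mul_right p ν)))

section Reg

variable {W : Type u} [CommGroup W]

/-- Fixed points of a single automorphism. -/
def h24bsFixEl (c : MulAut W) : Subgroup W where
  carrier := {u | c u = u}
  mul_mem' := by
    intro a b ha hb
    have ha' : c a = a := ha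
    have hb' : c b = b := hb
    show c (a * b) = a * b
    rw [map_mul, ha', hb']
  one_mem' := map_one c
  inv_mem' := by
    intro a ha
    have ha' : c a = a := ha
    show c a⁻¹ = a⁻¹
    rw [map_inv, ha']

theorem h24bs_eigen_prod {p : ℕ} [Fact p.Prime] {z : MulAut W} (hz : z ^ p = 1)
    (hfpf : ∀ w, z w = w → w = 1) {f : MulAut W} (hfz : f * z = z * f) {x : W} {i : ℕ}
    (hx : f x = (z ^ i) x) :
    ∏ r ∈ Finset.range p, (f ^ r) x = if p ∣ i then x ^ p else 1 := by
  have h1 : ∀ r : ℕ, (f ^ r) x = ((z ^ i) ^ r) x := by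
    intro r
    induction r with
    | zero => simp
    | succ r ih =>
      have hc : f ^ r * z ^ i = z ^ i * f ^ r :=
        ((Commute.pow_right (show Commute f z from hfz) i).pow_left r).eq
      calc (f ^ (r + 1)) x = (f ^ r) (f x) := by rw [pow_succ]; rfl
        _ = (f ^ r * z ^ i) x := by rw [hx]; rfl
        _ = (z ^ i) ((f ^ r) x) := by rw [hc]; rfl
        _ = ((z ^ i) ^ (r + 1)) x := by rw [ih, pow_succ']; rfl
  simp only [h1]
  split_ifs with hd
  · rw [h24bs_pow_of_dvd hz hd]; simp [Finset.prod_const]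
  · have hzi : (z ^ i) ^ p = 1 := by rw [← pow_mul, mul_comm, pow_mul, hz, one_pow]
    exact h24bs_fpf_pow hz hfpf hd (h24bs_orbit_prod_fix hzi x)

variable [Finite W]

theorem h24bs_reg {p : ℕ} [Fact p.Prime] (hp2 : p ≠ 2) (hW : (Nat.card W).Coprime p)
    {z : MulAut W} (hz : z ^ p = 1) (hfpf : ∀ w, z w = w → w = 1) :
    ∀ k : ℕ, ∀ V : Subgroup W, Nat.card V ≤ k → V ≠ ⊥ → ∀ U : Subgroup (MulAut W),
      z ∈ U → (∀ d ∈ U, ∀ v ∈ V, d v ∈ V) → (∀ d ∈ U, d ^ p = 1) →
      (∀ d ∈ U, ∀ d' ∈ U, ∃ j : ℕ, d * d' = z ^ j * (d' * d)) →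
      (∀ d ∈ U, d * z = z * d) →
      (∀ d ∈ U, (∀ d' ∈ U, d * d' = d' * d) → ∃ i : ℕ, ∀ u ∈ V, d u = (z ^ i) u) →
      ∃ v ∈ V, ∀ d ∈ U, d v = v → ∀ u ∈ V, d u = u := by
  have hp := (Fact.out : p.Prime)
  intro k
  induction k with
  | zero =>
    intro V hVk
    have := Nat.card_pos (α := V)
    omega
  | succ k ih =>
    intro V hVk hV U hzU hstab hexp hrel hzc hZC
    obtain ⟨⟨v, hv⟩, hvne⟩ := (Subgroup.ne_bot_iff_exists_ne_one).mp hV
    have hv1 : v ≠ 1 := fun h => hvne (Subtype.ext h)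
    by_cases hcomm : ∀ d ∈ U, ∀ d' ∈ U, d * d' = d' * d
    · refine ⟨v, hv, fun d hd hdv u hu => ?_⟩
      obtain ⟨i, hi⟩ := hZC d hd (hcomm d hd)
      have h1 : (z ^ i) v = v := by rw [← hi v hv]; exact hdv
      by_cases hpi : p ∣ i
      · rw [hi u hu, h24bs_pow_of_dvd hz hpi]; rfl
      · exact absurd (h24bs_fpf_pow hz hfpf hpi h1) hv1
    · push Not at hcomm
      obtain ⟨c₀, hc₀, d₀, hd₀, hne⟩ := hcomm
      have hR := h24bs_R2b hz (hzc c₀ hc₀).symm hfpf v
      have hvp : v ^ p ≠ 1 := fun h => hv1 (h24bs_pow_cancel hW (by rw [h, one_pow]))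
      have hex : ∃ k₀ ∈ Finset.range p, ∏ j ∈ Finset.range p, ((c₀ * z ^ k₀) ^ j) v ≠ 1 := by
        by_contra hcon
        push Not at hcon
        exact hvp (by rw [← hR]; exact Finset.prod_eq_one hcon)
      obtain ⟨k₀, -, hk₀⟩ := hex
      set c := c₀ * z ^ k₀ with hcdef
      have hcU : c ∈ U := mul_mem hc₀ (pow_mem hzU k₀)
      set v₁ := ∏ j ∈ Finset.range p, (c ^ j) v with hv₁def
      have hv₁V : v₁ ∈ V := Subgroup.prod_mem V (fun j _ => hstab _ (pow_mem hcU j) v hv)
      have hcv₁ : c v₁ = v₁ := h24bs_orbit_prod_fix (hexp c hcU) v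
      have hcd₀ : c * d₀ ≠ d₀ * c := by
        intro h
        apply hne
        have hzd : d₀ * z ^ k₀ = z ^ k₀ * d₀ :=
          (Commute.pow_right (show Commute d₀ z from hzc d₀ hd₀) k₀).eq
        have : c₀ * d₀ * z ^ k₀ = d₀ * c₀ * z ^ k₀ := by
          calc c₀ * d₀ * z ^ k₀ = c₀ * (d₀ * z ^ k₀) := mul_assoc _ _ _
            _ = c₀ * (z ^ k₀ * d₀) := by rw [hzd]
            _ = c₀ * z ^ k₀ * d₀ := (mul_assoc _ _ _).symm
            _ = d₀ * (c₀ * z ^ k₀) := h
            _ = d₀ * c₀ * z ^ k₀ := (mul_assoc _ _ _).symm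
        exact mul_right_cancel this
      obtain ⟨lam, hlam⟩ := hrel c hcU d₀ hd₀
      have hlam' : ¬ p ∣ lam := fun hd =>
        hcd₀ (by rw [hlam, h24bs_pow_of_dvd hz hd, one_mul])
      let V₀ : Subgroup W := V ⊓ h24bsFixEl c
      let U₀ : Subgroup (MulAut W) := U ⊓ Subgroup.centralizer {c}
      have hU₀ : ∀ d, d ∈ U₀ ↔ d ∈ U ∧ c * d = d * c := by
        intro d; simp [U₀, Subgroup.mem_centralizer_iff]
      have hV₀ : ∀ u, u ∈ V₀ ↔ u ∈ V ∧ c u = u := fun u => Subgroup.mem_inf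
      have hv₁V₀ : v₁ ∈ V₀ := (hV₀ _).mpr ⟨hv₁V, hcv₁⟩
      have hV₀ne : V₀ ≠ ⊥ := fun h => hk₀ ((Subgroup.eq_bot_iff_forall _).mp h v₁ hv₁V₀)
      have hV₀lt : Nat.card V₀ ≤ k := by
        have hle : V₀ ≤ V := inf_le_left
        have hneq : V₀ ≠ V := by
          intro heq
          have h1 : d₀ v₁ ∈ V₀ := by rw [heq]; exact hstab d₀ hd₀ v₁ hv₁V
          have h2 : c (d₀ v₁) = d₀ v₁ := ((hV₀ _).mp h1).2
          have h3 : c (d₀ v₁) = (z ^ lam) (d₀ v₁) := by
            calc c (d₀ v₁) = (c * d₀) v₁ := rfl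
              _ = (z ^ lam * (d₀ * c)) v₁ := by rw [hlam]
              _ = (z ^ lam) (d₀ (c v₁)) := rfl
              _ = (z ^ lam) (d₀ v₁) := by rw [hcv₁]
          have h4 : d₀ v₁ = 1 := h24bs_fpf_pow hz hfpf hlam' (h3.symm.trans h2)
          exact hk₀ ((map_eq_one_iff d₀ d₀.injective).mp h4)
        by_contra hcon
        push Not at hcon
        exact hneq (Subgroup.eq_of_le_of_card_ge hle (by omega))
      have hzU₀ : z ∈ U₀ := (hU₀ z).mpr ⟨hzU, hzc c hcU⟩
      have hstab₀ : ∀ d ∈ U₀, ∀ u ∈ V₀, d u ∈ V₀ := by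
        intro d hd u hu
        obtain ⟨hdU, hdc⟩ := (hU₀ d).mp hd
        obtain ⟨huV, hcu⟩ := (hV₀ u).mp hu
        refine (hV₀ _).mpr ⟨hstab d hdU u huV, ?_⟩
        calc c (d u) = (c * d) u := rfl
          _ = (d * c) u := by rw [hdc]
          _ = d (c u) := rfl
          _ = d u := by rw [hcu]
      obtain ⟨lam', hlam'0⟩ := hrel d₀ hd₀ c hcU
      have hlam'1 : ¬ p ∣ lam' := fun hd =>
        hcd₀ (by rw [hlam'0, h24bs_pow_of_dvd hz hd, one_mul])
      have hZC₀ : ∀ d ∈ U₀, (∀ d' ∈ U₀, d * d' = d' * d) →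
          ∃ i : ℕ, ∀ u ∈ V₀, d u = (z ^ i) u := by
        intro d hd hdcen
        obtain ⟨hdU, hdc⟩ := (hU₀ d).mp hd
        obtain ⟨nu, hnu⟩ := hrel d₀ hd₀ d hdU
        obtain ⟨t, ht⟩ := h24bs_solve hp hlam'1 nu
        have hd'U : d * c ^ t ∈ U := mul_mem hdU (pow_mem hcU t)
        have hcomm₀ : d₀ * (d * c ^ t) = (d * c ^ t) * d₀ := by
          have h1 := h24bs_rel_pow hlam'0 (show Commute z c from (hzc c hcU).symm) t
          have hzd : Commute (z ^ (lam' * t)) d := (show Commute z d from (hzc d hdU).symm).pow_left _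
          calc d₀ * (d * c ^ t) = (d₀ * d) * c ^ t := (mul_assoc _ _ _).symm
            _ = z ^ nu * (d * d₀) * c ^ t := by rw [hnu]
            _ = z ^ nu * d * (d₀ * c ^ t) := by simp only [mul_assoc]
            _ = z ^ nu * d * (z ^ (lam' * t) * (c ^ t * d₀)) := by rw [h1]
            _ = z ^ nu * (d * z ^ (lam' * t)) * (c ^ t * d₀) := by simp only [mul_assoc]
            _ = z ^ nu * (z ^ (lam' * t) * d) * (c ^ t * d₀) := by rw [← hzd.eq]
            _ = z ^ (lam' * t + nu) * (d * c ^ t * d₀) := by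
                rw [pow_add, (Commute.pow_pow (Commute.refl z) (lam' * t) nu).eq]
                simp only [mul_assoc]
            _ = d * c ^ t * d₀ := by rw [h24bs_pow_of_dvd hz ht, one_mul]
        have hcommU₀ : ∀ d' ∈ U₀, (d * c ^ t) * d' = d' * (d * c ^ t) := by
          intro d' hd'
          have h1 : Commute d d' := hdcen d' hd'
          have h2 : Commute c d' := ((hU₀ d').mp hd').2
          exact (h1.mul_left (h2.pow_left t)).eq
        have hcen : ∀ u ∈ U, (d * c ^ t) * u = u * (d * c ^ t) := by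
          intro u hu
          obtain ⟨s, hs⟩ := hrel u hu c hcU
          obtain ⟨i, hi⟩ := h24bs_solve hp hlam'1 s
          have h1 := h24bs_rel_pow_left hlam'0 (show Commute z d₀ from (hzc d₀ hd₀).symm) i
          have hu' : d₀ ^ i * u ∈ U₀ := by
            refine (hU₀ _).mpr ⟨mul_mem (pow_mem hd₀ i) hu, ?_⟩
            have hzd : Commute (z ^ s) (d₀ ^ i) :=
              ((show Commute z d₀ from (hzc d₀ hd₀).symm).pow_left s).pow_right i
            symm
            calc d₀ ^ i * u * c = d₀ ^ i * (u * c) := mul_assoc _ _ _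
              _ = d₀ ^ i * (z ^ s * (c * u)) := by rw [hs]
              _ = (d₀ ^ i * z ^ s) * (c * u) := by simp only [mul_assoc]
              _ = (z ^ s * d₀ ^ i) * (c * u) := by rw [hzd.eq]
              _ = z ^ s * (d₀ ^ i * c) * u := by simp only [mul_assoc]
              _ = z ^ s * (z ^ (lam' * i) * (c * d₀ ^ i)) * u := by rw [h1]
              _ = z ^ (lam' * i + s) * (c * (d₀ ^ i * u)) := by
                  rw [pow_add, (Commute.pow_pow (Commute.refl z) (lam' * i) s).eq]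
                  simp only [mul_assoc]
              _ = c * (d₀ ^ i * u) := by rw [h24bs_pow_of_dvd hz hi, one_mul]
          have h2 : Commute (d * c ^ t) (d₀ ^ i * u) := hcommU₀ _ hu'
          have h3 : Commute (d * c ^ t) (d₀ ^ i) :=
            Commute.pow_right (show Commute (d * c ^ t) d₀ from hcomm₀.symm) i
          have h4 : Commute (d * c ^ t) ((d₀ ^ i)⁻¹ * (d₀ ^ i * u)) :=
            h3.inv_right.mul_right h2
          rw [inv_mul_cancel_left] at h4
          exact h4.eq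
        obtain ⟨i, hi⟩ := hZC _ hd'U hcen
        refine ⟨i, fun u hu => ?_⟩
        obtain ⟨huV, hcu⟩ := (hV₀ u).mp hu
        rw [← hi u huV]
        show d u = d ((c ^ t) u)
        rw [h24bs_pow_fix hcu t]
      obtain ⟨v₀, hv₀, hv₀prop⟩ := ih V₀ hV₀lt hV₀ne U₀ hzU₀ hstab₀
        (fun d hd => hexp d ((hU₀ d).mp hd).1)
        (fun d hd d' hd' => hrel d ((hU₀ d).mp hd).1 d' ((hU₀ d').mp hd').1)
        (fun d hd => hzc d ((hU₀ d).mp hd).1) hZC₀
      obtain ⟨hv₀V, hcv₀⟩ := (hV₀ v₀).mp hv₀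
      have hv₀ne : v₀ ≠ 1 := by
        intro h
        have h1 := hv₀prop z hzU₀ (by rw [h, map_one]) v₁ hv₁V₀
        exact hk₀ (hfpf v₁ h1)
      refine ⟨v₀ * d₀ v₀, mul_mem hv₀V (hstab d₀ hd₀ v₀ hv₀V), fun d hd hdv => ?_⟩
      obtain ⟨mu, hmu⟩ := hrel c hcU d hd
      have hE1 : c (d v₀) = (z ^ mu) (d v₀) := by
        calc c (d v₀) = (c * d) v₀ := rfl
          _ = (z ^ mu * (d * c)) v₀ := by rw [hmu]
          _ = (z ^ mu) (d (c v₀)) := rfl
          _ = (z ^ mu) (d v₀) := by rw [hcv₀]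
      have hE0 : c (d₀ v₀) = (z ^ lam) (d₀ v₀) := by
        calc c (d₀ v₀) = (c * d₀) v₀ := rfl
          _ = (z ^ lam * (d₀ * c)) v₀ := by rw [hlam]
          _ = (z ^ lam) (d₀ (c v₀)) := rfl
          _ = (z ^ lam) (d₀ v₀) := by rw [hcv₀]
      have hE2 : c (d (d₀ v₀)) = (z ^ (mu + lam)) (d (d₀ v₀)) := by
        have hzd : d * z ^ lam = z ^ lam * d :=
          (Commute.pow_right (show Commute d z from hzc d hd) lam).eq
        calc c (d (d₀ v₀)) = (c * d) (d₀ v₀) := rfl
          _ = (z ^ mu * (d * c)) (d₀ v₀) := by rw [hmu]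
          _ = (z ^ mu) (d (c (d₀ v₀))) := rfl
          _ = (z ^ mu) (d ((z ^ lam) (d₀ v₀))) := by rw [hE0]
          _ = (z ^ mu) ((d * z ^ lam) (d₀ v₀)) := rfl
          _ = (z ^ mu) ((z ^ lam * d) (d₀ v₀)) := by rw [hzd]
          _ = (z ^ (mu + lam)) (d (d₀ v₀)) := by rw [pow_add]; rfl
      have hE3 : c v₀ = (z ^ 0) v₀ := by rw [hcv₀, pow_zero]; rfl
      have heq : d v₀ * d (d₀ v₀) = v₀ * d₀ v₀ := by rw [← map_mul]; exact hdv
      have hT : ∀ f : MulAut W,
          (∏ r ∈ Finset.range p, (f ^ r) (d v₀)) * (∏ r ∈ Finset.range p, (f ^ r) (d (d₀ v₀)))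
          = (∏ r ∈ Finset.range p, (f ^ r) v₀) * (∏ r ∈ Finset.range p, (f ^ r) (d₀ v₀)) := by
        intro f
        rw [← Finset.prod_mul_distrib, ← Finset.prod_mul_distrib]
        refine Finset.prod_congr rfl (fun r _ => ?_)
        have h := congrArg (fun x => (f ^ r) x) heq
        simp only [map_mul] at h
        exact h
      have hczc : c * z = z * c := hzc c hcU
      have hmu_dvd : p ∣ mu := by
        by_contra hmu'
        have h0 := hT c
        rw [h24bs_eigen_prod hz hfpf hczc hE1, h24bs_eigen_prod hz hfpf hczc hE2,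
          h24bs_eigen_prod hz hfpf hczc hE3, h24bs_eigen_prod hz hfpf hczc hE0,
          if_neg hmu', if_pos (dvd_zero p), if_neg hlam', one_mul, mul_one] at h0
        by_cases hml : p ∣ mu + lam
        · set e := (p - 1) * lam with he
          have hpl : e + lam = p * lam := by
            obtain ⟨q, hq⟩ : ∃ q, p = q + 1 := ⟨p - 1, (Nat.sub_add_cancel hp.pos).symm⟩
            rw [he, hq]; simp; ring
          have hfz : (c * z ^ e) * z = z * (c * z ^ e) := by
            have : Commute (c * z ^ e) z :=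
              (show Commute c z from hczc).mul_left ((Commute.refl z).pow_left e)
            exact this.eq
          have htw : ∀ {x : W} {i : ℕ}, c x = (z ^ i) x → (c * z ^ e) x = (z ^ (e + i)) x := by
            intro x i hx
            have hcz : c * z ^ e = z ^ e * c :=
              (Commute.pow_right (show Commute c z from hczc) e).eq
            calc (c * z ^ e) x = (z ^ e * c) x := by rw [hcz]
              _ = (z ^ e) (c x) := rfl
              _ = (z ^ e) ((z ^ i) x) := by rw [hx]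
              _ = (z ^ (e + i)) x := by rw [pow_add]; rfl
          have h1 := hT (c * z ^ e)
          have hd1 : ¬ p ∣ e + mu := by
            intro hd
            have h2 : p ∣ (e + mu) + (mu + lam) := dvd_add hd hml
            have h3 : (e + mu) + (mu + lam) = p * lam + 2 * mu := by rw [← hpl]; ring
            rw [h3] at h2
            have h4 : p ∣ 2 * mu := (Nat.dvd_add_right (dvd_mul_right p lam)).mp h2
            have hcop : Nat.Coprime p 2 := (Nat.coprime_primes hp Nat.prime_two).mpr hp2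
            exact hmu' (hcop.dvd_of_dvd_mul_left h4)
          have hd2 : ¬ p ∣ e + (mu + lam) := by
            intro hd
            have h3 : e + (mu + lam) = p * lam + mu := by rw [← hpl]; ring
            rw [h3] at hd
            exact hmu' ((Nat.dvd_add_right (dvd_mul_right p lam)).mp hd)
          have hd4 : p ∣ e + lam := by rw [hpl]; exact dvd_mul_right p lam
          have hd3 : ¬ p ∣ e + 0 := by
            intro hd
            rw [add_zero] at hd
            exact hlam' ((Nat.dvd_add_right hd).mp hd4)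
          rw [h24bs_eigen_prod hz hfpf hfz (htw hE1), h24bs_eigen_prod hz hfpf hfz (htw hE2),
            h24bs_eigen_prod hz hfpf hfz (htw hE3), h24bs_eigen_prod hz hfpf hfz (htw hE0),
            if_neg hd1, if_neg hd2, if_neg hd3, if_pos hd4, one_mul, one_mul] at h1
          have h5 : d₀ v₀ = 1 := h24bs_pow_cancel hW (by rw [one_pow]; exact h1.symm)
          exact hv₀ne ((map_eq_one_iff d₀ d₀.injective).mp h5)
        · rw [if_neg hml] at h0
          exact hv₀ne (h24bs_pow_cancel hW (by rw [one_pow]; exact h0.symm))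
      have hcd : c * d = d * c := by rw [hmu, h24bs_pow_of_dvd hz hmu_dvd, one_mul]
      have hdU₀ : d ∈ U₀ := (hU₀ d).mpr ⟨hd, hcd⟩
      have hdv₀ : d v₀ = v₀ := by
        have h0 := hT c
        rw [h24bs_eigen_prod hz hfpf hczc hE1, h24bs_eigen_prod hz hfpf hczc hE2,
          h24bs_eigen_prod hz hfpf hczc hE3, h24bs_eigen_prod hz hfpf hczc hE0,
          if_pos hmu_dvd, if_pos (dvd_zero p), if_neg hlam',
          if_neg (fun h => hlam' ((Nat.dvd_add_right hmu_dvd).mp h)), mul_one, mul_one] at h0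
        exact h24bs_pow_cancel hW h0
      have htriv₀ := hv₀prop d hdU₀ hdv₀
      have hdd₀v₀ : d (d₀ v₀) = d₀ v₀ := by
        rw [hdv₀] at heq
        exact mul_left_cancel heq
      obtain ⟨nu, hnu⟩ := hrel d₀ hd₀ d hd
      have hnu_dvd : p ∣ nu := by
        by_contra hnu'
        have h1 : d₀ v₀ = (z ^ nu) (d₀ v₀) := by
          calc d₀ v₀ = d₀ (d v₀) := by rw [hdv₀]
            _ = (d₀ * d) v₀ := rfl
            _ = (z ^ nu * (d * d₀)) v₀ := by rw [hnu]
            _ = (z ^ nu) (d (d₀ v₀)) := rfl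
            _ = (z ^ nu) (d₀ v₀) := by rw [hdd₀v₀]
        have h2 := h24bs_fpf_pow hz hfpf hnu' h1.symm
        exact hv₀ne ((map_eq_one_iff d₀ d₀.injective).mp h2)
      have hdd₀ : Commute d₀ d := by
        show d₀ * d = d * d₀
        rw [hnu, h24bs_pow_of_dvd hz hnu_dvd, one_mul]
      have hcop : Nat.Coprime lam p :=
        Nat.Coprime.symm ((Nat.Prime.coprime_iff_not_dvd hp).mpr hlam')
      have hkey : ∀ k : ℕ, ∀ u' ∈ V, (c * z ^ k) u' = u' → d u' = u' := by
        intro k u' hu' hfix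
        obtain ⟨i, -, hi⟩ := Nat.exists_mul_mod_eq_of_coprime k hcop hp.ne_zero
        have hzi : z ^ (lam * i) = z ^ k := h24bs_pow_modEq hz hi
        have h1 := h24bs_rel_pow hlam (show Commute z d₀ from (hzc d₀ hd₀).symm) i
        have hyV : (d₀ ^ i) u' ∈ V := hstab _ (pow_mem hd₀ i) u' hu'
        have hzk_c : z ^ k * c = c * z ^ k :=
          (Commute.pow_right (show Commute c z from hczc) k).eq.symm
        have hzk_d : z ^ k * d₀ ^ i = d₀ ^ i * z ^ k :=
          ((Commute.pow_right (show Commute d₀ z from hzc d₀ hd₀) k).pow_left i).eq.symm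
        have h2 : (z ^ k) (c ((d₀ ^ i) u')) = (z ^ k) ((d₀ ^ i) u') := by
          calc (z ^ k) (c ((d₀ ^ i) u')) = (z ^ k) ((c * d₀ ^ i) u') := rfl
            _ = (z ^ k) ((z ^ (lam * i) * (d₀ ^ i * c)) u') := by rw [h1]
            _ = (z ^ (lam * i)) ((z ^ k * d₀ ^ i) (c u')) := by rw [hzi]; rfl
            _ = (z ^ (lam * i)) ((d₀ ^ i * z ^ k) (c u')) := by rw [hzk_d]
            _ = (z ^ (lam * i)) ((d₀ ^ i) ((z ^ k * c) u')) := rfl
            _ = (z ^ (lam * i)) ((d₀ ^ i) ((c * z ^ k) u')) := by rw [hzk_c]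
            _ = (z ^ k) ((d₀ ^ i) u') := by rw [hfix, hzi]
        have h3 : c ((d₀ ^ i) u') = (d₀ ^ i) u' := (z ^ k).injective h2
        have h4 : d ((d₀ ^ i) u') = (d₀ ^ i) u' := htriv₀ _ ((hV₀ _).mpr ⟨hyV, h3⟩)
        have h5 : d * d₀ ^ i = d₀ ^ i * d := (hdd₀.pow_left i).eq.symm
        have h6 : (d₀ ^ i) (d u') = (d₀ ^ i) u' := by
          calc (d₀ ^ i) (d u') = (d₀ ^ i * d) u' := rfl
            _ = (d * d₀ ^ i) u' := by rw [h5]
            _ = (d₀ ^ i) u' := h4
        exact (d₀ ^ i).injective h6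
      intro u hu
      have hR' := h24bs_R2b hz hczc.symm hfpf u
      have h7 : d (u ^ p) = u ^ p := by
        rw [← hR', map_prod]
        refine Finset.prod_congr rfl (fun k _ => ?_)
        have hckU : c * z ^ k ∈ U := mul_mem hcU (pow_mem hzU k)
        exact hkey k _ (Subgroup.prod_mem V (fun j _ => hstab _ (pow_mem hckU j) u hu))
          (h24bs_orbit_prod_fix (hexp _ hckU) u)
      rw [map_pow] at h7
      exact h24bs_pow_cancel hW h7

end Reg

end Cfsg.Agent.Helper24
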