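import Cfsg.Agent.Helper24.BSBase
import Cfsg.Agent.Helper24.BSLcs
import Cfsg.Agent.Helper24.BSReg

/-!
# A Baer–Suzuki type theorem for solvable groups: the module statement (helper24)

Prefix `h24bs`.  `h24bs_main`: let `Q` be a `p`-group (`p` odd) of automorphisms of a finite
abelian `p'`-group `W`, normalized by a group `N ≥ Q` of automorphisms, and `1 ≠ a ∈ Q`.
Then some element of `W` is fixed by no `N`-conjugate of `a`.
-/

set_option autoImplicit false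

namespace Cfsg.Agent.Helper24

universe u

open scoped commutatorElement

section Main

variable {W : Type u} [CommGroup W]

theorem h24bs_mem_fix_iff_le_stab {Y : Subgroup (MulAut W)} {w : W} :
    w ∈ h24bsFix Y ↔ Y ≤ MulAction.stabilizer (MulAut W) w :=
  ⟨fun h y hy => h y hy, fun h y hy => h hy⟩

theorem h24bs_mem_map {V : Subgroup W} {n : MulAut W} {x : W} :
    x ∈ V.map n.toMonoidHom ↔ n⁻¹ x ∈ V := by
  constructor
  · rintro ⟨v, hv, rfl⟩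
    simpa using hv
  · intro h
    exact ⟨n⁻¹ x, h, by simp⟩

theorem h24bs_stab_fix_of_comm {Y : Subgroup (MulAut W)} {x : MulAut W}
    (hx : ∀ y ∈ Y, x * y = y * x) : x ∈ h24bsStab (h24bsFix Y) := by
  have key : ∀ x : MulAut W, (∀ y ∈ Y, x * y = y * x) →
      ∀ v ∈ h24bsFix Y, x v ∈ h24bsFix Y := by
    intro x hx v hv y hy
    calc y (x v) = (y * x) v := rfl
      _ = (x * y) v := by rw [hx y hy]
      _ = x (y v) := rfl
      _ = x v := by rw [hv y hy]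
  intro v
  constructor
  · intro h
    have hx' : ∀ y ∈ Y, x⁻¹ * y = y * x⁻¹ := fun y hy =>
      ((show Commute x y from hx y hy).inv_left).eq
    have := key x⁻¹ hx' _ h
    rwa [MulAut.inv_apply_self] at this
  · exact key x hx v

theorem h24bs_claim_conj {N : Subgroup (MulAut W)} {a n₀ : MulAut W} (hn₀ : n₀ ∈ N)
    (h : h24bsClaim N (n₀ * a * n₀⁻¹)) : h24bsClaim N a := by
  obtain ⟨w, hw⟩ := h
  refine ⟨w, fun n hn => ?_⟩
  have := hw (n * n₀⁻¹) (mul_mem hn (inv_mem hn₀))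
  have e : n * n₀⁻¹ * (n₀ * a * n₀⁻¹) * (n * n₀⁻¹)⁻¹ = n * a * n⁻¹ := by group
  rwa [e] at this

/-- The subgroup generated by the `N`-conjugates of `a`. -/
def h24bsM (N : Subgroup (MulAut W)) (a : MulAut W) : Subgroup (MulAut W) :=
  Subgroup.closure {x | ∃ n ∈ N, x = n * a * n⁻¹}

theorem h24bsM_conj_mem {N : Subgroup (MulAut W)} {a n : MulAut W} (hn : n ∈ N) :
    n * a * n⁻¹ ∈ h24bsM N a := Subgroup.subset_closure ⟨n, hn, rfl⟩

theorem h24bsM_self_mem {N : Subgroup (MulAut W)} {a : MulAut W} : a ∈ h24bsM N a := by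
  have := h24bsM_conj_mem (a := a) N.one_mem
  simpa using this

theorem h24bsM_le {N Q : Subgroup (MulAut W)} (hnorm : ∀ n ∈ N, ∀ q ∈ Q, n * q * n⁻¹ ∈ Q)
    {a : MulAut W} (ha : a ∈ Q) : h24bsM N a ≤ Q := by
  apply (Subgroup.closure_le _).mpr
  rintro _ ⟨n, hn, rfl⟩
  exact hnorm n hn a ha

theorem h24bsM_conj {N : Subgroup (MulAut W)} {a n : MulAut W} (hn : n ∈ N) {y : MulAut W}
    (hy : y ∈ h24bsM N a) : n * y * n⁻¹ ∈ h24bsM N a := by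
  have h1 : h24bsM N a ≤ (h24bsM N a).comap (MulAut.conj n).toMonoidHom := by
    apply (Subgroup.closure_le _).mpr
    rintro _ ⟨m, hm, rfl⟩
    rw [SetLike.mem_coe, Subgroup.mem_comap]
    apply Subgroup.subset_closure
    exact ⟨n * m, mul_mem hn hm, by simp [mul_assoc]⟩
  exact h1 hy

theorem h24bsM_normalizer {N : Subgroup (MulAut W)} {a n : MulAut W} (hn : n ∈ N)
    (y : MulAut W) : y ∈ h24bsM N a ↔ n * y * n⁻¹ ∈ h24bsM N a := by
  constructor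
  · exact fun hy => h24bsM_conj hn hy
  · intro h
    have := h24bsM_conj (inv_mem hn) h
    simpa [mul_assoc] using this

theorem h24bsM_lcs_conj {N : Subgroup (MulAut W)} {a n₁ : MulAut W} (hn₁ : n₁ ∈ N) (k : ℕ)
    {x : MulAut W} (hx : x ∈ (h24bsM N a).lowerCentralSeries k) :
    n₁ * x * n₁⁻¹ ∈ (h24bsM N a).lowerCentralSeries k := by
  have hmap : (h24bsM N a).map (MulAut.conj n₁).toMonoidHom = h24bsM N a := by
    apply le_antisymm
    · rintro _ ⟨y, hy, rfl⟩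
      exact h24bsM_conj hn₁ hy
    · intro y hy
      exact ⟨n₁⁻¹ * y * n₁, by simpa using h24bsM_conj (inv_mem hn₁) hy, by simp [mul_assoc]⟩
  have h2 := Subgroup.map_lowerCentralSeries (S := h24bsM N a) (MulAut.conj n₁).toMonoidHom k
  rw [hmap] at h2
  have h3 : (MulAut.conj n₁).toMonoidHom x ∈
      Subgroup.map (MulAut.conj n₁).toMonoidHom ((h24bsM N a).lowerCentralSeries k) :=
    Subgroup.mem_map_of_mem _ hx
  rw [h2] at h3
  exact h3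

variable [Finite W]

theorem h24bs_RL' {p : ℕ} [Fact p.Prime] {k : ℕ} (IH : h24bsStmt.{u} p k)
    (hWk : Nat.card W ≤ k + 1) (hW : (Nat.card W).Coprime p) {N Q : Subgroup (MulAut W)}
    (hQN : Q ≤ N) (hnorm : ∀ n ∈ N, ∀ q ∈ Q, n * q * n⁻¹ ∈ Q) (hQ : IsPGroup p Q)
    {a : MulAut W} (ha : a ∈ Q) (V : Subgroup W) (hV : V ≠ ⊤) (haV : a ∈ h24bsStab V)
    (hne : ∃ v ∈ V, a v ≠ v) :
    ∃ v ∈ V, ∀ n ∈ N, n ∈ h24bsStab V → (n * a * n⁻¹) v ≠ v := by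
  refine h24bs_RL IH hW hQN hnorm hQ ha V ?_ haV hne
  by_contra hcon
  push Not at hcon
  exact hV (Subgroup.eq_top_of_card_eq V
    (le_antisymm (Subgroup.card_le_card_group V) (by omega)))

theorem h24bs_H2 {p : ℕ} [Fact p.Prime] {k : ℕ} (IH : h24bsStmt.{u} p k)
    (hWk : Nat.card W ≤ k + 1) (hW : (Nat.card W).Coprime p) {N Q : Subgroup (MulAut W)}
    (hQN : Q ≤ N) (hnorm : ∀ n ∈ N, ∀ q ∈ Q, n * q * n⁻¹ ∈ Q) (hQ : IsPGroup p Q)
    {a : MulAut W} (ha : a ∈ Q) (ha1 : a ≠ 1) :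
    h24bsClaim N a ∨ ∀ w : W, (∀ n ∈ N, (n * a * n⁻¹) w = w) → w = 1 := by
  classical
  set M := h24bsM N a with hM
  have hMQ : M ≤ Q := h24bsM_le hnorm ha
  have hcop := h24bs_card_coprime hW (hQ.to_le hMQ)
  set K := (h24bsNorm M).ker with hK
  have hKstab : ∀ n ∈ N, n ∈ h24bsStab K := by
    intro n hn v
    rw [hK, MonoidHom.mem_ker, MonoidHom.mem_ker,
      ← h24bsNorm_normalizer (h24bsM_normalizer hn)]
    exact map_eq_one_iff n n.injective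
  by_cases hKtop : K = ⊤
  · right
    intro w hw
    have hwfix : w ∈ h24bsFix M := by
      rw [h24bs_mem_fix_iff_le_stab]
      apply (Subgroup.closure_le _).mpr
      rintro _ ⟨n, hn, rfl⟩
      exact hw n hn
    have h1 : h24bsNorm M w = 1 := by
      have : w ∈ K := by rw [hKtop]; exact Subgroup.mem_top w
      exact MonoidHom.mem_ker.mp this
    rw [h24bsNorm_of_fix hwfix] at h1
    exact h24bs_pow_cancel hcop (by rw [h1, one_pow])
  · by_cases haK : ∀ u ∈ K, a u = u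
    · exfalso
      apply ha1
      ext w
      show a w = w
      have hNfix := h24bsNorm_mem_fix M w
      have hu : w ^ Nat.card M * (h24bsNorm M w)⁻¹ ∈ K := by
        rw [hK, MonoidHom.mem_ker, map_mul, map_pow, map_inv, h24bsNorm_of_fix hNfix,
          mul_inv_cancel]
      have h1 := haK _ hu
      have h2 : a (h24bsNorm M w) = h24bsNorm M w := hNfix a h24bsM_self_mem
      rw [map_mul, map_inv, h2, map_pow] at h1
      have h3 : (a w) ^ Nat.card M = w ^ Nat.card M := mul_right_cancel h1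
      exact h24bs_pow_cancel hcop h3
    · left
      push Not at haK
      obtain ⟨v, hv, hvn⟩ :=
        h24bs_RL' IH hWk hW hQN hnorm hQ ha K hKtop (hKstab a (hQN ha)) haK
      exact ⟨v, fun n hn => hvn n hn (hKstab n hn)⟩

theorem h24bs_exists_max (B : Subgroup (MulAut W)) {b₀ : MulAut W} (hb₀ : b₀ ∈ B)
    (hb₀1 : b₀ ≠ 1) {w₀ : W} (hw₀ : b₀ w₀ = w₀) (hw₀1 : w₀ ≠ 1) :
    ∃ Y₂ : Subgroup (MulAut W), Y₂ ≤ B ∧ h24bsFix Y₂ ≠ ⊥ ∧ Y₂ ≠ ⊥ ∧
      ∀ Y' : Subgroup (MulAut W), Y' ≤ B → h24bsFix Y' ≠ ⊥ → Y₂ ≤ Y' → Y' ≤ Y₂ := by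
  classical
  have hP0 : Subgroup.zpowers b₀ ∈ {Y : Subgroup (MulAut W) | Y ≤ B ∧ h24bsFix Y ≠ ⊥} := by
    refine ⟨Subgroup.zpowers_le.mpr hb₀, fun h =>
      hw₀1 ((Subgroup.eq_bot_iff_forall _).mp h w₀ ?_)⟩
    rw [h24bs_mem_fix_iff_le_stab]
    exact Subgroup.zpowers_le.mpr hw₀
  obtain ⟨Y₂, hY₂P, hY₂max⟩ :=
    Set.exists_max_image {Y : Subgroup (MulAut W) | Y ≤ B ∧ h24bsFix Y ≠ ⊥}
      (fun Y => Nat.card Y) (Set.toFinite _) ⟨_, hP0⟩
  refine ⟨Y₂, hY₂P.1, hY₂P.2, ?_, fun Y' hY'B hY'fix hle => ?_⟩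
  · intro h
    have h1 : Nat.card (Subgroup.zpowers b₀) ≤ Nat.card Y₂ := hY₂max _ hP0
    rw [h, Subgroup.card_bot] at h1
    have h2 : Nat.card (Subgroup.zpowers b₀) = 1 := le_antisymm h1 Nat.card_pos
    exact hb₀1 (Subgroup.zpowers_eq_bot.mp (Subgroup.card_eq_one.mp h2))
  · have h1 : Nat.card Y' ≤ Nat.card Y₂ := hY₂max Y' ⟨hY'B, hY'fix⟩
    exact (Subgroup.eq_of_le_of_card_ge hle h1).symm.le

theorem h24bs_K0 {B Y₂ : Subgroup (MulAut W)} (hY₂B : Y₂ ≤ B)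
    (hmax : ∀ Y' : Subgroup (MulAut W), Y' ≤ B → h24bsFix Y' ≠ ⊥ → Y₂ ≤ Y' → Y' ≤ Y₂)
    {k : MulAut W} (hk : ∀ b ∈ B, k * b * k⁻¹ ∈ B) {u : W} (hu1 : u ≠ 1)
    (hu : u ∈ h24bsFix Y₂) (hu' : ∀ y ∈ Y₂, (k * y * k⁻¹) u = u) :
    (∀ y ∈ Y₂, k * y * k⁻¹ ∈ Y₂) ∧ ∀ y ∈ Y₂, ∃ y' ∈ Y₂, k * y' * k⁻¹ = y := by
  classical
  have hmapB : Y₂.map (MulAut.conj k).toMonoidHom ≤ B := by
    rintro _ ⟨y, hy, rfl⟩
    exact hk y (hY₂B hy)
  have huY' : u ∈ h24bsFix (Y₂ ⊔ Y₂.map (MulAut.conj k).toMonoidHom) := by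
    rw [h24bs_mem_fix_iff_le_stab]
    refine sup_le (h24bs_mem_fix_iff_le_stab.mp hu) ?_
    rintro _ ⟨y, hy, rfl⟩
    exact hu' y hy
  have hle : Y₂ ⊔ Y₂.map (MulAut.conj k).toMonoidHom ≤ Y₂ :=
    hmax _ (sup_le hY₂B hmapB)
      (fun h => hu1 ((Subgroup.eq_bot_iff_forall _).mp h u huY')) le_sup_left
  have hmap : Y₂.map (MulAut.conj k).toMonoidHom ≤ Y₂ := le_trans le_sup_right hle
  have hmapeq : Y₂.map (MulAut.conj k).toMonoidHom = Y₂ :=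
    Subgroup.eq_of_le_of_card_ge hmap
      (le_of_eq (Subgroup.card_map_of_injective (MulAut.conj k).injective).symm)
  constructor
  · intro y hy
    exact hmap (Subgroup.mem_map_of_mem _ hy)
  · intro y hy
    rw [← hmapeq] at hy
    obtain ⟨y', hy', e⟩ := hy
    exact ⟨y', hy', e⟩

theorem h24bs_T1core {p : ℕ} [Fact p.Prime] {k : ℕ} (IH : h24bsStmt.{u} p k)
    (hWk : Nat.card W ≤ k + 1) (hW : (Nat.card W).Coprime p) {N Q : Subgroup (MulAut W)}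
    (hQN : Q ≤ N) (hnorm : ∀ n ∈ N, ∀ q ∈ Q, n * q * n⁻¹ ∈ Q) (hQ : IsPGroup p Q)
    {a : MulAut W} (ha : a ∈ Q)
    {B : Subgroup (MulAut W)} (hBQ : B ≤ Q) (hBab : ∀ x ∈ B, ∀ y ∈ B, x * y = y * x)
    (hBnorm : ∀ n ∈ N, ∀ b ∈ B, n * b * n⁻¹ ∈ B)
    (hcen : ∀ b ∈ B, a * b = b * a)
    {Y₂ : Subgroup (MulAut W)} (hY₂B : Y₂ ≤ B)
    (hmax : ∀ Y' : Subgroup (MulAut W), Y' ≤ B → h24bsFix Y' ≠ ⊥ → Y₂ ≤ Y' → Y' ≤ Y₂)
    (hVtop : h24bsFix Y₂ ≠ ⊤) (hne : ∃ v ∈ h24bsFix Y₂, a v ≠ v) :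
    h24bsClaim N a := by
  classical
  set V := h24bsFix Y₂ with hVdef
  have haY : ∀ y ∈ Y₂, a * y = y * a := fun y hy => hcen y (hY₂B hy)
  obtain ⟨w₂, hw₂V, hw₂⟩ :=
    h24bs_RL' IH hWk hW hQN hnorm hQ ha V hVtop (h24bs_stab_fix_of_comm haY) hne
  have hK1 : ∀ k ∈ N, ∀ v ∈ V, h24bsNorm Y₂ (k v) ≠ 1 → k ∈ h24bsStab V := by
    intro k hk v hv hne1
    have hu : h24bsNorm Y₂ (k v) ∈ h24bsFix Y₂ := h24bsNorm_mem_fix Y₂ _
    have hu' : ∀ y ∈ Y₂, (k * y * k⁻¹) (h24bsNorm Y₂ (k v)) = h24bsNorm Y₂ (k v) := by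
      intro y hy
      rw [h24bsNorm_comm (fun y' hy' => hBab _ (hBnorm k hk y (hY₂B hy)) y' (hY₂B hy'))]
      congr 1
      show k (y (k⁻¹ (k v))) = k v
      rw [MulAut.inv_apply_self, hv y hy]
    obtain ⟨h1, h2⟩ := h24bs_K0 hY₂B hmax (hBnorm k hk) hne1 hu hu'
    intro v'
    constructor
    · intro hkv' y hy
      have h3 : (k * y * k⁻¹) (k v') = k v' := hkv' _ (h1 y hy)
      have h4 : k (y v') = k v' := by
        have : (k * y * k⁻¹) (k v') = k (y v') := by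
          show k (y (k⁻¹ (k v'))) = k (y v')
          rw [MulAut.inv_apply_self]
        rw [← this]; exact h3
      exact k.injective h4
    · intro hv' y hy
      obtain ⟨y', hy', rfl⟩ := h2 y hy
      show k (y' (k⁻¹ (k v'))) = k v'
      rw [MulAut.inv_apply_self, hv' y' hy']
  let VV : Finset (Subgroup W) := (h24bsFin N).image (fun n => V.map n.toMonoidHom)
  have hrep : ∀ V' : Subgroup W, ∃ m : MulAut W,
      V' ∈ VV → (m ∈ N ∧ V.map m.toMonoidHom = V') := by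
    intro V'
    by_cases h : V' ∈ VV
    · obtain ⟨m, hm, e⟩ := Finset.mem_image.mp h
      exact ⟨m, fun _ => ⟨h24bs_mem_fin.mp hm, e⟩⟩
    · exact ⟨1, fun h' => absurd h' h⟩
  choose rep hrep using hrep
  refine ⟨∏ V' ∈ VV, rep V' w₂, fun n hn hfix => ?_⟩
  have hVs : V.map n.toMonoidHom ∈ VV :=
    Finset.mem_image.mpr ⟨n, h24bs_mem_fin.mpr hn, rfl⟩
  obtain ⟨hm'N, hm'V⟩ := hrep _ hVs
  set m' := rep (V.map n.toMonoidHom) with hm'def
  have hkst : n⁻¹ * m' ∈ h24bsStab V := by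
    intro v
    show n⁻¹ (m' v) ∈ V ↔ v ∈ V
    rw [← h24bs_mem_map, ← hm'V, h24bs_mem_map, MulAut.inv_apply_self]
  have hπ1 : ∀ V' ∈ VV, V' ≠ V.map n.toMonoidHom →
      n (h24bsNorm Y₂ (n⁻¹ (rep V' w₂))) = 1 := by
    intro V' hV' hneq
    obtain ⟨hmN, hmV⟩ := hrep V' hV'
    by_contra hcon
    have h1 : h24bsNorm Y₂ ((n⁻¹ * rep V') w₂) ≠ 1 := by
      intro h
      apply hcon
      have h' : h24bsNorm Y₂ (n⁻¹ (rep V' w₂)) = 1 := h
      rw [h', map_one]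
    have hst := hK1 _ (mul_mem (inv_mem hn) hmN) w₂ hw₂V h1
    apply hneq
    rw [← hmV]
    ext x
    rw [h24bs_mem_map, h24bs_mem_map, ← hst ((rep V')⁻¹ x)]
    show n⁻¹ (rep V' ((rep V')⁻¹ x)) ∈ V ↔ n⁻¹ x ∈ V
    rw [MulAut.apply_inv_self]
  have hπ2 : n (h24bsNorm Y₂ (n⁻¹ (m' w₂))) = (m' w₂) ^ Nat.card Y₂ := by
    have h1 : (n⁻¹ * m') w₂ ∈ V := (hkst w₂).mpr hw₂V
    have h2 : h24bsNorm Y₂ (n⁻¹ (m' w₂)) = (n⁻¹ (m' w₂)) ^ Nat.card Y₂ :=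
      h24bsNorm_of_fix h1
    rw [h2, map_pow, MulAut.apply_inv_self]
  have hπw : n (h24bsNorm Y₂ (n⁻¹ (∏ V' ∈ VV, rep V' w₂))) = (m' w₂) ^ Nat.card Y₂ := by
    rw [map_prod, map_prod, map_prod,
      Finset.prod_eq_single (V.map n.toMonoidHom) (fun V' hV' hne' => hπ1 V' hV' hne')
        (fun h => absurd hVs h)]
    exact hπ2
  have hcπ : ∀ x : W, (n * a * n⁻¹) (n (h24bsNorm Y₂ (n⁻¹ x)))
      = n (h24bsNorm Y₂ (n⁻¹ ((n * a * n⁻¹) x))) := by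
    intro x
    show n (a (n⁻¹ (n (h24bsNorm Y₂ (n⁻¹ x))))) = n (h24bsNorm Y₂ (n⁻¹ (n (a (n⁻¹ x)))))
    rw [MulAut.inv_apply_self, MulAut.inv_apply_self, h24bsNorm_comm haY]
  have h5 : (n * a * n⁻¹) ((m' w₂) ^ Nat.card Y₂) = (m' w₂) ^ Nat.card Y₂ := by
    rw [← hπw, hcπ, hfix]
  rw [map_pow] at h5
  have hcop := h24bs_card_coprime hW (hQ.to_le (hY₂B.trans hBQ))
  have h6 : (n * a * n⁻¹) (m' w₂) = m' w₂ := h24bs_pow_cancel hcop h5
  have hk' : m'⁻¹ * n ∈ h24bsStab V := by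
    have := (h24bsStab V).inv_mem hkst
    rwa [mul_inv_rev, inv_inv] at this
  apply hw₂ (m'⁻¹ * n) (mul_mem (inv_mem hm'N) hn) hk'
  have e : m'⁻¹ * n * a * (m'⁻¹ * n)⁻¹ = m'⁻¹ * (n * a * n⁻¹) * m' := by group
  rw [e]
  show m'⁻¹ ((n * a * n⁻¹) (m' w₂)) = w₂
  rw [h6, MulAut.inv_apply_self]

theorem h24bs_T1 {p : ℕ} [Fact p.Prime] {k : ℕ} (IH : h24bsStmt.{u} p k)
    (hWk : Nat.card W ≤ k + 1) (hW : (Nat.card W).Coprime p) {N Q : Subgroup (MulAut W)}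
    (hQN : Q ≤ N) (hnorm : ∀ n ∈ N, ∀ q ∈ Q, n * q * n⁻¹ ∈ Q) (hQ : IsPGroup p Q)
    {a : MulAut W} (ha : a ∈ Q) (ha1 : a ≠ 1)
    {B : Subgroup (MulAut W)} (hBQ : B ≤ Q) (hBab : ∀ x ∈ B, ∀ y ∈ B, x * y = y * x)
    (hBnorm : ∀ n ∈ N, ∀ b ∈ B, n * b * n⁻¹ ∈ B)
    (hcen : ∀ n ∈ N, ∀ b ∈ B, (n * a * n⁻¹) * b = b * (n * a * n⁻¹)) :
    h24bsClaim N a ∨ ∀ b ∈ B, b ≠ 1 → ∀ w, b w = w → w = 1 := by
  rcases h24bs_H2 IH hWk hW hQN hnorm hQ ha ha1 with hcl | hT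
  · exact Or.inl hcl
  by_cases hsr : ∀ b ∈ B, b ≠ 1 → ∀ w, b w = w → w = 1
  · exact Or.inr hsr
  left
  push Not at hsr
  obtain ⟨b₀, hb₀, hb₀1, w₀, hbw₀, hw₀⟩ := hsr
  obtain ⟨Y₂, hY₂B, hY₂fix, hY₂ne, hmax⟩ := h24bs_exists_max B hb₀ hb₀1 hbw₀ hw₀
  have hVtop : h24bsFix Y₂ ≠ ⊤ := by
    intro htop
    obtain ⟨⟨y, hy⟩, hyne⟩ := (Subgroup.ne_bot_iff_exists_ne_one).mp hY₂ne
    apply hyne
    apply Subtype.ext
    show y = 1
    ext w
    have : w ∈ h24bsFix Y₂ := by rw [htop]; exact Subgroup.mem_top w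
    exact this y hy
  obtain ⟨⟨v, hv⟩, hvne⟩ := (Subgroup.ne_bot_iff_exists_ne_one).mp hY₂fix
  have hv1 : v ≠ 1 := fun h => hvne (Subtype.ext h)
  have hex : ∃ n₀ ∈ N, (n₀ * a * n₀⁻¹) v ≠ v := by
    by_contra hcon
    push Not at hcon
    exact hv1 (hT v hcon)
  obtain ⟨n₀, hn₀, hn₀v⟩ := hex
  apply h24bs_claim_conj hn₀
  exact h24bs_T1core IH hWk hW hQN hnorm hQ (hnorm n₀ hn₀ a ha) hBQ hBab hBnorm
    (fun b hb => hcen n₀ hn₀ b hb) hY₂B hmax hVtop ⟨v, hv, hn₀v⟩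

theorem h24bs_T2 {p : ℕ} [Fact p.Prime] (hW : (Nat.card W).Coprime p)
    {N : Subgroup (MulAut W)} {a : MulAut W} (haN : a ∈ N)
    {B : Subgroup (MulAut W)} (hBab : ∀ x ∈ B, ∀ y ∈ B, x * y = y * x)
    (hBexp : ∀ b ∈ B, b ^ p = 1) (hBnorm : ∀ n ∈ N, ∀ b ∈ B, n * b * n⁻¹ ∈ B)
    {z : MulAut W} (hzB : z ∈ B) (hzfpf : ∀ w, z w = w → w = 1)
    (hza : ∀ n ∈ N, (n * a * n⁻¹) * z = z * (n * a * n⁻¹))
    (hcomm : ∀ n ∈ N, ∀ b ∈ B, ∃ j : ℕ, (n * a * n⁻¹) * b * (n * a * n⁻¹)⁻¹ * b⁻¹ = z ^ j)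
    (hnc : ∃ b ∈ B, a * b ≠ b * a) :
    h24bsClaim N a ∨ ∀ b ∈ B, b ≠ 1 → ∀ w, b w = w → w = 1 := by
  have hz : z ^ p = 1 := hBexp z hzB
  by_cases hsr : ∀ b ∈ B, b ≠ 1 → ∀ w, b w = w → w = 1
  · exact Or.inr hsr
  left
  push Not at hsr
  obtain ⟨b₀, hb₀, hb₀1, w₀, hbw₀, hw₀⟩ := hsr
  obtain ⟨Y₂, hY₂B, hY₂fix, hY₂ne, hmax⟩ := h24bs_exists_max B hb₀ hb₀1 hbw₀ hw₀
  obtain ⟨⟨w, hw⟩, hwne⟩ := (Subgroup.ne_bot_iff_exists_ne_one).mp hY₂fix
  have hw1 : w ≠ 1 := fun h => hwne (Subtype.ext h)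
  have hK0' : ∀ b ∈ B, ∀ u ∈ h24bsFix Y₂, u ≠ 1 → b u = u → b ∈ Y₂ := by
    intro b hb u hu hu1 hbu
    have h1 : Y₂ ⊔ Subgroup.zpowers b ≤ Y₂ := by
      refine hmax _ (sup_le hY₂B (Subgroup.zpowers_le.mpr hb))
        (fun h => hu1 ((Subgroup.eq_bot_iff_forall _).mp h u ?_)) le_sup_left
      rw [h24bs_mem_fix_iff_le_stab]
      exact sup_le (h24bs_mem_fix_iff_le_stab.mp hu) (Subgroup.zpowers_le.mpr hbu)
    exact h1 (Subgroup.mem_sup_right (Subgroup.mem_zpowers b))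
  refine ⟨w, fun n hn hfix => ?_⟩
  have hcN : n * a * n⁻¹ ∈ N := mul_mem (mul_mem hn haN) (inv_mem hn)
  have hcinv : (n * a * n⁻¹)⁻¹ w = w := by
    calc (n * a * n⁻¹)⁻¹ w = (n * a * n⁻¹)⁻¹ ((n * a * n⁻¹) w) := by rw [hfix]
      _ = w := MulAut.inv_apply_self _ _ _
  obtain ⟨h1, -⟩ := h24bs_K0 hY₂B hmax (hBnorm _ hcN) hw1 hw (by
    intro y hy
    show (n * a * n⁻¹) (y ((n * a * n⁻¹)⁻¹ w)) = w
    rw [hcinv, hw y hy, hfix])
  have hcY : ∀ y ∈ Y₂, (n * a * n⁻¹) * y = y * (n * a * n⁻¹) := by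
    intro y hy
    obtain ⟨j, hj⟩ := hcomm n hn y (hY₂B hy)
    have hzj : z ^ j ∈ Y₂ := by
      rw [← hj]; exact mul_mem (h1 y hy) (inv_mem hy)
    have hpj : p ∣ j := by
      by_contra hpj
      exact hw1 (h24bs_fpf_pow hz hzfpf hpj (hw _ hzj))
    rw [h24bs_pow_of_dvd hz hpj, mul_inv_eq_one] at hj
    calc (n * a * n⁻¹) * y = (n * a * n⁻¹) * y * (n * a * n⁻¹)⁻¹ * (n * a * n⁻¹) := by group
      _ = y * (n * a * n⁻¹) := by rw [hj]
  have hcB : ∀ b ∈ B, (n * a * n⁻¹) * b = b * (n * a * n⁻¹) := by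
    intro b hb
    have hzb : z * b = b * z := hBab z hzB b hb
    have hex : ∃ k < p, b * z ^ k ∈ Y₂ := by
      by_contra hcon
      push Not at hcon
      have hR := h24bs_R2b hz hzb hzfpf w
      have h2 : ∀ k ∈ Finset.range p, ∏ j ∈ Finset.range p, ((b * z ^ k) ^ j) w = 1 := by
        intro k hk
        have hbk : b * z ^ k ∈ B := mul_mem hb (pow_mem hzB k)
        by_contra hne1
        refine hcon k (Finset.mem_range.mp hk)
          (hK0' _ hbk _ ?_ hne1 (h24bs_orbit_prod_fix (hBexp _ hbk) w))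
        refine Subgroup.prod_mem _ (fun j _ => ?_)
        exact ((h24bs_stab_fix_of_comm
          (fun y hy => hBab _ (pow_mem hbk j) y (hY₂B hy))) w).mpr hw
      rw [Finset.prod_congr rfl h2, Finset.prod_const_one] at hR
      exact hw1 (h24bs_pow_cancel hW (by rw [one_pow]; exact hR.symm))
    obtain ⟨k, -, hk⟩ := hex
    have h3 : Commute (n * a * n⁻¹) (b * z ^ k) := hcY _ hk
    have h4 : Commute (n * a * n⁻¹) (z ^ k) :=
      Commute.pow_right (show Commute (n * a * n⁻¹) z from hza n hn) k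
    have h5 : Commute (n * a * n⁻¹) (b * z ^ k * (z ^ k)⁻¹) := h3.mul_right h4.inv_right
    rw [mul_inv_cancel_right] at h5
    exact h5.eq
  obtain ⟨b₁, hb₁, hnc⟩ := hnc
  apply hnc
  have h6 := hcB (n * b₁ * n⁻¹) (hBnorm n hn b₁ hb₁)
  have e1 : n * a * n⁻¹ * (n * b₁ * n⁻¹) = n * (a * b₁) * n⁻¹ := by group
  have e2 : n * b₁ * n⁻¹ * (n * a * n⁻¹) = n * (b₁ * a) * n⁻¹ := by group
  rw [e1, e2] at h6
  exact mul_left_cancel (mul_right_cancel h6)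

theorem h24bs_cyclic {p : ℕ} [Fact p.Prime] (hW : (Nat.card W).Coprime p)
    {B : Subgroup (MulAut W)} (hsr : ∀ b ∈ B, b ≠ 1 → ∀ w, b w = w → w = 1)
    {z : MulAut W} (hzB : z ∈ B) (hz : z ^ p = 1) (hz1 : z ≠ 1) {b : MulAut W} (hb : b ∈ B)
    (hbp : b ^ p = 1) (hzb : z * b = b * z) {w₁ : W} (hw₁ : w₁ ≠ 1) :
    ∃ j : ℕ, b = z ^ j := by
  by_contra hcon
  push Not at hcon
  apply hw₁
  refine h24bs_R2a hW hz hzb (hsr z hzB hz1) (fun k _ => ?_) w₁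
  have hbk : b * z ^ k ∈ B := mul_mem hb (pow_mem hzB k)
  have hne : b * z ^ k ≠ 1 := by
    intro h
    apply hcon (k * (p - 1))
    have h1 : z ^ (k * (p - 1)) * z ^ k = 1 := by
      rw [← pow_add, ← Nat.mul_succ, Nat.succ_eq_add_one,
        Nat.sub_add_cancel (Fact.out : p.Prime).pos, mul_comm, pow_mul, hz, one_pow]
    rw [eq_inv_of_mul_eq_one_left h, eq_inv_of_mul_eq_one_left h1]
  refine ⟨?_, hsr _ hbk hne⟩
  have hc : Commute b (z ^ k) := Commute.pow_right (show Commute b z from hzb.symm) k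
  rw [hc.mul_pow, hbp, ← pow_mul, mul_comm, pow_mul, hz, one_pow, mul_one]

theorem h24bs_step {p : ℕ} [Fact p.Prime] (hp2 : p ≠ 2) {k : ℕ} (IH : h24bsStmt.{u} p k)
    (hWk : Nat.card W ≤ k + 1) (hW : (Nat.card W).Coprime p) {N Q : Subgroup (MulAut W)}
    (hQN : Q ≤ N) (hnorm : ∀ n ∈ N, ∀ q ∈ Q, n * q * n⁻¹ ∈ Q) (hQ : IsPGroup p Q)
    {a : MulAut W} (ha : a ∈ Q) (ha1 : a ≠ 1) (hap : a ^ p = 1) : h24bsClaim N a := by
  classical
  have hp := (Fact.out : p.Prime)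
  set M := h24bsM N a with hMdef
  have hMQ : M ≤ Q := h24bsM_le hnorm ha
  have haM : a ∈ M := h24bsM_self_mem
  have hconjM : ∀ n ∈ N, n * a * n⁻¹ ∈ M := fun n hn => h24bsM_conj_mem hn
  have hMS : M = Subgroup.closure {x | ∃ n ∈ N, x = n * a * n⁻¹} := rfl
  have hS : ∀ s ∈ {x | ∃ n ∈ N, x = n * a * n⁻¹}, s ^ p = 1 := by
    rintro _ ⟨n, hn, rfl⟩
    exact h24bs_conj_pow_one hap n
  have hnil : Group.IsNilpotent M := (hQ.to_le hMQ).isNilpotent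
  obtain ⟨w₁, hw₁⟩ : ∃ w₁ : W, w₁ ≠ 1 := by
    by_contra hcon
    push Not at hcon
    apply ha1
    ext w
    exact (hcon (a w)).trans (hcon ((1 : MulAut W) w)).symm
  have hconj_ne : ∀ n ∈ N, n * a * n⁻¹ ≠ 1 := fun n _ h => ha1 (conj_eq_one_iff.mp h)
  let B₀ : Subgroup (MulAut W) := M ⊓ Subgroup.centralizer (M : Set (MulAut W))
  have hB₀ : ∀ b, b ∈ B₀ ↔ b ∈ M ∧ ∀ m ∈ M, m * b = b * m := by
    intro b; simp [B₀, Subgroup.mem_centralizer_iff]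
  have hB₀norm : ∀ n ∈ N, ∀ b ∈ B₀, n * b * n⁻¹ ∈ B₀ := by
    intro n hn b hb
    obtain ⟨hbM, hbc⟩ := (hB₀ b).mp hb
    refine (hB₀ _).mpr ⟨h24bsM_conj hn hbM, fun m hm => ?_⟩
    have hm' : n⁻¹ * m * n ∈ M := by simpa using h24bsM_conj (inv_mem hn) hm
    have h1 := hbc _ hm'
    calc m * (n * b * n⁻¹) = n * (n⁻¹ * m * n * b) * n⁻¹ := by group
      _ = n * (b * (n⁻¹ * m * n)) * n⁻¹ := by rw [h1]
      _ = n * b * n⁻¹ * m := by group
  rcases h24bs_T1 IH hWk hW hQN hnorm hQ ha ha1 (B := B₀) (inf_le_left.trans hMQ)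
      (fun x hx y hy => ((hB₀ y).mp hy).2 x ((hB₀ x).mp hx).1) hB₀norm
      (fun n hn b hb => ((hB₀ b).mp hb).2 _ (hconjM n hn)) with hcl | hsr
  · exact hcl
  obtain ⟨k₁, hk₁⟩ := (Subgroup.isNilpotent_iff_lowerCentralSeries M).mp hnil
  have hex : ∃ n, M.lowerCentralSeries (n + 1) = ⊥ :=
    ⟨k₁, by rw [Subgroup.lowerCentralSeries_succ, hk₁, Subgroup.commutator_bot_left]⟩
  obtain ⟨n, hn, hmin⟩ : ∃ n, M.lowerCentralSeries (n + 1) = ⊥ ∧
      ∀ m < n, M.lowerCentralSeries (m + 1) ≠ ⊥ :=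
    ⟨Nat.find hex, Nat.find_spec hex, fun m hm => Nat.find_min hex hm⟩
  rcases n with _ | n'
  · refine ⟨w₁, fun n₁ hn₁ hfix => hw₁ (hsr _
      ((hB₀ _).mpr ⟨hconjM n₁ hn₁, fun m hm => ?_⟩) (hconj_ne n₁ hn₁) w₁ hfix)⟩
    exact h24bs_lcs_central hn (show m ∈ M.lowerCentralSeries 0 from hm) (hconjM n₁ hn₁)
  · have hLne : M.lowerCentralSeries (n' + 1) ≠ ⊥ := hmin n' (Nat.lt_succ_self n')
    obtain ⟨⟨z, hzL⟩, hzne⟩ := (Subgroup.ne_bot_iff_exists_ne_one).mp hLne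
    have hz1 : z ≠ 1 := fun h => hzne (Subtype.ext h)
    have hzp : z ^ p = 1 := h24bs_lcs_exp_last hMS hS (n := n') hn z hzL
    have hzM : z ∈ M := h24bs_lcs_le M _ hzL
    have hzcen : ∀ m ∈ M, z * m = m * z := fun m hm => h24bs_lcs_central hn hzL hm
    have hzB₀ : z ∈ B₀ := (hB₀ z).mpr ⟨hzM, fun m hm => (hzcen m hm).symm⟩
    have hzfpf : ∀ w, z w = w → w = 1 := hsr z hzB₀ hz1
    have hR : ∀ b ∈ B₀, b ^ p = 1 → ∃ j : ℕ, b = z ^ j := fun b hb hbp =>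
      h24bs_cyclic hW hsr hzB₀ hzp hz1 hb hbp (hzcen b ((hB₀ b).mp hb).1) hw₁
    have hlastR : ∀ g ∈ M.lowerCentralSeries (n' + 1), ∃ j : ℕ, g = z ^ j := fun g hg =>
      hR g ((hB₀ g).mpr ⟨h24bs_lcs_le M _ hg,
        fun m hm => (h24bs_lcs_central hn hg hm).symm⟩)
        (h24bs_lcs_exp_last hMS hS (n := n') hn g hg)
    rcases n' with _ | n''
    · have hexp := h24bs_lcs_exp_class2 hp hp2 hMS hS hn
      have hVne : (⊤ : Subgroup W) ≠ ⊥ := fun h =>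
        hw₁ ((Subgroup.eq_bot_iff_forall _).mp h w₁ (Subgroup.mem_top _))
      obtain ⟨v, -, hv⟩ := h24bs_reg hp2 hW hzp hzfpf (Nat.card W) ⊤
        (Subgroup.card_le_card_group _) hVne M hzM
        (fun _ _ _ _ => Subgroup.mem_top _) hexp
        (fun d hd d' hd' => by
          obtain ⟨j, hj⟩ := hlastR ⁅d, d'⁆ (Subgroup.commutator_mem_commutator hd hd')
          refine ⟨j, ?_⟩
          rw [← hj, commutatorElement_def]; group)
        (fun d hd => (hzcen d hd).symm)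
        (fun d hd hdc => by
          obtain ⟨i, hi⟩ := hR d ((hB₀ d).mpr ⟨hd, fun m hm => (hdc m hm).symm⟩) (hexp d hd)
          exact ⟨i, fun u _ => by rw [hi]⟩)
      refine ⟨v, fun n₁ hn₁ hfix => hconj_ne n₁ hn₁ ?_⟩
      ext u
      exact hv _ (hconjM n₁ hn₁) hfix u (Subgroup.mem_top u)
    · have hBab : ∀ x ∈ M.lowerCentralSeries (n'' + 1), ∀ y ∈ M.lowerCentralSeries (n'' + 1),
          x * y = y * x := fun x hx y hy => h24bs_lcs_ab (n := n'') hn hx hy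
      have hBexp : ∀ b ∈ M.lowerCentralSeries (n'' + 1), b ^ p = 1 :=
        h24bs_lcs_exp_pen hp hp2 hMS hS (n := n'') hn
      have hBnorm : ∀ n₁ ∈ N, ∀ b ∈ M.lowerCentralSeries (n'' + 1),
          n₁ * b * n₁⁻¹ ∈ M.lowerCentralSeries (n'' + 1) :=
        fun n₁ hn₁ b hb => h24bsM_lcs_conj hn₁ _ hb
      have hzB : z ∈ M.lowerCentralSeries (n'' + 1) :=
        M.lowerCentralSeries_antitone (Nat.le_succ _) hzL
      have hnc : ∃ b ∈ M.lowerCentralSeries (n'' + 1), a * b ≠ b * a := by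
        by_contra hcon
        push Not at hcon
        apply hLne
        rw [Subgroup.lowerCentralSeries_succ, Subgroup.commutator_eq_bot_iff_le_centralizer]
        intro b hb
        rw [Subgroup.mem_centralizer_iff]
        intro m hm
        have h1 : M ≤ Subgroup.centralizer {b} := by
          apply (Subgroup.closure_le _).mpr
          rintro _ ⟨n₁, hn₁, rfl⟩
          rw [SetLike.mem_coe, Subgroup.mem_centralizer_iff]
          intro h hh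
          rw [Set.mem_singleton_iff] at hh
          subst hh
          have h2 := hcon (n₁⁻¹ * h * n₁) (by simpa using hBnorm n₁⁻¹ (inv_mem hn₁) h hb)
          calc h * (n₁ * a * n₁⁻¹) = n₁ * ((n₁⁻¹ * h * n₁) * a) * n₁⁻¹ := by group
            _ = n₁ * (a * (n₁⁻¹ * h * n₁)) * n₁⁻¹ := by rw [h2]
            _ = n₁ * a * n₁⁻¹ * h := by group
        exact (Subgroup.mem_centralizer_iff.mp (h1 hm) b (Set.mem_singleton b)).symm
      rcases h24bs_T2 hW (hQN ha) hBab hBexp hBnorm hzB hzfpf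
          (fun n₁ hn₁ => (hzcen _ (hconjM n₁ hn₁)).symm)
          (fun n₁ hn₁ b hb => by
            have hmem : ⁅n₁ * a * n₁⁻¹, b⁆ ∈ M.lowerCentralSeries (n'' + 1 + 1) := by
              rw [Subgroup.lowerCentralSeries_succ, Subgroup.commutator_comm]
              exact Subgroup.commutator_mem_commutator (hconjM n₁ hn₁) hb
            obtain ⟨j, hj⟩ := hlastR _ hmem
            exact ⟨j, by rw [← hj, commutatorElement_def]⟩)
          hnc with hcl | hsrB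
      · exact hcl
      · exfalso
        apply hLne
        rw [Subgroup.lowerCentralSeries_succ, Subgroup.commutator_eq_bot_iff_le_centralizer]
        intro b hb
        rw [Subgroup.mem_centralizer_iff]
        intro m hm
        obtain ⟨j, hj⟩ :=
          h24bs_cyclic hW hsrB hzB hzp hz1 hb (hBexp b hb) (hBab z hzB b hb) hw₁
        rw [hj]
        exact (Commute.pow_left (show Commute z m from hzcen m hm) j).eq.symm

/-- **Main theorem** on `p`-groups of automorphisms of abelian `p'`-groups. -/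
theorem h24bs_main {p : ℕ} [Fact p.Prime] (hp2 : p ≠ 2) : ∀ k : ℕ, h24bsStmt.{u} p k := by
  classical
  intro k
  induction k with
  | zero =>
    intro W _ _ hWk
    have := Nat.card_pos (α := W)
    omega
  | succ k IH =>
    intro W _ _ hWk hW N Q hQN hnorm hQ a ha ha1
    have hex : ∃ m : ℕ, a ^ (p ^ m) = 1 := by
      obtain ⟨m, hm⟩ := hQ ⟨a, ha⟩
      exact ⟨m, by simpa using congrArg Subtype.val hm⟩
    have hm := Nat.find_spec hex
    have hmin := fun m (h : m < Nat.find hex) => Nat.find_min hex h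
    rcases hfind : Nat.find hex with _ | m'
    · rw [hfind] at hm
      simp at hm
      exact absurd hm ha1
    · rw [hfind] at hm
      have hne : a ^ (p ^ m') ≠ 1 := hmin m' (by rw [hfind]; exact Nat.lt_succ_self m')
      have hp1 : (a ^ (p ^ m')) ^ p = 1 := by rw [← pow_mul, ← pow_succ]; exact hm
      obtain ⟨w, hw⟩ := h24bs_step hp2 IH hWk hW hQN hnorm hQ (pow_mem ha _) hne hp1
      refine ⟨w, fun n hn hfix => hw n hn ?_⟩
      have e : n * a ^ (p ^ m') * n⁻¹ = (n * a * n⁻¹) ^ (p ^ m') := (conj_pow).symm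
      rw [e]
      exact h24bs_pow_fix hfix _

end Main

end Cfsg.Agent.Helper24
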