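import Mathlib
import Cfsg.Agent.Helper24.BlockDeg
import Cfsg.Agent.Helper25.BlockCentral

/-!
# Degrees and the `p`-regular Gram matrix, part 2 (helper24)

* `exists_sylow_mult`: a combination of irreducible characters vanishing on `p`-singular elements
  has value at `1` equal to `p^a` times the same combination of the multiplicities of the trivial
  character of a Sylow `p`-subgroup.
* `pow_dvd_of_lr_div`, `pow_succ_dvd_of_li_div`, `li_div_of_pow_dvd`: divisibility from locality.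
* `gram_div_not_li_of_min`: for `χ` of minimal `p`-part of degree in its block,
  `p^a ⟨χ⁰, χ⟩ / χ(1)` is a local unit.
* `sum_odd_inv_invariant`: pairing `g` with `g⁻¹` on elements of odd order.
-/

set_option autoImplicit false

namespace Cfsg.Agent.Helper24

open Cfsg Cfsg.Agent.Helper25
open scoped ComplexConjugate

universe u

variable {G : Type u} [Group G] {p : ℕ} {M : Ideal AlgInt}

theorem not_dvd_orderOf_one (hp : p.Prime) : ¬ p ∣ orderOf (1 : G) := by
  rw [orderOf_one]
  exact hp.one_lt.ne' ∘ Nat.dvd_one.mp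

theorem exists_sylow_mult [Fintype G] (hp : p.Prime) :
    ∃ n : IrrCharacter G → ℕ, ∀ c : IrrCharacter G → ℂ,
      (∀ y : G, p ∣ orderOf y → ∑ ψ : IrrCharacter G, c ψ * (ψ : G → ℂ) y = 0) →
      ∑ ψ : IrrCharacter G, c ψ * (ψ : G → ℂ) 1 =
        ((p ^ (Nat.card G).factorization p : ℕ) : ℂ) *
          ∑ ψ : IrrCharacter G, c ψ * (n ψ : ℂ) := by
  classical
  haveI : Fact p.Prime := ⟨hp⟩
  obtain ⟨P⟩ : Nonempty (Sylow p G) := inferInstance
  have hcard : Nat.card (P : Subgroup G) = p ^ (Nat.card G).factorization p :=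
    Sylow.card_eq_multiplicity P
  choose n hn using fun ψ : IrrCharacter G => irr_sum_subgroup ψ (P : Subgroup G)
  refine ⟨n, fun c hc => ?_⟩
  have h1 : ∑ u : (P : Subgroup G), ∑ ψ : IrrCharacter G, c ψ * (ψ : G → ℂ) (u : G) =
      ∑ ψ : IrrCharacter G, c ψ * (ψ : G → ℂ) 1 := by
    rw [Finset.sum_eq_single (1 : (P : Subgroup G))]
    · rfl
    · intro u _ hu
      exact hc _ (dvd_orderOf_of_mem_pGroup hp P.isPGroup' u hu)
    · intro h'
      exact absurd (Finset.mem_univ _) h'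
  rw [← h1, Finset.sum_comm, Finset.mul_sum]
  apply Finset.sum_congr rfl
  intro ψ _
  rw [← Finset.mul_sum, hn ψ, hcard]
  ring

theorem pow_dvd_of_lr_div (hM : IsPModular p M) (k : ℤ) (d : ℕ) (hd : d ≠ 0)
    (h : MemLocalRing M ((k : ℂ) / (d : ℂ))) : (p : ℤ) ^ d.factorization p ∣ k := by
  have hp := hM.1
  have hds : p ^ d.factorization p * (d / p ^ d.factorization p) = d :=
    Nat.ordProj_mul_ordCompl_eq_self d p
  have hp0 : (p : ℂ) ≠ 0 := by exact_mod_cast hp.ne_zero
  have hs0 : ((d / p ^ d.factorization p : ℕ) : ℂ) ≠ 0 := by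
    intro h0
    have : d / p ^ d.factorization p = 0 := by exact_mod_cast h0
    rw [this, mul_zero] at hds
    exact hd hds.symm
  apply dvd_of_lr_div_int hM
  have hdc : (d : ℂ) = (p : ℂ) ^ d.factorization p * ((d / p ^ d.factorization p : ℕ) : ℂ) := by
    exact_mod_cast hds.symm
  have h2 : (k : ℂ) / (p : ℂ) ^ d.factorization p =
      ((d / p ^ d.factorization p : ℕ) : ℂ) * ((k : ℂ) / (d : ℂ)) := by
    generalize ((d / p ^ d.factorization p : ℕ) : ℂ) = s at hdc hs0 ⊢
    generalize d.factorization p = e at hdc ⊢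
    rw [hdc]
    field_simp
  rw [h2]
  exact lr_mul hM (lr_natCast hM _) h

theorem pow_succ_dvd_of_li_div (hM : IsPModular p M) (k : ℤ) (d : ℕ) (hd : d ≠ 0)
    (h : MemLocalIdeal M ((k : ℂ) / (d : ℂ))) : (p : ℤ) ^ (d.factorization p + 1) ∣ k := by
  have hp := hM.1
  have hds : p ^ d.factorization p * (d / p ^ d.factorization p) = d :=
    Nat.ordProj_mul_ordCompl_eq_self d p
  have hp0 : (p : ℂ) ≠ 0 := by exact_mod_cast hp.ne_zero
  have hs0 : ((d / p ^ d.factorization p : ℕ) : ℂ) ≠ 0 := by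
    intro h0
    have : d / p ^ d.factorization p = 0 := by exact_mod_cast h0
    rw [this, mul_zero] at hds
    exact hd hds.symm
  obtain ⟨k', hk'⟩ := pow_dvd_of_lr_div hM k d hd (li_lr h)
  have h3 : MemLocalIdeal M (k' : ℂ) := by
    have hdc : (d : ℂ) = (p : ℂ) ^ d.factorization p * ((d / p ^ d.factorization p : ℕ) : ℂ) := by
      exact_mod_cast hds.symm
    have h4 : (k' : ℂ) = ((d / p ^ d.factorization p : ℕ) : ℂ) * ((k : ℂ) / (d : ℂ)) := by
      rw [hk']
      push_cast
      generalize ((d / p ^ d.factorization p : ℕ) : ℂ) = s at hdc hs0 ⊢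
      generalize d.factorization p = e at hdc ⊢
      rw [hdc]
      field_simp
    rw [h4]
    exact lr_mul_li hM (lr_natCast hM _) h
  obtain ⟨k'', rfl⟩ := (li_intCast_iff hM k').mp h3
  exact ⟨k'', by rw [hk']; ring⟩

theorem li_div_of_pow_dvd (hM : IsPModular p M) (k : ℤ) (d : ℕ) (hd : d ≠ 0) (e' : ℕ)
    (he : d.factorization p < e') (h : (p : ℤ) ^ e' ∣ k) :
    MemLocalIdeal M ((k : ℂ) / (d : ℂ)) := by
  have hp := hM.1
  have hds : p ^ d.factorization p * (d / p ^ d.factorization p) = d :=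
    Nat.ordProj_mul_ordCompl_eq_self d p
  have hps : ¬ p ∣ d / p ^ d.factorization p := Nat.not_dvd_ordCompl hp hd
  have hp0 : (p : ℂ) ≠ 0 := by exact_mod_cast hp.ne_zero
  have hs0 : ((d / p ^ d.factorization p : ℕ) : ℂ) ≠ 0 := by
    intro h0
    have : d / p ^ d.factorization p = 0 := by exact_mod_cast h0
    rw [this, mul_zero] at hds
    exact hd hds.symm
  obtain ⟨k', rfl⟩ := h
  have hdc : (d : ℂ) = (p : ℂ) ^ d.factorization p * ((d / p ^ d.factorization p : ℕ) : ℂ) := by
    exact_mod_cast hds.symm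
  have h5 : ((((p : ℤ) ^ e' * k' : ℤ)) : ℂ) / (d : ℂ) =
      (p : ℂ) * (((p : ℂ) ^ (e' - (d.factorization p + 1)) * (k' : ℂ)) *
        ((d / p ^ d.factorization p : ℕ) : ℂ)⁻¹) := by
    push_cast
    have h6 : (p : ℂ) ^ e' = (p : ℂ) ^ (e' - (d.factorization p + 1)) *
        (p : ℂ) ^ d.factorization p * p := by
      rw [mul_assoc, ← pow_succ, ← pow_add]
      congr 1
      omega
    rw [h6]
    generalize ((d / p ^ d.factorization p : ℕ) : ℂ) = s at hdc hs0 ⊢
    generalize e' - (d.factorization p + 1) = e'' at hdc ⊢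
    generalize d.factorization p = e at hdc ⊢
    rw [hdc]
    field_simp
  rw [h5]
  exact li_mul_lr hM (li_prime hM) (lr_mul hM (lr_mul hM (lr_pow hM (lr_natCast hM p) _)
    (lr_intCast hM k')) (lr_natCast_inv hM hps))

/-- For `χ` of minimal `p`-part of degree in its block, `p^a ⟨χ⁰, χ⟩ / χ(1)` is a local unit. -/
theorem gram_div_not_li_of_min [Fintype G] (hM : IsPModular p M) {B : Set (IrrCharacter G)}
    (hB : IsPBlock M B) {χ : IrrCharacter G} (hχ : χ ∈ B)
    (hmin : ∀ ψ ∈ B, (charDegree (χ : G → ℂ)).factorization p ≤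
      (charDegree (ψ : G → ℂ)).factorization p) :
    ¬ MemLocalIdeal M (((p ^ (Nat.card G).factorization p : ℕ) : ℂ) *
      gram p (χ : G → ℂ) (χ : G → ℂ) / (χ : G → ℂ) 1) := by
  classical
  have hp := hM.1
  intro hli
  obtain ⟨n, hn⟩ := exists_sylow_mult (G := G) hp
  set a := (Nat.card G).factorization p with ha
  set c : IrrCharacter G → ℂ :=
    fun ψ => ((p ^ a : ℕ) : ℂ) * gram p (χ : G → ℂ) (ψ : G → ℂ) with hc
  have hexp : ∀ y : G, ∑ ψ : IrrCharacter G, c ψ * (ψ : G → ℂ) y =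
      ((p ^ a : ℕ) : ℂ) * pRegularPart p (χ : G → ℂ) y := by
    intro y
    have h1 := classFun_apply_eq_sum_irr (pRegularPart p (χ : G → ℂ))
      (pRegularPart_conj (irr_conj χ)) y
    rw [h1, Finset.mul_sum]
    apply Finset.sum_congr rfl
    intro ψ _
    simp only [hc]
    unfold gram
    ring
  have hvan : ∀ y : G, p ∣ orderOf y → ∑ ψ : IrrCharacter G, c ψ * (ψ : G → ℂ) y = 0 := by
    intro y hy
    rw [hexp, pRegularPart_of_sing hy, mul_zero]
  have h1 := hn c hvan
  rw [hexp, pRegularPart_of_reg (not_dvd_orderOf_one hp)] at h1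
  have hpa : ((p ^ a : ℕ) : ℂ) ≠ 0 := by exact_mod_cast (pow_pos hp.pos _).ne'
  have h4 : (χ : G → ℂ) 1 = ∑ ψ : IrrCharacter G, c ψ * (n ψ : ℂ) := mul_left_cancel₀ hpa h1
  set d := charDegree (χ : G → ℂ) with hd
  have hd0 : d ≠ 0 := (irr_degree_pos χ).ne'
  set b := d.factorization p with hb
  have hdt : p ^ b * (d / p ^ b) = d := Nat.ordProj_mul_ordCompl_eq_self d p
  have hpt : ¬ p ∣ d / p ^ b := Nat.not_dvd_ordCompl hp hd0
  have hp0 : (p : ℂ) ≠ 0 := by exact_mod_cast hp.ne_zero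
  have h5 : ∀ ψ : IrrCharacter G, MemLocalIdeal M (c ψ / (p : ℂ) ^ b) := by
    intro ψ
    by_cases hψ : ψ ∈ B
    · have h6 := li_gram_div_sub hM χ ψ χ (sameBlock_of_mem hM hB hψ hχ)
      have h7 : MemLocalIdeal M (c ψ / (ψ : G → ℂ) 1) := by
        have := li_add hM h6 hli
        rwa [sub_add_cancel] at this
      have hdvd : p ^ b ∣ charDegree (ψ : G → ℂ) :=
        (Nat.pow_dvd_pow p (hmin ψ hψ)).trans (Nat.ordProj_dvd _ p)
      obtain ⟨q, hq⟩ := hdvd
      have hq0 : (q : ℂ) ≠ 0 := by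
        intro h0
        have : q = 0 := by exact_mod_cast h0
        rw [this, mul_zero] at hq
        exact (irr_degree_pos ψ).ne' hq
      have h8 : c ψ / (p : ℂ) ^ b = (q : ℂ) * (c ψ / (ψ : G → ℂ) 1) := by
        rw [irr_one_eq_degree, hq]
        push_cast
        field_simp
      rw [h8]
      exact lr_mul_li hM (lr_natCast hM q) h7
    · have h6 : c ψ = 0 := by
        simp only [hc]
        rw [gram_eq_zero_of_lr hM B (fun g => blockCoeff_lr hM hB g) hχ hψ, mul_zero]
      rw [h6, zero_div]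
      exact li_zero hM
  have h6 : MemLocalIdeal M (((d / p ^ b : ℕ) : ℂ)) := by
    have h7 : ((d / p ^ b : ℕ) : ℂ) = ∑ ψ : IrrCharacter G, (c ψ / (p : ℂ) ^ b) * (n ψ : ℂ) := by
      have hdc : (d : ℂ) = (p : ℂ) ^ b * ((d / p ^ b : ℕ) : ℂ) := by
        exact_mod_cast hdt.symm
      have h8 : ((d / p ^ b : ℕ) : ℂ) = (χ : G → ℂ) 1 / (p : ℂ) ^ b := by
        rw [irr_one_eq_degree, ← hd, hdc]
        field_simp
      rw [h8, h4, Finset.sum_div]
      apply Finset.sum_congr rfl
      intro ψ _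
      ring
    rw [h7]
    exact li_sum hM _ _ (fun ψ _ => li_mul_lr hM (h5 ψ) (lr_natCast hM _))
  exact hpt ((li_natCast_iff hM _).mp h6)

/-- Pairing `g` with `g⁻¹` on the elements of odd order. -/
theorem sum_odd_inv_invariant [Fintype G] (f : G → ℂ) (hf : ∀ g : G, f g⁻¹ = f g) :
    ∃ T : Finset {g : G // g ≠ 1 ∧ ¬ 2 ∣ orderOf g},
      ∑ g : G, (if 2 ∣ orderOf g then 0 else f g) = f 1 + 2 * ∑ t ∈ T, f t.1 := by
  classical
  have hodd1 : ∀ x : G, x ≠ 1 → ¬ 2 ∣ orderOf x → x⁻¹ ≠ x := by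
    intro x hx1 hx2 h
    have h3 : x ^ 2 = 1 := by
      rw [pow_two]
      nth_rewrite 1 [← h]
      exact inv_mul_cancel x
    have h4 : orderOf x ∣ 2 := orderOf_dvd_of_pow_eq_one h3
    have h5 : orderOf x = 1 ∨ orderOf x = 2 := (Nat.dvd_prime Nat.prime_two).mp h4
    rcases h5 with h5 | h5
    · exact hx1 (orderOf_eq_one_iff.mp h5)
    · exact hx2 (by rw [h5])
  let X := {g : G // g ≠ 1 ∧ ¬ 2 ∣ orderOf g}
  let inv' : X → X := fun x => ⟨x.1⁻¹, by
    have := x.2.1
    simpa using this, by rw [orderOf_inv]; exact x.2.2⟩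
  let act : ℕ → X → X := fun j x => if Even j then x else inv' x
  have hinv2 : ∀ x : X, inv' (inv' x) = x := fun x => Subtype.ext (inv_inv _)
  have hinvne : ∀ x : X, inv' x ≠ x := by
    intro x h
    exact hodd1 x.1 x.2.1 x.2.2 (congrArg Subtype.val h)
  obtain ⟨T, hT⟩ := exists_transversal_of_free act 2 (by norm_num)
    (fun x => by simp [act])
    (fun j k x => by
      by_cases hj : Even j <;> by_cases hk : Even k
      · simp [act, hj, hk, Nat.even_add]
      · simp [act, hj, hk, Nat.even_add]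
      · simp [act, hj, hk, Nat.even_add]
      · simp [act, hj, hk, Nat.even_add, hinv2])
    (fun x j => by
      by_cases hj : Even j
      · simp only [act, hj, if_true, true_iff]
        exact even_iff_two_dvd.mp hj
      · simp only [act, hj, if_false]
        constructor
        · intro h
          exact absurd h (hinvne x)
        · intro h
          exact absurd (even_iff_two_dvd.mpr h) hj)
  refine ⟨T, ?_⟩
  have h1 : ∀ g : G, (if 2 ∣ orderOf g then 0 else f g) =
      (if g = 1 then f 1 else 0) +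
        (if g ≠ 1 ∧ ¬ 2 ∣ orderOf g then f g else 0) := by
    intro g
    by_cases hg1 : g = 1
    · subst hg1
      simp
    · by_cases hg2 : 2 ∣ orderOf g
      · simp [hg1, hg2]
      · simp [hg1, hg2]
  rw [Finset.sum_congr rfl (fun g _ => h1 g), Finset.sum_add_distrib, Finset.sum_ite_eq']
  simp only [Finset.mem_univ, if_true]
  congr 1
  rw [← Finset.sum_filter]
  rw [Finset.sum_subtype (Finset.univ.filter (fun g : G => g ≠ 1 ∧ ¬ 2 ∣ orderOf g))
    (p := fun g : G => g ≠ 1 ∧ ¬ 2 ∣ orderOf g) (by simp) (fun g => f g)]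
  have h2 := hT (fun x : X => f x.1)
  rw [h2, Finset.mul_sum]
  apply Finset.sum_congr rfl
  intro t _
  rw [Finset.sum_range_succ, Finset.sum_range_one]
  simp only [act, inv']
  simp only [Nat.not_even_one, if_false, Even.zero, if_true]
  rw [hf]
  ring

end Cfsg.Agent.Helper24
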