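import Mathlib
import Cfsg.Prelude
import Cfsg.Agent.Helper24.InvConst
import Cfsg.Agent.Helper25.BlockIdem

/-!
# Central characters of `G` on class functions supported on a normal subgroup

If `θ` is an irreducible constituent of the restriction of `χ ∈ Irr(G)` to the normal
subgroup `N`, and `f` is a `G`-invariant function on `N`, then
`(∑ n, f n χ n) / χ 1 = (∑ n, f n θ n) / θ 1`.
-/

namespace Cfsg.Agent.Helper24

open Cfsg Cfsg.Agent.Helper25 Cfsg.Agent.Helper2

universe u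

variable {G : Type u} [Group G]

theorem sum_conjChar_invariant (N : Subgroup G) [hN : N.Normal] [Fintype N] (θ : N → ℂ)
    (f : N → ℂ) (hf : ∀ (g : G) (n : N), f ⟨g * n * g⁻¹, hN.conj_mem n n.2 g⟩ = f n) (g : G) :
    ∑ n : N, f n * conjChar N θ g n = ∑ n : N, f n * θ n := by
  refine Fintype.sum_equiv (MulAut.conjNormal g : N ≃* N).toEquiv _ _ (fun n => ?_)
  have e : (⟨g * (n : G) * g⁻¹, hN.conj_mem n n.2 g⟩ : N) =
      (MulAut.conjNormal g : N ≃* N).toEquiv n := by
    apply Subtype.ext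
    simp [MulAut.conjNormal_apply]
  rw [conjChar_apply, ← e, hf g n]

theorem omega_restrict_normal [Fintype G] (N : Subgroup G) [hN : N.Normal] [Fintype N]
    (χ : IrrCharacter G) (θ : IrrCharacter N)
    (hθ : classInner (fun n : N => (χ : G → ℂ) n) (θ : N → ℂ) ≠ 0)
    (f : N → ℂ) (hf : ∀ (g : G) (n : N), f ⟨g * n * g⁻¹, hN.conj_mem n n.2 g⟩ = f n) :
    (∑ n : N, f n * (χ : G → ℂ) n) / (χ : G → ℂ) 1 = omega f θ := by
  classical
  set φ : N → ℂ := fun n : N => (χ : G → ℂ) n with hφ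
  have hφcl : ∀ g x : N, φ (x * g * x⁻¹) = φ g := by
    intro g x
    simp only [hφ]
    have := irr_conj χ (g : G) (x : G)
    simpa using this
  set c : IrrCharacter N → ℂ := fun ξ => bil φ (ξ : N → ℂ) with hc
  have hexp : ∀ n : N, φ n = ∑ ξ : IrrCharacter N, c ξ * (ξ : N → ℂ) n :=
    fun n => classFun_apply_eq_sum_irr φ hφcl n
  set S := ∑ n : N, f n * (θ : N → ℂ) n with hS
  have hconj : ∀ ξ : IrrCharacter N, c ξ ≠ 0 →
      ∃ g : G, (ξ : N → ℂ) = conjChar N (θ : N → ℂ) g := by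
    intro ξ hξ
    apply clifford_conj N (χ : G → ℂ) χ.2 (θ : N → ℂ) θ.2 hθ ξ
    rw [classInner_eq_bil _ (irr_isCharacter ξ)]
    exact hξ
  have h1 : ∑ n : N, f n * (χ : G → ℂ) n = (∑ ξ : IrrCharacter N, c ξ) * S := by
    have h2 : ∀ n : N, f n * (χ : G → ℂ) n = ∑ ξ : IrrCharacter N, c ξ * (f n * (ξ : N → ℂ) n) := by
      intro n
      have := hexp n
      simp only [hφ] at this
      rw [this, Finset.mul_sum]
      apply Finset.sum_congr rfl
      intro ξ _
      ring
    rw [Finset.sum_congr rfl (fun n _ => h2 n), Finset.sum_comm, Finset.sum_mul]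
    apply Finset.sum_congr rfl
    intro ξ _
    rw [← Finset.mul_sum]
    by_cases hξ : c ξ = 0
    · rw [hξ, zero_mul, zero_mul]
    · obtain ⟨g, hg⟩ := hconj ξ hξ
      rw [hg, sum_conjChar_invariant N (θ : N → ℂ) f hf g]
  have h3 : (χ : G → ℂ) 1 = (∑ ξ : IrrCharacter N, c ξ) * (θ : N → ℂ) 1 := by
    have := hexp 1
    simp only [hφ] at this
    have h4 : ((1 : N) : G) = 1 := rfl
    rw [h4] at this
    rw [this, Finset.sum_mul]
    apply Finset.sum_congr rfl
    intro ξ _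
    by_cases hξ : c ξ = 0
    · rw [hξ, zero_mul, zero_mul]
    · obtain ⟨g, hg⟩ := hconj ξ hξ
      rw [hg, conjChar_apply]
      refine congrArg _ (congrArg _ (Subtype.ext ?_))
      simp
  have hχ1 : (χ : G → ℂ) 1 ≠ 0 := irr_one_ne_zero χ
  have hsum0 : (∑ ξ : IrrCharacter N, c ξ) ≠ 0 := by
    intro h0
    rw [h0, zero_mul] at h3
    exact hχ1 h3
  have hθ1 : (θ : N → ℂ) 1 ≠ 0 := irr_one_ne_zero θ
  unfold omega
  rw [h1, h3, ← hS]
  field_simp

end Cfsg.Agent.Helper24
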