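import Mathlib

/-!
# Commuting involutory automorphisms of odd-order nilpotent groups (helper24)

Prefix `h24e8`.  `h24e8_decomp`: every element is (fixed) * (inverted) for an involutory
automorphism of an odd-order group.  `h24e8_gen`: four-group generation inside an invariant
subgroup of a nilpotent group of odd order.
-/

set_option autoImplicit false

namespace Cfsg.Agent.Helper24

theorem h24e8_sq_one {P : Type*} [Group P] [Finite P] (hodd : Odd (Nat.card P)) (x : P)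
    (h : x * x = 1) : x = 1 := by
  obtain ⟨k, hk⟩ := hodd
  have h1 : x ^ (2 * k + 1) = 1 := by rw [← hk]; exact pow_card_eq_one'
  have h2 : x ^ (2 * k) = 1 := by rw [pow_mul, pow_two, h, one_pow]
  rw [pow_succ, h2, one_mul] at h1; exact h1

theorem h24e8_inv_self {P : Type*} [Group P] [Finite P] (hodd : Odd (Nat.card P)) (x : P)
    (h : x = x⁻¹) : x = 1 := by
  apply h24e8_sq_one hodd
  nth_rewrite 1 [h]
  exact inv_mul_cancel x

theorem h24e8_decomp {P : Type*} [Group P] [Finite P] (hodd : Odd (Nat.card P))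
    (σ : MulAut P) (hσ : ∀ x, σ (σ x) = x) (x : P) :
    ∃ c w : P, x = c * w ∧ σ c = c ∧ σ w = w⁻¹ ∧ w ∈ Subgroup.zpowers (x⁻¹ * σ x) := by
  obtain ⟨k, hk⟩ := hodd
  have hσy : σ (x⁻¹ * σ x) = (x⁻¹ * σ x)⁻¹ := by
    rw [map_mul, map_inv, hσ]; group
  have hyn : (x⁻¹ * σ x) ^ (2 * k + 1) = 1 := by rw [← hk]; exact pow_card_eq_one'
  have hw2 : (x⁻¹ * σ x) ^ (k + 1) * (x⁻¹ * σ x) ^ (k + 1) = x⁻¹ * σ x := by
    rw [← pow_add]
    have : k + 1 + (k + 1) = (2 * k + 1) + 1 := by ring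
    rw [this, pow_succ, hyn, one_mul]
  refine ⟨x * (x⁻¹ * σ x) ^ (k + 1), ((x⁻¹ * σ x) ^ (k + 1))⁻¹, by group, ?_, ?_, ?_⟩
  · rw [map_mul, map_pow, hσy, inv_pow]
    have hσx : σ x = x * (x⁻¹ * σ x) := by group
    calc σ x * ((x⁻¹ * σ x) ^ (k + 1))⁻¹
        = x * ((x⁻¹ * σ x) ^ (k + 1) * (x⁻¹ * σ x) ^ (k + 1)) * ((x⁻¹ * σ x) ^ (k + 1))⁻¹ := by
          rw [hw2]; group
      _ = x * (x⁻¹ * σ x) ^ (k + 1) := by group
  · rw [map_inv, map_pow, hσy, inv_pow, inv_inv]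
  · exact Subgroup.inv_mem _ (Subgroup.pow_mem _ (Subgroup.mem_zpowers _) _)

theorem h24e8_fpf_inv {P : Type*} [Group P] [Finite P] (hodd : Odd (Nat.card P))
    (σ : MulAut P) (hσ : ∀ x, σ (σ x) = x) (Q : Subgroup P) (hQ : ∀ x ∈ Q, σ x ∈ Q)
    (hfpf : ∀ x ∈ Q, σ x = x → x = 1) : ∀ x ∈ Q, σ x = x⁻¹ := by
  intro x hx
  obtain ⟨c, w, hxcw, hc, hw, hwz⟩ := h24e8_decomp hodd σ hσ x
  have hwQ : w ∈ Q := by
    have : Subgroup.zpowers (x⁻¹ * σ x) ≤ Q := by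
      rw [Subgroup.zpowers_le]; exact Q.mul_mem (Q.inv_mem hx) (hQ x hx)
    exact this hwz
  have hcQ : c ∈ Q := by
    have : c = x * w⁻¹ := by rw [hxcw]; group
    rw [this]; exact Q.mul_mem hx (Q.inv_mem hwQ)
  have hc1 := hfpf c hcQ hc
  rw [hxcw, hc1, one_mul]; exact hw

theorem h24e8_cyc {P : Type*} [Group P] [Finite P] {p : ℕ} (hp : p.Prime) (hp2 : p ≠ 2)
    (hP : IsPGroup p P) (S : MulAut P) (hS : ∀ x, S (S x) = x) (g : P)
    (hSg : S g ∈ Subgroup.zpowers g) : S g = g ∨ S g = g⁻¹ := by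
  obtain ⟨m, hm⟩ := Subgroup.mem_zpowers_iff.mp hSg
  have h1 : g ^ (m * m) = g := by
    have h := hS g
    rw [← hm, map_zpow, ← hm, ← zpow_mul] at h
    exact h
  have h2 : g ^ ((m - 1) * (m + 1)) = 1 := by
    have : (m - 1) * (m + 1) = m * m - 1 := by ring
    rw [this, zpow_sub, zpow_one, h1, mul_inv_cancel]
  obtain ⟨e, he⟩ := hP g
  have hpZ : Prime (p : ℤ) := Nat.prime_iff_prime_int.mp hp
  obtain ⟨j, hj⟩ : ∃ j, orderOf g = p ^ j := by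
    have : orderOf g ∣ p ^ e := orderOf_dvd_of_pow_eq_one he
    obtain ⟨j, _, hj⟩ := (Nat.dvd_prime_pow hp).mp this
    exact ⟨j, hj⟩
  have hdvd : ((p : ℤ) ^ j) ∣ (m - 1) * (m + 1) := by
    have := (orderOf_dvd_iff_zpow_eq_one (x := g) (i := (m - 1) * (m + 1))).mpr h2
    rw [hj] at this
    exact_mod_cast this
  by_cases hc : (p : ℤ) ∣ m + 1
  · right
    have hnot : ¬ (p : ℤ) ∣ m - 1 := by
      intro h
      have h3 : (p : ℤ) ∣ (m + 1) - (m - 1) := dvd_sub hc h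
      have h4 : (m + 1) - (m - 1) = 2 := by ring
      rw [h4] at h3
      have h5 : p ∣ 2 := by exact_mod_cast h3
      exact hp2 ((Nat.prime_dvd_prime_iff_eq hp Nat.prime_two).mp h5)
    have hcop : IsCoprime ((p : ℤ) ^ j) (m - 1) :=
      IsCoprime.pow_left ((Prime.coprime_iff_not_dvd hpZ).mpr hnot)
    have h6 : ((p : ℤ) ^ j) ∣ m + 1 := hcop.dvd_of_dvd_mul_left hdvd
    have h7 : g ^ (m + 1) = 1 := by
      apply (orderOf_dvd_iff_zpow_eq_one).mp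
      rw [hj]; exact_mod_cast h6
    rw [← hm]
    rw [zpow_add, zpow_one] at h7
    exact eq_inv_of_mul_eq_one_left h7
  · left
    have hcop : IsCoprime ((p : ℤ) ^ j) (m + 1) :=
      IsCoprime.pow_left ((Prime.coprime_iff_not_dvd hpZ).mpr hc)
    have h6 : ((p : ℤ) ^ j) ∣ m - 1 := hcop.dvd_of_dvd_mul_right hdvd
    have h7 : g ^ (m - 1) = 1 := by
      apply (orderOf_dvd_iff_zpow_eq_one).mp
      rw [hj]; exact_mod_cast h6
    rw [← hm]
    rw [zpow_sub, zpow_one] at h7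
    exact mul_inv_eq_one.mp h7

theorem h24e8_cyc' {P : Type*} [Group P] [Finite P] {p : ℕ} (hp : p.Prime) (hp2 : p ≠ 2)
    (hP : IsPGroup p P) (T S : MulAut P) (hTS : ∀ x, T (S x) = S (T x)) (hS : ∀ x, S (S x) = x)
    (g : P) (hg : ∀ x, T x = x ↔ x ∈ Subgroup.zpowers g) :
    (∀ x ∈ Subgroup.zpowers g, S x = x) ∨ (∀ x ∈ Subgroup.zpowers g, S x = x⁻¹) := by
  have hSg : S g ∈ Subgroup.zpowers g := by
    rw [← hg, hTS, (hg g).mpr (Subgroup.mem_zpowers g)]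
  rcases h24e8_cyc hp hp2 hP S hS g hSg with h | h
  · left
    intro x hx
    obtain ⟨i, rfl⟩ := Subgroup.mem_zpowers_iff.mp hx
    rw [map_zpow, h]
  · right
    intro x hx
    obtain ⟨i, rfl⟩ := Subgroup.mem_zpowers_iff.mp hx
    rw [map_zpow, h, inv_zpow]

theorem h24e8_central4 {M : Type*} [Group M] (X A B D : M) (hX : ∀ q, X * q = q * X)
    (hA : ∀ q, A * q = q * A) (hB : ∀ q, B * q = q * B) (hD : ∀ q, D * q = q * D) :
    X * A * B * D = A * X * D * B ∧ (X * A) * (X * B) * (X * D) = X * X * (X * A * B * D) := by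
  have hXc : X ∈ Subgroup.center M := Subgroup.mem_center_iff.mpr (fun q => (hX q).symm)
  have hAc : A ∈ Subgroup.center M := Subgroup.mem_center_iff.mpr (fun q => (hA q).symm)
  have hBc : B ∈ Subgroup.center M := Subgroup.mem_center_iff.mpr (fun q => (hB q).symm)
  have hDc : D ∈ Subgroup.center M := Subgroup.mem_center_iff.mpr (fun q => (hD q).symm)
  have e1 : (⟨X, hXc⟩ : Subgroup.center M) * ⟨A, hAc⟩ * ⟨B, hBc⟩ * ⟨D, hDc⟩
      = ⟨A, hAc⟩ * ⟨X, hXc⟩ * ⟨D, hDc⟩ * ⟨B, hBc⟩ := by ac_rfl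
  have e2 : ((⟨X, hXc⟩ : Subgroup.center M) * ⟨A, hAc⟩) * (⟨X, hXc⟩ * ⟨B, hBc⟩) * (⟨X, hXc⟩ * ⟨D, hDc⟩)
      = ⟨X, hXc⟩ * ⟨X, hXc⟩ * (⟨X, hXc⟩ * ⟨A, hAc⟩ * ⟨B, hBc⟩ * ⟨D, hDc⟩) := by ac_rfl
  exact ⟨congrArg Subtype.val e1, congrArg Subtype.val e2⟩

end Cfsg.Agent.Helper24
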