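import Cfsg.Agent.Helper24.EA8a

/-!
# Four-group generation (helper24)

`h24e8_gen`: for commuting involutory automorphisms `a, b` of a nilpotent group of odd order
and an invariant subgroup `F`, `F` is generated by its elements fixed by `a`, `b` or `ab`.
-/

set_option autoImplicit false

namespace Cfsg.Agent.Helper24

theorem h24e8_gen {P : Type*} [Group P] [Finite P] (hodd : Odd (Nat.card P))
    [hnil : Group.IsNilpotent P]
    (a b : MulAut P) (ha : ∀ x, a (a x) = x) (hb : ∀ x, b (b x) = x)
    (hab : ∀ x, a (b x) = b (a x))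
    (F : Subgroup P) (haF : ∀ x ∈ F, a x ∈ F) (hbF : ∀ x ∈ F, b x ∈ F) :
    F ≤ Subgroup.closure {x | x ∈ F ∧ (a x = x ∨ b x = x ∨ a (b x) = x)} := by
  set G₀ := Subgroup.closure {x | x ∈ F ∧ (a x = x ∨ b x = x ∨ a (b x) = x)} with hG₀
  have hchar : ∀ (σ : MulAut P) (j : ℕ) (u : P), u ∈ Subgroup.upperCentralSeries P j →
      σ u ∈ Subgroup.upperCentralSeries P j := by
    intro σ j u hu
    have hfix := (inferInstance : (Subgroup.upperCentralSeries P j).Characteristic).fixed σ
    have : u ∈ (Subgroup.upperCentralSeries P j).comap σ.toMonoidHom := by rw [hfix]; exact hu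
    exact this
  have key : ∀ k : ℕ, Subgroup.upperCentralSeries P k ⊓ F ≤ G₀ := by
    intro k
    induction k with
    | zero =>
      intro x hx
      rw [Subgroup.upperCentralSeries_zero] at hx
      have : x = 1 := Subgroup.mem_bot.mp (Subgroup.mem_inf.mp hx).1
      rw [this]; exact G₀.one_mem
    | succ k ih =>
      intro x hx
      obtain ⟨hxZ, hxF⟩ := Subgroup.mem_inf.mp hx
      have hcent : ∀ u : P, u ∈ Subgroup.upperCentralSeries P (k + 1) →
          ∀ q : P ⧸ Subgroup.upperCentralSeries P k,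
            (u : P ⧸ Subgroup.upperCentralSeries P k) * q = q * (u : P ⧸ Subgroup.upperCentralSeries P k) := by
        intro u hu q
        obtain ⟨v, rfl⟩ := QuotientGroup.mk_surjective q
        have h1 := (Subgroup.mem_upperCentralSeries_succ_iff).mp hu v⁻¹
        rw [commutatorElement_def] at h1
        rw [← QuotientGroup.mk_mul, ← QuotientGroup.mk_mul, QuotientGroup.eq]
        have h2 := (inferInstance : (Subgroup.upperCentralSeries P k).Normal).conj_mem _ h1 u⁻¹
        convert h2 using 1
        group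
      have H1 : ∀ (σ : MulAut P), (∀ x, σ (σ x) = x) → (∀ x ∈ F, σ x ∈ F) →
          (∀ x ∈ F, σ x = x → x ∈ G₀) →
          ∀ u ∈ F, u⁻¹ * σ u ∈ Subgroup.upperCentralSeries P k → u ∈ G₀ := by
        intro σ hσ hσF hσG u huF hu
        obtain ⟨c, w, hucw, hc, hw, hwz⟩ := h24e8_decomp hodd σ hσ u
        have hwZF : w ∈ Subgroup.upperCentralSeries P k ⊓ F := by
          have : Subgroup.zpowers (u⁻¹ * σ u) ≤ Subgroup.upperCentralSeries P k ⊓ F := by
            rw [Subgroup.zpowers_le]
            exact Subgroup.mem_inf.mpr ⟨hu, F.mul_mem (F.inv_mem huF) (hσF u huF)⟩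
          exact this hwz
        have hwG : w ∈ G₀ := ih hwZF
        have hcF : c ∈ F := by
          have : c = u * w⁻¹ := by rw [hucw]; group
          rw [this]; exact F.mul_mem huF (F.inv_mem (Subgroup.mem_inf.mp hwZF).2)
        rw [hucw]; exact G₀.mul_mem (hσG c hcF hc) hwG
      have hGa : ∀ x ∈ F, a x = x → x ∈ G₀ := fun x hx h => Subgroup.subset_closure ⟨hx, Or.inl h⟩
      have hGb : ∀ x ∈ F, b x = x → x ∈ G₀ :=
        fun x hx h => Subgroup.subset_closure ⟨hx, Or.inr (Or.inl h)⟩
      have hGab : ∀ x ∈ F, (a * b) x = x → x ∈ G₀ :=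
        fun x hx h => Subgroup.subset_closure ⟨hx, Or.inr (Or.inr h)⟩
      have habinv : ∀ x, (a * b) ((a * b) x) = x := by
        intro x
        show a (b (a (b x))) = x
        rw [hab x, hb, ha]
      have habF : ∀ x ∈ F, (a * b) x ∈ F := fun x hx => haF _ (hbF x hx)
      -- the four elements
      have hA : a x ∈ Subgroup.upperCentralSeries P (k + 1) := hchar a _ x hxZ
      have hB : b x ∈ Subgroup.upperCentralSeries P (k + 1) := hchar b _ x hxZ
      have hD : a (b x) ∈ Subgroup.upperCentralSeries P (k + 1) := hchar a _ _ hB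
      have hAF := haF x hxF
      have hBF := hbF x hxF
      have hDF := haF _ hBF
      obtain ⟨c1, c2⟩ := h24e8_central4 (x : P ⧸ Subgroup.upperCentralSeries P k)
        (a x : P ⧸ Subgroup.upperCentralSeries P k) (b x : P ⧸ Subgroup.upperCentralSeries P k)
        (a (b x) : P ⧸ Subgroup.upperCentralSeries P k)
        (hcent x hxZ) (hcent _ hA) (hcent _ hB) (hcent _ hD)
      have hu1 : x * a x ∈ G₀ := by
        apply H1 a ha haF hGa _ (F.mul_mem hxF hAF)
        rw [map_mul, ha, ← QuotientGroup.eq, QuotientGroup.mk_mul, QuotientGroup.mk_mul]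
        exact hcent x hxZ _
      have hu2 : x * b x ∈ G₀ := by
        apply H1 b hb hbF hGb _ (F.mul_mem hxF hBF)
        rw [map_mul, hb, ← QuotientGroup.eq, QuotientGroup.mk_mul, QuotientGroup.mk_mul]
        exact hcent x hxZ _
      have hu3 : x * a (b x) ∈ G₀ := by
        apply H1 (a * b) habinv habF hGab _ (F.mul_mem hxF hDF)
        rw [map_mul]
        have e1 : (a * b) x = a (b x) := rfl
        have e2 : (a * b) (a (b x)) = x := habinv x
        rw [e1, e2, ← QuotientGroup.eq, QuotientGroup.mk_mul, QuotientGroup.mk_mul]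
        exact hcent x hxZ _
      have hu4 : x * a x * b x * a (b x) ∈ G₀ := by
        apply H1 a ha haF hGa _ (F.mul_mem (F.mul_mem (F.mul_mem hxF hAF) hBF) hDF)
        rw [map_mul, map_mul, map_mul, ha, ha, ← QuotientGroup.eq]
        simp only [QuotientGroup.mk_mul]
        exact c1
      have hz : (x * x * (x * a x * b x * a (b x)))⁻¹ * ((x * a x) * (x * b x) * (x * a (b x)))
          ∈ G₀ := by
        apply ih
        refine Subgroup.mem_inf.mpr ⟨?_, ?_⟩
        · rw [← QuotientGroup.eq]
          simp only [QuotientGroup.mk_mul]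
          exact c2.symm
        · exact F.mul_mem (F.inv_mem (F.mul_mem (F.mul_mem hxF hxF)
            (F.mul_mem (F.mul_mem (F.mul_mem hxF hAF) hBF) hDF)))
            (F.mul_mem (F.mul_mem (F.mul_mem hxF hAF) (F.mul_mem hxF hBF)) (F.mul_mem hxF hDF))
      have hxx : x * x ∈ G₀ := by
        have e0 : ∀ A C : P, x * x = A * ((x * x * C)⁻¹ * A)⁻¹ * C⁻¹ := by
          intro A C
          rw [mul_inv_rev, inv_inv, mul_inv_cancel_left, mul_inv_cancel_right]
        have e : x * x = ((x * a x) * (x * b x) * (x * a (b x))) *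
            ((x * x * (x * a x * b x * a (b x)))⁻¹ * ((x * a x) * (x * b x) * (x * a (b x))))⁻¹ *
            (x * a x * b x * a (b x))⁻¹ := e0 _ _
        rw [e]
        exact G₀.mul_mem (G₀.mul_mem (G₀.mul_mem (G₀.mul_mem hu1 hu2) hu3) (G₀.inv_mem hz))
          (G₀.inv_mem hu4)
      obtain ⟨k', hk'⟩ := hodd
      have hx1 : x ^ (2 * k' + 1) = 1 := by rw [← hk']; exact pow_card_eq_one'
      have hx2 : (x * x) ^ (k' + 1) = x := by
        have e0 : x * x = x ^ 2 := (pow_two x).symm
        rw [e0, ← pow_mul]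
        have : 2 * (k' + 1) = (2 * k' + 1) + 1 := by ring
        rw [this, pow_succ, hx1, one_mul]
      rw [← hx2]
      exact G₀.pow_mem hxx _
  obtain ⟨n, hn⟩ := hnil.nilpotent'
  have := key n
  rw [hn, top_inf_eq] at this
  exact this

end Cfsg.Agent.Helper24
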