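import Cfsg.Agent.Helper24.EA8b

/-!
# Elementary abelian groups of order 8 acting on odd-order nilpotent groups (helper24)

Generic lemmas: `h24e8Fix` (fixed-point subgroup), `h24e8_pick`, `h24e8_idx2` (index two
subgroups of a group of order 8), `h24e8_plt`, `h24e8_rank2` (a two-generated abelian p-group has
no chain of three subgroups of exponent p), `h24e8_gen8`, `h24e8_eigen`, `h24e8_dual`,
`h24e8_param`.
-/

set_option autoImplicit false

namespace Cfsg.Agent.Helper24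

/-- fixed-point subgroup of an automorphism -/
def h24e8Fix {P : Type*} [Group P] (T : MulAut P) : Subgroup P where
  carrier := {x | T x = x}
  mul_mem' := by
    intro a b ha hb
    show T (a * b) = a * b
    rw [map_mul, show T a = a from ha, show T b = b from hb]
  one_mem' := map_one T
  inv_mem' := by
    intro a ha
    show T a⁻¹ = a⁻¹
    rw [map_inv, show T a = a from ha]

theorem h24e8_mem_fix {P : Type*} [Group P] (T : MulAut P) (x : P) :
    x ∈ h24e8Fix T ↔ T x = x := Iff.rfl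

theorem h24e8_pick {M : Type*} [Group M] (I : Subgroup M) (hI8 : Nat.card ↥I = 8)
    (S : Finset M) (hS : S.card < 8) : ∃ b ∈ I, b ∉ S := by
  have h1 : (↑S : Set M).ncard < (I : Set M).ncard := by
    rw [Set.ncard_coe_finset]
    have : (I : Set M).ncard = Nat.card ↥I := (Nat.card_coe_set_eq _).symm
    rw [this, hI8]; exact hS
  obtain ⟨b, hb, hbS⟩ := Set.exists_mem_notMem_of_ncard_lt_ncard h1 (Finset.finite_toSet S)
  exact ⟨b, hb, by simpa using hbS⟩

theorem h24e8_idx2 {M : Type*} [Group M] (I K : Subgroup M) (hI8 : Nat.card ↥I = 8)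
    (hKI : K ≤ I) (A B : M) (hA : A ∈ K) (hB : B ∈ K) (hA1 : A ≠ 1) (hB1 : B ≠ 1)
    (hAB : A ≠ B) (S : M) (hS : S ∈ I) (hSK : S ∉ K) :
    ∀ R ∈ I, ∀ R' ∈ I, R ∉ K → R' ∉ K → R * R' ∈ K := by
  haveI : Finite ↥I := Nat.finite_of_card_ne_zero (by rw [hI8]; norm_num)
  have hdvd : Nat.card ↥(K.subgroupOf I) ∣ 2 ^ 3 := by
    have := Subgroup.card_subgroup_dvd_card (K.subgroupOf I)
    rw [hI8] at this; exact this
  obtain ⟨j, hj, hcard⟩ := (Nat.dvd_prime_pow Nat.prime_two).mp hdvd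
  have hAK' : (⟨A, hKI hA⟩ : ↥I) ∈ K.subgroupOf I := Subgroup.mem_subgroupOf.mpr hA
  have hBK' : (⟨B, hKI hB⟩ : ↥I) ∈ K.subgroupOf I := Subgroup.mem_subgroupOf.mpr hB
  have hidx : (K.subgroupOf I).index = 2 := by
    have hmul := Subgroup.card_mul_index (K.subgroupOf I)
    rw [hI8, hcard] at hmul
    interval_cases j
    · exfalso
      have hbot : K.subgroupOf I = ⊥ := Subgroup.card_eq_one.mp (by simpa using hcard)
      rw [hbot] at hAK'
      have := Subgroup.mem_bot.mp hAK'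
      exact hA1 (congrArg Subtype.val this)
    · exfalso
      obtain ⟨y, hy, hyu⟩ :=
        (Nat.card_eq_two_iff' (1 : ↥(K.subgroupOf I))).mp (by simpa using hcard)
      have e1 : (⟨⟨A, hKI hA⟩, hAK'⟩ : ↥(K.subgroupOf I)) = y := hyu _ (by
        intro h; exact hA1 (congrArg (fun z : ↥(K.subgroupOf I) => ((z : ↥I) : M)) h))
      have e2 : (⟨⟨B, hKI hB⟩, hBK'⟩ : ↥(K.subgroupOf I)) = y := hyu _ (by
        intro h; exact hB1 (congrArg (fun z : ↥(K.subgroupOf I) => ((z : ↥I) : M)) h))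
      exact hAB (congrArg (fun z : ↥(K.subgroupOf I) => ((z : ↥I) : M)) (e1.trans e2.symm))
    · norm_num at hmul
      omega
    · exfalso
      have htop : K.subgroupOf I = ⊤ :=
        (Subgroup.card_eq_iff_eq_top _).mp (by rw [hcard, hI8]; norm_num)
      have : (⟨S, hS⟩ : ↥I) ∈ K.subgroupOf I := by rw [htop]; trivial
      exact hSK (Subgroup.mem_subgroupOf.mp this)
  intro R hR R' hR' hRK hR'K
  have h := (Subgroup.mul_mem_iff_of_index_two hidx (a := ⟨R, hR⟩) (b := ⟨R', hR'⟩))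
  have : (⟨R, hR⟩ : ↥I) * ⟨R', hR'⟩ ∈ K.subgroupOf I :=
    h.mpr ⟨fun h1 => absurd (Subgroup.mem_subgroupOf.mp h1) hRK,
      fun h1 => absurd (Subgroup.mem_subgroupOf.mp h1) hR'K⟩
  exact Subgroup.mem_subgroupOf.mp this

theorem h24e8_plt {A : Type*} [Group A] [Finite A] {p : ℕ} (hp : p.Prime) (hA : IsPGroup p A)
    (H K : Subgroup A) (hHK : H < K) : p * Nat.card ↥H ≤ Nat.card ↥K := by
  haveI : Fact p.Prime := ⟨hp⟩
  obtain ⟨m, hm⟩ := Subgroup.card_dvd_of_le hHK.le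
  obtain ⟨k, hk⟩ := IsPGroup.iff_card.mp (hA.to_subgroup K)
  have hmd : m ∣ p ^ k := by rw [← hk, hm]; exact dvd_mul_left m _
  obtain ⟨j, -, hj⟩ := (Nat.dvd_prime_pow hp).mp hmd
  have hj0 : j ≠ 0 := by
    rintro rfl
    rw [pow_zero] at hj
    rw [hj, mul_one] at hm
    exact hHK.ne (Subgroup.eq_of_le_of_card_ge hHK.le hm.le)
  have : p ≤ m := by
    rw [hj]
    calc p = p ^ 1 := (pow_one p).symm
      _ ≤ p ^ j := Nat.pow_le_pow_right hp.pos (Nat.one_le_iff_ne_zero.mpr hj0)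
  rw [hm, mul_comm]
  exact Nat.mul_le_mul_left _ this

theorem h24e8_rank2c {A : Type*} [CommGroup A] [Finite A]
    {p : ℕ} (hp : p.Prime) (hA : IsPGroup p A) (a b : A) (hab : Subgroup.closure {a, b} = ⊤)
    (H₁ H₂ H₃ : Subgroup A) (h1 : H₁ ≠ ⊥) (h12 : H₁ < H₂) (h23 : H₂ < H₃)
    (h3 : ∀ x ∈ H₃, x ^ p = 1) : False := by
  haveI : NeZero p := ⟨hp.ne_zero⟩
  set ψ : A →* A := powMonoidHom p with hψ
  have hH3 : H₃ ≤ ψ.ker := fun x hx => MonoidHom.mem_ker.mpr (h3 x hx)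
  have c1 : p ≤ Nat.card ↥H₁ := by
    have := h24e8_plt hp hA ⊥ H₁ (bot_lt_iff_ne_bot.mpr h1)
    simpa using this
  have c2 := h24e8_plt hp hA H₁ H₂ h12
  have c3 := h24e8_plt hp hA H₂ H₃ h23
  have c4 : Nat.card ↥H₃ ≤ Nat.card ↥ψ.ker := Subgroup.card_le_of_le hH3
  have low : p * (p * p) ≤ Nat.card ↥ψ.ker :=
    calc p * (p * p) ≤ p * (p * Nat.card ↥H₁) :=
          Nat.mul_le_mul_left _ (Nat.mul_le_mul_left _ c1)
      _ ≤ p * Nat.card ↥H₂ := Nat.mul_le_mul_left _ c2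
      _ ≤ Nat.card ↥H₃ := c3
      _ ≤ Nat.card ↥ψ.ker := c4
  have hsurj : Function.Surjective (fun t : ZMod p × ZMod p × ↥ψ.range =>
      a ^ (t.1.val) * b ^ (t.2.1.val) * (t.2.2 : A)) := by
    intro x
    have hx : x ∈ Subgroup.closure {a, b} := by rw [hab]; trivial
    obtain ⟨m, n, rfl⟩ := Subgroup.mem_closure_pair.mp hx
    refine ⟨((m : ZMod p), (n : ZMod p), ⟨ψ (a ^ (m / p) * b ^ (n / p)), ⟨_, rfl⟩⟩), ?_⟩
    have hm : m = (((m : ZMod p).val : ℕ) : ℤ) + p * (m / p) := by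
      rw [ZMod.val_intCast]; exact (Int.emod_add_mul_ediv m p).symm
    have hn : n = (((n : ZMod p).val : ℕ) : ℤ) + p * (n / p) := by
      rw [ZMod.val_intCast]; exact (Int.emod_add_mul_ediv n p).symm
    have ea : a ^ m = a ^ ((m : ZMod p).val) * (a ^ (m / p)) ^ p := by
      nth_rewrite 1 [hm]
      rw [zpow_add, zpow_natCast, zpow_mul', zpow_natCast]
    have eb : b ^ n = b ^ ((n : ZMod p).val) * (b ^ (n / p)) ^ p := by
      nth_rewrite 1 [hn]
      rw [zpow_add, zpow_natCast, zpow_mul', zpow_natCast]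
    show a ^ ((m : ZMod p).val) * b ^ ((n : ZMod p).val) * (a ^ (m / p) * b ^ (n / p)) ^ p
      = a ^ m * b ^ n
    rw [ea, eb, mul_pow, mul_mul_mul_comm]
  have hle : Nat.card A ≤ Nat.card (ZMod p × ZMod p × ↥ψ.range) :=
    Nat.card_le_card_of_surjective _ hsurj
  rw [Nat.card_prod, Nat.card_prod, Nat.card_zmod] at hle
  have hki := Subgroup.card_mul_index ψ.ker
  rw [Subgroup.index_ker] at hki
  have hpos : 0 < Nat.card ↥ψ.range := Nat.card_pos
  have h5 : Nat.card ↥ψ.ker * Nat.card ↥ψ.range ≤ p * p * Nat.card ↥ψ.range := by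
    rw [hki, mul_assoc]; exact hle
  have h6 : Nat.card ↥ψ.ker ≤ p * p := Nat.le_of_mul_le_mul_right h5 hpos
  have h7 : p * (p * p) ≤ 1 * (p * p) := by rw [one_mul]; exact low.trans h6
  have h8 : p ≤ 1 := Nat.le_of_mul_le_mul_right h7 (Nat.mul_pos hp.pos hp.pos)
  exact absurd hp.two_le (by omega)

theorem h24e8_rank2 {A : Type*} [Group A] [Finite A] (hcomm : ∀ x y : A, x * y = y * x)
    {p : ℕ} (hp : p.Prime) (hA : IsPGroup p A) (a b : A) (hab : Subgroup.closure {a, b} = ⊤)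
    (H₁ H₂ H₃ : Subgroup A) (h1 : H₁ ≠ ⊥) (h12 : H₁ < H₂) (h23 : H₂ < H₃)
    (h3 : ∀ x ∈ H₃, x ^ p = 1) : False := by
  letI : CommGroup A := { (inferInstance : Group A) with mul_comm := hcomm }
  exact h24e8_rank2c hp hA a b hab H₁ H₂ H₃ h1 h12 h23 h3

theorem h24e8_comm_of_gen {P : Type*} [Group P] (S : Set P) (hS : Subgroup.closure S = ⊤)
    (hc : ∀ x ∈ S, ∀ y ∈ S, x * y = y * x) : ∀ x y : P, x * y = y * x := by
  have h1 : Subgroup.closure S ≤ Subgroup.centralizer S :=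
    (Subgroup.closure_le _).mpr (fun x hx => Subgroup.mem_centralizer_iff.mpr
      (fun y hy => hc y hy x hx))
  have h2 : Subgroup.closure S ≤ Subgroup.center P :=
    (Subgroup.closure_le _).mpr (fun s hs => Subgroup.mem_center_iff.mpr (fun x => by
      have hx : x ∈ Subgroup.centralizer S := h1 (by rw [hS]; trivial)
      exact (Subgroup.mem_centralizer_iff.mp hx s hs).symm))
  intro x y
  have hy : y ∈ Subgroup.center P := h2 (by rw [hS]; trivial)
  exact Subgroup.mem_center_iff.mp hy x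

theorem h24e8_inv_of_gen {P : Type*} [Group P] (hcomm : ∀ x y : P, x * y = y * x) (S : Set P)
    (hS : Subgroup.closure S = ⊤) (σ : MulAut P) (h : ∀ s ∈ S, σ s = s⁻¹) :
    ∀ x, σ x = x⁻¹ := by
  intro x
  have hx : x ∈ Subgroup.closure S := by rw [hS]; trivial
  induction hx using Subgroup.closure_induction with
  | mem y hy => exact h y hy
  | one => rw [map_one, inv_one]
  | mul y z _ _ ihy ihz => rw [map_mul, ihy, ihz, mul_inv_rev, hcomm]
  | inv y _ ih => rw [map_inv, ih]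

theorem h24e8_comm_of_fpf {P : Type*} [Group P] [Finite P] (hodd : Odd (Nat.card P))
    (σ : MulAut P) (hσ : ∀ x, σ (σ x) = x) (Q : Subgroup P) (hQ : ∀ x ∈ Q, σ x ∈ Q)
    (hfpf : ∀ x ∈ Q, σ x = x → x = 1) : ∀ x ∈ Q, ∀ y ∈ Q, x * y = y * x := by
  have hinv := h24e8_fpf_inv hodd σ hσ Q hQ hfpf
  intro x hx y hy
  have h1 := hinv (x * y) (Q.mul_mem hx hy)
  rw [map_mul, hinv x hx, hinv y hy, mul_inv_rev] at h1
  have h2 := congrArg Inv.inv h1
  rw [mul_inv_rev, mul_inv_rev, inv_inv, inv_inv] at h2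
  exact h2.symm

theorem h24e8_ordp {A : Type*} [Group A] {p : ℕ} (hA : IsPGroup p A)
    (H : Subgroup A) (w : A) (hw : w ∈ H) (hw1 : w ≠ 1) : ∃ z ∈ H, z ≠ 1 ∧ z ^ p = 1 := by
  classical
  have hex : ∃ k, w ^ p ^ k = 1 := hA w
  have hk1 : w ^ p ^ (Nat.find hex) = 1 := Nat.find_spec hex
  have hk0 : Nat.find hex ≠ 0 := by
    intro h; rw [h, pow_zero, pow_one] at hk1; exact hw1 hk1
  obtain ⟨j, hj⟩ := Nat.exists_eq_succ_of_ne_zero hk0
  refine ⟨w ^ p ^ j, H.pow_mem hw _, ?_, ?_⟩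
  · intro h
    exact Nat.find_min hex (m := j) (by rw [hj]; exact Nat.lt_succ_self j) h
  · rw [← pow_mul, ← pow_succ, ← Nat.succ_eq_add_one, ← hj]; exact hk1

end Cfsg.Agent.Helper24
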