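import Cfsg.Agent.Helper24.EA8c

/-!
# Elementary abelian groups of order 8 acting on odd-order nilpotent groups, II (helper24)

`h24e8_gen8` (generation by the pairwise fixed points), `h24e8_eigen` (eigenvectors),
`h24e8_dual` (a dual system of three involutions and three eigenvectors), `h24e8_param`
(every element is a product of the dual system).
-/

set_option autoImplicit false

namespace Cfsg.Agent.Helper24

theorem h24e8_invol {P : Type*} [Group P] (I : Subgroup (MulAut P))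
    (hsq : ∀ a ∈ I, a * a = 1) : ∀ T ∈ I, ∀ x : P, T (T x) = x := by
  intro T hT x
  have h2 : (T * T) x = x := by rw [hsq T hT]; rfl
  exact h2

theorem h24e8_commx {P : Type*} [Group P] (I : Subgroup (MulAut P))
    (hcommI : ∀ a ∈ I, ∀ b ∈ I, a * b = b * a) :
    ∀ a ∈ I, ∀ b ∈ I, ∀ x : P, a (b x) = b (a x) := by
  intro a ha b hb x
  have h2 : (a * b) x = (b * a) x := by rw [hcommI a ha b hb]
  exact h2

theorem h24e8_gen8 {P : Type*} [Group P] [Finite P] (hodd : Odd (Nat.card P))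
    [Group.IsNilpotent P] (I : Subgroup (MulAut P))
    (hcommI : ∀ a ∈ I, ∀ b ∈ I, a * b = b * a) (hsq : ∀ a ∈ I, a * a = 1)
    (hI8 : Nat.card ↥I = 8) :
    Subgroup.closure {y : P | ∃ T ∈ I, ∃ T' ∈ I, T ≠ 1 ∧ T' ≠ 1 ∧ T ≠ T' ∧ T y = y ∧ T' y = y}
      = ⊤ := by
  classical
  set Gen := {y : P | ∃ T ∈ I, ∃ T' ∈ I, T ≠ 1 ∧ T' ≠ 1 ∧ T ≠ T' ∧ T y = y ∧ T' y = y}
    with hGen
  have hinv := h24e8_invol I hsq
  have hcx := h24e8_commx I hcommI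
  have hfix : ∀ T ∈ I, T ≠ 1 → ∀ x, T x = x → x ∈ Subgroup.closure Gen := by
    intro T hT hT1 x hx
    obtain ⟨b, hb, hbS⟩ := h24e8_pick I hI8 {1, T} (by
      calc ({1, T} : Finset (MulAut P)).card ≤ 2 := Finset.card_le_two
        _ < 8 := by norm_num)
    have hb1 : b ≠ 1 := fun h => hbS (by simp [h])
    have hbT : b ≠ T := fun h => hbS (by simp [h])
    obtain ⟨c, hc, hcS⟩ := h24e8_pick I hI8 {1, T, b, T * b} (by
      calc ({1, T, b, T * b} : Finset (MulAut P)).card ≤ 4 := Finset.card_le_four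
        _ < 8 := by norm_num)
    have hc1 : c ≠ 1 := fun h => hcS (by simp [h])
    have hcT : c ≠ T := fun h => hcS (by simp [h])
    have hcb : c ≠ b := fun h => hcS (by simp [h])
    have hcTb : c ≠ T * b := fun h => hcS (by simp [h])
    have hle := h24e8_gen hodd b c (hinv b hb) (hinv c hc) (hcx b hb c hc) (h24e8Fix T)
      (fun y hy => by
        show T (b y) = b y
        rw [hcx T hT b hb, show T y = y from hy])
      (fun y hy => by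
        show T (c y) = c y
        rw [hcx T hT c hc, show T y = y from hy])
    have hsub : {y | y ∈ h24e8Fix T ∧ (b y = y ∨ c y = y ∨ b (c y) = y)} ⊆ Gen := by
      rintro y ⟨hyT, h | h | h⟩
      · exact ⟨T, hT, b, hb, hT1, hb1, hbT.symm, hyT, h⟩
      · exact ⟨T, hT, c, hc, hT1, hc1, hcT.symm, hyT, h⟩
      · refine ⟨T, hT, b * c, I.mul_mem hb hc, hT1, ?_, ?_, hyT, h⟩
        · intro h1
          apply hcb
          have : b * (b * c) = b * 1 := by rw [h1]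
          rw [← mul_assoc, hsq b hb, one_mul, mul_one] at this
          exact this
        · intro h1
          apply hcTb
          have : b * T = b * (b * c) := by rw [h1]
          rw [← mul_assoc, hsq b hb, one_mul] at this
          rw [← this]; exact hcommI b hb T hT
    exact Subgroup.closure_mono hsub (hle hx)
  obtain ⟨a, ha, haS⟩ := h24e8_pick I hI8 {1} (by simp)
  have ha1 : a ≠ 1 := fun h => haS (by simp [h])
  obtain ⟨b, hb, hbS⟩ := h24e8_pick I hI8 {1, a} (by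
      calc ({1, a} : Finset (MulAut P)).card ≤ 2 := Finset.card_le_two
        _ < 8 := by norm_num)
  have hb1 : b ≠ 1 := fun h => hbS (by simp [h])
  have hba : b ≠ a := fun h => hbS (by simp [h])
  have hle := h24e8_gen hodd a b (hinv a ha) (hinv b hb) (hcx a ha b hb) ⊤
      (fun y _ => Subgroup.mem_top _) (fun y _ => Subgroup.mem_top _)
  have hab1 : a * b ≠ 1 := by
    intro h1
    apply hba
    have : a * (a * b) = a * 1 := by rw [h1]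
    rw [← mul_assoc, hsq a ha, one_mul, mul_one] at this
    exact this
  rw [eq_top_iff]
  refine hle.trans ((Subgroup.closure_le _).mpr ?_)
  rintro y ⟨-, h | h | h⟩
  · exact hfix a ha ha1 y h
  · exact hfix b hb hb1 y h
  · exact hfix (a * b) (I.mul_mem ha hb) hab1 y h

theorem h24e8_eigen {P : Type*} [Group P] [Finite P] (hodd : Odd (Nat.card P))
    [Group.IsNilpotent P] (I : Subgroup (MulAut P))
    (hcommI : ∀ a ∈ I, ∀ b ∈ I, a * b = b * a) (hsq : ∀ a ∈ I, a * a = 1)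
    (hI8 : Nat.card ↥I = 8) (S : MulAut P) (hS : S ∈ I) (hS1 : S ≠ 1) :
    ∃ w : P, w ≠ 1 ∧ S w = w⁻¹ ∧ ∀ R ∈ I, R w = w ∨ R w = w⁻¹ := by
  have hgen := h24e8_gen8 hodd I hcommI hsq hI8
  have hinv := h24e8_invol I hsq
  have hcx := h24e8_commx I hcommI
  have hex : ∃ y ∈ {y : P | ∃ T ∈ I, ∃ T' ∈ I, T ≠ 1 ∧ T' ≠ 1 ∧ T ≠ T' ∧ T y = y ∧ T' y = y},
      S y ≠ y := by
    by_contra hcon
    push Not at hcon
    apply hS1
    have hle : Subgroup.closure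
        {y : P | ∃ T ∈ I, ∃ T' ∈ I, T ≠ 1 ∧ T' ≠ 1 ∧ T ≠ T' ∧ T y = y ∧ T' y = y}
        ≤ h24e8Fix S := (Subgroup.closure_le _).mpr (fun y hy => hcon y hy)
    rw [hgen] at hle
    ext x
    exact hle (Subgroup.mem_top x)
  obtain ⟨y, ⟨T, hT, T', hT', hT1, hT'1, hTT', hTy, hT'y⟩, hSy⟩ := hex
  obtain ⟨c, w, hycw, hc, hw, hwz⟩ := h24e8_decomp hodd S (hinv S hS) y
  have hw1 : w ≠ 1 := by
    intro hw1
    apply hSy
    rw [hw1, mul_one] at hycw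
    rw [hycw]; exact hc
  set K : Subgroup (MulAut P) := I ⊓ MulAction.stabilizer (MulAut P) y with hK
  have hmemK : ∀ R, R ∈ K ↔ R ∈ I ∧ R y = y := by
    intro R; rw [hK, Subgroup.mem_inf, MulAction.mem_stabilizer_iff]; rfl
  have hKfix : ∀ R ∈ K, R w = w := by
    intro R hR
    obtain ⟨hRI, hRy⟩ := (hmemK R).mp hR
    have h1 : R (y⁻¹ * S y) = y⁻¹ * S y := by
      rw [map_mul, map_inv, hRy, hcx R hRI S hS, hRy]
    obtain ⟨i, hi⟩ := Subgroup.mem_zpowers_iff.mp hwz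
    rw [← hi, map_zpow, h1]
  have hSK : S ∉ K := fun h => hSy ((hmemK S).mp h).2
  have hidx := h24e8_idx2 I K hI8 inf_le_left T T' ((hmemK T).mpr ⟨hT, hTy⟩)
    ((hmemK T').mpr ⟨hT', hT'y⟩) hT1 hT'1 hTT' S hS hSK
  refine ⟨w, hw1, hw, ?_⟩
  intro R hR
  by_cases hRK : R ∈ K
  · left; exact hKfix R hRK
  · right
    have h1 := hidx R hR S hS hRK hSK
    have h3 : R (S w) = w := hKfix _ h1
    rw [hw, map_inv] at h3
    exact inv_eq_iff_eq_inv.mp h3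

theorem h24e8_adj {P : Type*} [Group P] (I : Subgroup (MulAut P)) (T S : MulAut P)
    (hT : T ∈ I) (hS : S ∈ I) (w : P) (hTw : T w = w ∨ T w = w⁻¹) (hSw : S w = w⁻¹) :
    ∃ T' ∈ I, T' w = w ∧ (T' = T ∨ T' = T * S) := by
  rcases hTw with h | h
  · exact ⟨T, hT, h, Or.inl rfl⟩
  · refine ⟨T * S, I.mul_mem hT hS, ?_, Or.inr rfl⟩
    show T (S w) = w
    rw [hSw, map_inv, h, inv_inv]

theorem h24e8_dual {P : Type*} [Group P] [Finite P] (hodd : Odd (Nat.card P))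
    [Group.IsNilpotent P] (I : Subgroup (MulAut P))
    (hcommI : ∀ a ∈ I, ∀ b ∈ I, a * b = b * a) (hsq : ∀ a ∈ I, a * a = 1)
    (hI8 : Nat.card ↥I = 8) :
    ∃ T₁ ∈ I, ∃ T₂ ∈ I, ∃ T₃ ∈ I, ∃ w₁ w₂ w₃ : P, w₁ ≠ 1 ∧ w₂ ≠ 1 ∧ w₃ ≠ 1 ∧
      T₁ w₁ = w₁⁻¹ ∧ T₁ w₂ = w₂ ∧ T₁ w₃ = w₃ ∧
      T₂ w₁ = w₁ ∧ T₂ w₂ = w₂⁻¹ ∧ T₂ w₃ = w₃ ∧
      T₃ w₁ = w₁ ∧ T₃ w₂ = w₂ ∧ T₃ w₃ = w₃⁻¹ := by
  classical
  obtain ⟨S₁, hS₁, hS₁S⟩ := h24e8_pick I hI8 {1} (by simp)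
  have hS₁1 : S₁ ≠ 1 := fun h => hS₁S (by simp [h])
  obtain ⟨w₁, hw₁, hS₁w₁, he₁⟩ := h24e8_eigen hodd I hcommI hsq hI8 S₁ hS₁ hS₁1
  obtain ⟨r₂, hr₂, hr₂S⟩ := h24e8_pick I hI8 {1, S₁} (by
      calc ({1, S₁} : Finset (MulAut P)).card ≤ 2 := Finset.card_le_two
        _ < 8 := by norm_num)
  have hr₂1 : r₂ ≠ 1 := fun h => hr₂S (by simp [h])
  have hr₂S₁ : r₂ ≠ S₁ := fun h => hr₂S (by simp [h])
  obtain ⟨u, hu, huw₁, hu'⟩ := h24e8_adj I r₂ S₁ hr₂ hS₁ w₁ (he₁ r₂ hr₂) hS₁w₁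
  have hu1 : u ≠ 1 := by
    rcases hu' with h0 | h0
    · rw [h0]; exact hr₂1
    · intro h
      rw [h0] at h
      apply hr₂S₁
      calc r₂ = r₂ * S₁ * S₁ := by rw [mul_assoc, hsq S₁ hS₁, mul_one]
        _ = S₁ := by rw [h, one_mul]
  obtain ⟨w₂, hw₂, huw₂, he₂⟩ := h24e8_eigen hodd I hcommI hsq hI8 u hu hu1
  obtain ⟨r₃, hr₃, hr₃S⟩ := h24e8_pick I hI8 {1, S₁, u, u * S₁} (by
      calc ({1, S₁, u, u * S₁} : Finset (MulAut P)).card ≤ 4 := Finset.card_le_four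
        _ < 8 := by norm_num)
  have hr₃1 : r₃ ≠ 1 := fun h => hr₃S (by simp [h])
  have hr₃S₁ : r₃ ≠ S₁ := fun h => hr₃S (by simp [h])
  have hr₃u : r₃ ≠ u := fun h => hr₃S (by simp [h])
  have hr₃uS : r₃ ≠ u * S₁ := fun h => hr₃S (by simp [h])
  obtain ⟨r', hr', hr'w₁, hr'e⟩ := h24e8_adj I r₃ S₁ hr₃ hS₁ w₁ (he₁ r₃ hr₃) hS₁w₁
  have hr'1 : r' ≠ 1 := by
    rcases hr'e with h0 | h0
    · rw [h0]; exact hr₃1
    · intro h
      rw [h0] at h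
      apply hr₃S₁
      calc r₃ = r₃ * S₁ * S₁ := by rw [mul_assoc, hsq S₁ hS₁, mul_one]
        _ = S₁ := by rw [h, one_mul]
  have hr'u : r' ≠ u := by
    rcases hr'e with h0 | h0
    · rw [h0]; exact hr₃u
    · intro h
      rw [h0] at h
      apply hr₃uS
      calc r₃ = r₃ * S₁ * S₁ := by rw [mul_assoc, hsq S₁ hS₁, mul_one]
        _ = u * S₁ := by rw [h]
  obtain ⟨t, ht, htw₂, hte⟩ := h24e8_adj I r' u hr' hu w₂ (he₂ r' hr') huw₂
  have ht1 : t ≠ 1 := by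
    rcases hte with h0 | h0
    · rw [h0]; exact hr'1
    · intro h
      rw [h0] at h
      apply hr'u
      calc r' = r' * u * u := by rw [mul_assoc, hsq u hu, mul_one]
        _ = u := by rw [h, one_mul]
  have htw₁ : t w₁ = w₁ := by
    rcases hte with h0 | h0
    · rw [h0]; exact hr'w₁
    · rw [h0]
      show r' (u w₁) = w₁
      rw [huw₁, hr'w₁]
  obtain ⟨w₃, hw₃, htw₃, he₃⟩ := h24e8_eigen hodd I hcommI hsq hI8 t ht ht1
  obtain ⟨T₂, hT₂, hT₂w₃, hT₂e⟩ := h24e8_adj I u t hu ht w₃ (he₃ u hu) htw₃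
  have hT₂w₁ : T₂ w₁ = w₁ := by
    rcases hT₂e with h0 | h0
    · rw [h0]; exact huw₁
    · rw [h0]
      show u (t w₁) = w₁
      rw [htw₁, huw₁]
  have hT₂w₂ : T₂ w₂ = w₂⁻¹ := by
    rcases hT₂e with h0 | h0
    · rw [h0]; exact huw₂
    · rw [h0]
      show u (t w₂) = w₂⁻¹
      rw [htw₂, huw₂]
  obtain ⟨s', hs', hs'w₂, hs'e⟩ := h24e8_adj I S₁ u hS₁ hu w₂ (he₂ S₁ hS₁) huw₂
  have hs'w₁ : s' w₁ = w₁⁻¹ := by
    rcases hs'e with h0 | h0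
    · rw [h0]; exact hS₁w₁
    · rw [h0]
      show S₁ (u w₁) = w₁⁻¹
      rw [huw₁, hS₁w₁]
  obtain ⟨T₁, hT₁, hT₁w₃, hT₁e⟩ := h24e8_adj I s' t hs' ht w₃ (he₃ s' hs') htw₃
  have hT₁w₁ : T₁ w₁ = w₁⁻¹ := by
    rcases hT₁e with h0 | h0
    · rw [h0]; exact hs'w₁
    · rw [h0]
      show s' (t w₁) = w₁⁻¹
      rw [htw₁, hs'w₁]
  have hT₁w₂ : T₁ w₂ = w₂ := by
    rcases hT₁e with h0 | h0
    · rw [h0]; exact hs'w₂
    · rw [h0]
      show s' (t w₂) = w₂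
      rw [htw₂, hs'w₂]
  exact ⟨T₁, hT₁, T₂, hT₂, t, ht, w₁, w₂, w₃, hw₁, hw₂, hw₃, hT₁w₁, hT₁w₂, hT₁w₃,
    hT₂w₁, hT₂w₂, hT₂w₃, htw₁, htw₂, htw₃⟩

theorem h24e8_param {P : Type*} [Group P] [Finite P] (hodd : Odd (Nat.card P))
    (I : Subgroup (MulAut P)) (hI8 : Nat.card ↥I = 8)
    (T₁ T₂ T₃ : MulAut P) (hT₁ : T₁ ∈ I) (hT₂ : T₂ ∈ I) (hT₃ : T₃ ∈ I) (w₁ w₂ w₃ : P)
    (hw₁ : w₁ ≠ 1) (hw₂ : w₂ ≠ 1) (hw₃ : w₃ ≠ 1)
    (h11 : T₁ w₁ = w₁⁻¹) (h12 : T₁ w₂ = w₂) (h13 : T₁ w₃ = w₃)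
    (h21 : T₂ w₁ = w₁) (h22 : T₂ w₂ = w₂⁻¹) (h23 : T₂ w₃ = w₃)
    (h31 : T₃ w₁ = w₁) (h32 : T₃ w₂ = w₂) (h33 : T₃ w₃ = w₃⁻¹) :
    ∀ R ∈ I, R = 1 ∨ R = T₁ ∨ R = T₂ ∨ R = T₃ ∨ R = T₁ * T₂ ∨ R = T₁ * T₃ ∨ R = T₂ * T₃ ∨
      R = T₁ * T₂ * T₃ := by
  classical
  haveI : Finite ↥I := Nat.finite_of_card_ne_zero (by rw [hI8]; norm_num)
  have hne : ∀ w : P, w ≠ 1 → ¬ (w⁻¹ = w) := fun w hw h => hw (h24e8_inv_self hodd w h.symm)
  have hmem : ∀ (b : Bool) (T : MulAut P), T ∈ I → (if b then T else 1) ∈ I := by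
    intro b T hT
    cases b
    · simpa using I.one_mem
    · simpa using hT
  let f : Bool × Bool × Bool → ↥I := fun b =>
    ⟨(if b.1 then T₁ else 1) * (if b.2.1 then T₂ else 1) * (if b.2.2 then T₃ else 1),
      I.mul_mem (I.mul_mem (hmem _ _ hT₁) (hmem _ _ hT₂)) (hmem _ _ hT₃)⟩
  have hf1 : ∀ b, ((f b : MulAut P) w₁ = w₁ ↔ b.1 = false) := by
    rintro ⟨b1, b2, b3⟩
    cases b1 <;> cases b2 <;> cases b3 <;>
      simp [f, MulAut.mul_apply, h11, h21, h31, hne w₁ hw₁]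
  have hf2 : ∀ b, ((f b : MulAut P) w₂ = w₂ ↔ b.2.1 = false) := by
    rintro ⟨b1, b2, b3⟩
    cases b1 <;> cases b2 <;> cases b3 <;>
      simp [f, MulAut.mul_apply, h12, h22, h32, hne w₂ hw₂]
  have hf3 : ∀ b, ((f b : MulAut P) w₃ = w₃ ↔ b.2.2 = false) := by
    rintro ⟨b1, b2, b3⟩
    cases b1 <;> cases b2 <;> cases b3 <;>
      simp [f, MulAut.mul_apply, h13, h23, h33, hne w₃ hw₃]
  have hbool : ∀ x y : Bool, (x = false ↔ y = false) → x = y := by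
    intro x y; cases x <;> cases y <;> simp
  have hinj : Function.Injective f := by
    intro b b' hbb
    have k1 : b.1 = b'.1 := hbool _ _ ((hf1 b).symm.trans (hbb ▸ hf1 b'))
    have k2 : b.2.1 = b'.2.1 := hbool _ _ ((hf2 b).symm.trans (hbb ▸ hf2 b'))
    have k3 : b.2.2 = b'.2.2 := hbool _ _ ((hf3 b).symm.trans (hbb ▸ hf3 b'))
    exact Prod.ext k1 (Prod.ext k2 k3)
  have hbij : Function.Bijective f :=
    hinj.bijective_of_nat_card_le (by rw [hI8]; simp)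
  intro R hR
  obtain ⟨⟨b1, b2, b3⟩, hb⟩ := hbij.2 ⟨R, hR⟩
  have hR' : R = (if b1 then T₁ else 1) * (if b2 then T₂ else 1) * (if b3 then T₃ else 1) :=
    congrArg Subtype.val hb.symm
  cases b1 <;> cases b2 <;> cases b3 <;> simp at hR' <;> simp [hR']

end Cfsg.Agent.Helper24
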