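import Mathlib
import Cfsg.Prelude.Def_Solvable
import Cfsg.Agent.Helper11.GalConj
import Cfsg.Agent.Helper1.CharEquiv
import Cfsg.Agent.Helper24.TIRep
import Cfsg.Agent.Helper25.CharZ
import Cfsg.Agent.Helper25.CharMore

/-!
# Irreducible products of Galois conjugate characters (helper24)

If `χ` is a faithful irreducible character, `k` is prime to `|G|` and `g ↦ χ(g) χ(g^k)` is
irreducible, then every normal nilpotent subgroup of `G` is central.  The tool is the
`G`-endomorphism `M ↦ ∑_{b ∈ A} R(b^{-k}) M S(b)ᵀ` of the matrix model of `V ⊗ V^σ`.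
-/

set_option autoImplicit false

namespace Cfsg.Agent.Helper24

open Cfsg
open scoped ComplexConjugate

universe u

/-- matrix model: `R` affords `χ`, `S` affords `g ↦ χ (g ^ k)`, Schur for `R`, and Schur for the
action `M ↦ R g * M * (S g)ᵀ`. -/
theorem gp_setup {G : Type u} [Group G] [Finite G] (χ : IrrCharacter G) (k : ℕ)
    (hk : Nat.Coprime k (Nat.card G))
    (hirr : IsIrrCharacter G (fun g => (χ : G → ℂ) g * (χ : G → ℂ) (g ^ k))) :
    ∃ (n : ℕ) (R S : G →* Matrix (Fin n) (Fin n) ℂ),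
      (∀ g, (R g).trace = (χ : G → ℂ) g) ∧ (∀ g, (S g).trace = (χ : G → ℂ) (g ^ k)) ∧
      (∀ T : Matrix (Fin n) (Fin n) ℂ, (∀ g, T * R g = R g * T) → ∃ c : ℂ, T = c • 1) ∧
      (∀ E : Matrix (Fin n) (Fin n) ℂ →ₗ[ℂ] Matrix (Fin n) (Fin n) ℂ,
         (∀ g M, E (R g * M * (S g).transpose) = R g * E M * (S g).transpose) →
         ∃ c : ℂ, ∀ M, E M = c • M) := by
  classical
  have := Fintype.ofFinite G
  obtain ⟨n, ρ, hρ, hχ⟩ := χ.2
  obtain ⟨τ, hτ⟩ := Helper11.exists_aut_pow (Nat.card G) Nat.card_pos k hk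
  have hK0 : ∀ g : G, τ ((χ : G → ℂ) g) = (χ : G → ℂ) (g ^ k) := by
    intro g
    rw [← hχ]
    obtain ⟨b, μ, hμ, -, hb, -, hc, -⟩ := Cfsg.Agent.Helper1.exists_eigenbasis ρ g
    have hb' : ∀ i, ρ (g ^ k) (b i) = (μ i) ^ k • b i := by
      intro i
      rw [map_pow]
      exact Cfsg.Agent.Helper1.pow_apply_of_apply_eq_smul (ρ g) (b i) (μ i) (hb i) k
    have hc' : ρ.character (g ^ k) = ∑ i, (μ i) ^ k :=
      Cfsg.Agent.Helper1.trace_eq_sum_of_eigenbasis b (ρ (g ^ k)) (fun i => (μ i) ^ k) hb'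
    rw [hc', hc, map_sum]
    exact Finset.sum_congr rfl (fun i _ => hτ (μ i) (hμ i))
  obtain ⟨R, hR⟩ : ∃ R : G →* Matrix (Fin n) (Fin n) ℂ, R = repHom ρ := ⟨_, rfl⟩
  obtain ⟨S, hS⟩ : ∃ S : G →* Matrix (Fin n) (Fin n) ℂ,
      S = (RingHom.mapMatrix τ.toRingHom : Matrix (Fin n) (Fin n) ℂ →+* _).toMonoidHom.comp R :=
    ⟨_, rfl⟩
  have hRtr : ∀ g, (R g).trace = (χ : G → ℂ) g := by
    intro g
    rw [hR, repHom_trace, hχ]
  have hStr : ∀ g, (S g).trace = (χ : G → ℂ) (g ^ k) := by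
    intro g
    rw [← hK0, ← hRtr, hS]
    show ((R g).map τ.toRingHom).trace = τ (R g).trace
    exact (AddMonoidHom.map_trace τ.toRingHom.toAddMonoidHom (R g)).symm
  refine ⟨n, R, S, hRtr, hStr, ?_, ?_⟩
  · intro T hT
    exact Helper7.repMat_schur ρ hρ T (fun g => by
      have := hT g
      rw [hR] at this
      exact this)
  · intro E hE
    obtain ⟨π, hπ⟩ : ∃ π : Representation ℂ G (Matrix (Fin n) (Fin n) ℂ),
        ∀ g M, π g M = R g * M * (S g).transpose := by
      refine ⟨{ toFun := fun g =>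
                  { toFun := fun X => R g * X * (S g).transpose
                    map_add' := fun X Y => by rw [Matrix.mul_add, Matrix.add_mul]
                    map_smul' := fun c X => by simp }
                map_one' := ?_
                map_mul' := ?_ }, fun g M => rfl⟩
      · apply LinearMap.ext
        intro X
        simp
      · intro a b
        apply LinearMap.ext
        intro X
        show R (a * b) * X * (S (a * b)).transpose
          = R a * (R b * X * (S b).transpose) * (S a).transpose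
        rw [map_mul, map_mul, Matrix.transpose_mul]
        simp only [Matrix.mul_assoc]
    have hπch : π.character = fun g => (χ : G → ℂ) g * (χ : G → ℂ) (g ^ k) := by
      funext g
      show LinearMap.trace ℂ _ (π g) = _
      rw [trace_conj_map (R g) (S g).transpose (π g) (fun X => hπ g X), Matrix.trace_transpose,
        hRtr, hStr]
    obtain ⟨m, ρψ, hρψ, hch⟩ := hirr
    obtain ⟨φ⟩ := Cfsg.Agent.Helper1.nonempty_equiv_of_character_eq ρψ π (by rw [hch, hπch])
    haveI := hρψ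
    haveI hπirr : π.IsIrreducible := Cfsg.Agent.Helper1.isIrreducible_of_equiv φ
    obtain ⟨c, hc⟩ := Cfsg.Agent.Helper1.exists_scalar_of_commute π E (by
      intro g
      apply LinearMap.ext
      intro M
      show E (π g M) = π g (E M)
      rw [hπ, hπ, hE])
    refine ⟨c, fun M => ?_⟩
    rw [hc]
    rfl

/-- `x ^ k` central implies `x` central, for `k` prime to `|G|` -/
theorem gp_center_of_pow {G : Type u} [Group G] [Finite G] (k : ℕ)
    (hk : Nat.Coprime k (Nat.card G)) {x : G} (hx : x ^ k ∈ Subgroup.center G) :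
    x ∈ Subgroup.center G := by
  have h1 : (powCoprime hk.symm).symm (x ^ k) = x := (powCoprime hk.symm).symm_apply_apply x
  have h2 : (powCoprime hk.symm).symm (x ^ k) = (x ^ k) ^ ((Nat.card G).gcdB k) := rfl
  rw [← h1, h2]
  exact Subgroup.zpow_mem _ hx _

section data

variable {G : Type u} [Group G] [Finite G] (χ : IrrCharacter G) (k : ℕ) {n : ℕ}
  (R S : G →* Matrix (Fin n) (Fin n) ℂ)

/-- the `G`-endomorphism attached to a normal subgroup is a scalar -/
theorem gp_E (hSchur2 : ∀ E : Matrix (Fin n) (Fin n) ℂ →ₗ[ℂ] Matrix (Fin n) (Fin n) ℂ,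
      (∀ g M, E (R g * M * (S g).transpose) = R g * E M * (S g).transpose) →
      ∃ c : ℂ, ∀ M, E M = c • M)
    (A : Subgroup G) [hA : A.Normal] [Fintype A] :
    ∃ c : ℂ, ∀ M : Matrix (Fin n) (Fin n) ℂ,
      ∑ b : A, R (((b : G) ^ k)⁻¹) * M * (S (b : G)).transpose = c • M := by
  obtain ⟨E, hE⟩ : ∃ E : Matrix (Fin n) (Fin n) ℂ →ₗ[ℂ] Matrix (Fin n) (Fin n) ℂ,
      ∀ M, E M = ∑ b : A, R (((b : G) ^ k)⁻¹) * M * (S (b : G)).transpose := by
    refine ⟨∑ b : A, (LinearMap.mulLeft ℂ (R (((b : G) ^ k)⁻¹))).comp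
      (LinearMap.mulRight ℂ (S (b : G)).transpose), fun M => ?_⟩
    rw [LinearMap.sum_apply]
    apply Finset.sum_congr rfl
    intro b _
    rw [LinearMap.comp_apply, LinearMap.mulRight_apply, LinearMap.mulLeft_apply, Matrix.mul_assoc]
  obtain ⟨c, hc⟩ := hSchur2 E (by
    intro g M
    rw [hE, hE, Finset.mul_sum, Finset.sum_mul]
    rw [← Equiv.sum_comp (MulAut.conjNormal g : A ≃* A).toEquiv]
    apply Finset.sum_congr rfl
    intro b _
    have hb : ((MulAut.conjNormal g b : A) : G) = g * b * g⁻¹ := MulAut.conjNormal_apply g b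
    show R ((((MulAut.conjNormal g b : A) : G) ^ k)⁻¹) * (R g * M * (S g).transpose)
        * (S ((MulAut.conjNormal g b : A) : G)).transpose
      = R g * (R (((b : G) ^ k)⁻¹) * M * (S (b : G)).transpose) * (S g).transpose
    have h1 : ((g * (b : G) * g⁻¹) ^ k)⁻¹ = g * ((b : G) ^ k)⁻¹ * g⁻¹ := by
      rw [conj_pow]
      group
    have hR1 : ∀ X : Matrix (Fin n) (Fin n) ℂ, R g⁻¹ * (R g * X) = X := by
      intro X
      rw [← Matrix.mul_assoc, ← map_mul, inv_mul_cancel, map_one, Matrix.one_mul]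
    have hS1 : ∀ X : Matrix (Fin n) (Fin n) ℂ,
        (S g).transpose * ((S g⁻¹).transpose * X) = X := by
      intro X
      rw [← Matrix.mul_assoc, ← Matrix.transpose_mul, ← map_mul, inv_mul_cancel, map_one,
        Matrix.transpose_one, Matrix.one_mul]
    rw [hb, h1]
    simp only [map_mul, Matrix.transpose_mul, Matrix.mul_assoc, hR1, hS1])
  exact ⟨c, fun M => by rw [← hE, hc]⟩

/-- contraction of the scalar identity with `S b₁⁻¹` -/
theorem gp_contract (hStr : ∀ g, (S g).trace = (χ : G → ℂ) (g ^ k))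
    (A : Subgroup G) [Fintype A] (c : ℂ)
    (hc : ∀ M : Matrix (Fin n) (Fin n) ℂ,
      ∑ b : A, R (((b : G) ^ k)⁻¹) * M * (S (b : G)).transpose = c • M) (b₁ : G) :
    ∑ b : A, (χ : G → ℂ) (((b : G) * b₁⁻¹) ^ k) • R (((b : G) ^ k)⁻¹)
      = (c * (χ : G → ℂ) ((b₁⁻¹) ^ k)) • (1 : Matrix (Fin n) (Fin n) ℂ) := by
  classical
  have key : ∀ a' p q b' : Fin n, ∑ b : A, R (((b : G) ^ k)⁻¹) a' p * S (b : G) b' q
      = c * (if p = a' ∧ q = b' then 1 else 0) := by
    intro a' p q b'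
    have h1 := congrFun (congrFun (hc (Matrix.single p q 1)) a') b'
    rw [Matrix.sum_apply] at h1
    rw [Matrix.smul_apply, smul_eq_mul, Matrix.single_apply] at h1
    rw [← h1]
    apply Finset.sum_congr rfl
    intro b _
    rw [Helper7.mul_single_mul_apply, Matrix.transpose_apply]
  have hχb : ∀ b : A, (χ : G → ℂ) (((b : G) * b₁⁻¹) ^ k)
      = ∑ b' : Fin n, ∑ q : Fin n, S (b : G) b' q * S b₁⁻¹ q b' := by
    intro b
    rw [← hStr, map_mul, Matrix.trace]
    apply Finset.sum_congr rfl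
    intro b' _
    rw [Matrix.diag_apply, Matrix.mul_apply]
  ext a' p
  rw [Matrix.sum_apply]
  simp only [Matrix.smul_apply, smul_eq_mul]
  calc ∑ b : A, (χ : G → ℂ) (((b : G) * b₁⁻¹) ^ k) * R (((b : G) ^ k)⁻¹) a' p
      = ∑ b : A, ∑ b' : Fin n, ∑ q : Fin n,
          (R (((b : G) ^ k)⁻¹) a' p * S (b : G) b' q) * S b₁⁻¹ q b' := by
        apply Finset.sum_congr rfl
        intro b _
        rw [hχb, Finset.sum_mul]
        apply Finset.sum_congr rfl
        intro b' _
        rw [Finset.sum_mul]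
        apply Finset.sum_congr rfl
        intro q _
        ring
    _ = ∑ b' : Fin n, ∑ q : Fin n, ∑ b : A,
          (R (((b : G) ^ k)⁻¹) a' p * S (b : G) b' q) * S b₁⁻¹ q b' := by
        rw [Finset.sum_comm]
        apply Finset.sum_congr rfl
        intro b' _
        rw [Finset.sum_comm]
    _ = ∑ b' : Fin n, ∑ q : Fin n, c * (if p = a' ∧ q = b' then 1 else 0) * S b₁⁻¹ q b' := by
        apply Finset.sum_congr rfl
        intro b' _
        apply Finset.sum_congr rfl
        intro q _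
        rw [← Finset.sum_mul, key]
    _ = c * (χ : G → ℂ) ((b₁⁻¹) ^ k) * (1 : Matrix (Fin n) (Fin n) ℂ) a' p := by
        rw [← hStr, Matrix.trace, Matrix.one_apply]
        by_cases h : p = a'
        · subst h
          simp [Finset.mul_sum, Matrix.diag_apply]
        · have h' : ¬ a' = p := fun h'' => h h''.symm
          simp [h, h']

/-- `χ(w) R(w⁻¹) = n` for central `w` -/
theorem gp_central (hRtr : ∀ g, (R g).trace = (χ : G → ℂ) g)
    (hSchur : ∀ T : Matrix (Fin n) (Fin n) ℂ, (∀ g, T * R g = R g * T) → ∃ c : ℂ, T = c • 1)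
    {w : G} (hw : w ∈ Subgroup.center G) :
    (χ : G → ℂ) w • R w⁻¹ = (n : ℂ) • (1 : Matrix (Fin n) (Fin n) ℂ) := by
  obtain ⟨ω, hω⟩ := hSchur (R w) (fun g => by
    rw [← map_mul, ← map_mul, Subgroup.mem_center_iff.mp hw g])
  have h1 : (χ : G → ℂ) w = ω * n := by
    rw [← hRtr, hω, Matrix.trace_smul, Matrix.trace_one, Fintype.card_fin, smul_eq_mul]
  have h2 : ω • R w⁻¹ = 1 := by
    have h3 : R w⁻¹ * R w = 1 := by rw [← map_mul, inv_mul_cancel, map_one]
    rw [hω, Matrix.mul_smul, Matrix.mul_one] at h3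
    exact h3
  rw [h1, mul_comm, mul_smul, h2]

/-- `χ` vanishes on the noncentral elements of a normal subgroup of class two over the centre -/
theorem gp_vanish (hfaith : ∀ g : G, (χ : G → ℂ) g = (χ : G → ℂ) 1 → g = 1)
    (hRtr : ∀ g, (R g).trace = (χ : G → ℂ) g)
    (hSchur : ∀ T : Matrix (Fin n) (Fin n) ℂ, (∀ g, T * R g = R g * T) → ∃ c : ℂ, T = c • 1)
    (A : Subgroup G)
    (H1 : ∀ a ∈ A, ∀ b ∈ A, a * b * a⁻¹ * b⁻¹ ∈ Subgroup.center G)
    (H2 : ∀ a ∈ A, (∀ b ∈ A, a * b = b * a) → a ∈ Subgroup.center G)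
    {g : G} (hg : g ∈ A) (hgc : g ∉ Subgroup.center G) : (χ : G → ℂ) g = 0 := by
  have h1 : ¬ ∀ b ∈ A, g * b = b * g := fun h => hgc (H2 g hg h)
  push Not at h1
  obtain ⟨a, ha, hne⟩ := h1
  have hz := H1 g⁻¹ (A.inv_mem hg) a ha
  rw [inv_inv] at hz
  obtain ⟨ω, hω⟩ := hSchur (R (g⁻¹ * a * g * a⁻¹)) (fun x => by
    rw [← map_mul, ← map_mul, Subgroup.mem_center_iff.mp hz x])
  have h2 : (χ : G → ℂ) (g * (g⁻¹ * a * g * a⁻¹)) = ω * (χ : G → ℂ) g := by
    rw [← hRtr, map_mul, hω, Matrix.mul_smul, Matrix.mul_one, Matrix.trace_smul, hRtr, smul_eq_mul]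
  have h3 : g * (g⁻¹ * a * g * a⁻¹) = a * g * a⁻¹ := by group
  rw [h3, Helper25.irr_conj] at h2
  have hω1 : ω ≠ 1 := by
    intro h4
    rw [h4, one_smul] at hω
    have h5 : (χ : G → ℂ) (g⁻¹ * a * g * a⁻¹) = (χ : G → ℂ) 1 := by
      rw [← hRtr, hω, ← hRtr, map_one]
    have h6 := hfaith _ h5
    apply hne
    have h7 : g * (g⁻¹ * a * g * a⁻¹) * a = g * 1 * a := by rw [h6]
    have h8 : g * (g⁻¹ * a * g * a⁻¹) * a = a * g := by group
    rw [h8, mul_one] at h7
    exact h7.symm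
  have h4 : (1 - ω) * (χ : G → ℂ) g = 0 := by linear_combination h2
  rcases mul_eq_zero.mp h4 with h5 | h5
  · exact absurd (sub_eq_zero.mp h5).symm hω1
  · exact h5

/-- a normal subgroup of class two over the centre is central -/
theorem gp_step2 (hk : Nat.Coprime k (Nat.card G))
    (hfaith : ∀ g : G, (χ : G → ℂ) g = (χ : G → ℂ) 1 → g = 1)
    (hRtr : ∀ g, (R g).trace = (χ : G → ℂ) g) (hStr : ∀ g, (S g).trace = (χ : G → ℂ) (g ^ k))
    (hSchur : ∀ T : Matrix (Fin n) (Fin n) ℂ, (∀ g, T * R g = R g * T) → ∃ c : ℂ, T = c • 1)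
    (hSchur2 : ∀ E : Matrix (Fin n) (Fin n) ℂ →ₗ[ℂ] Matrix (Fin n) (Fin n) ℂ,
      (∀ g M, E (R g * M * (S g).transpose) = R g * E M * (S g).transpose) →
      ∃ c : ℂ, ∀ M, E M = c • M)
    (A : Subgroup G) [hA : A.Normal]
    (H1 : ∀ a ∈ A, ∀ b ∈ A, a * b * a⁻¹ * b⁻¹ ∈ Subgroup.center G)
    (H2 : ∀ a ∈ A, (∀ b ∈ A, a * b = b * a) → a ∈ Subgroup.center G) :
    A ≤ Subgroup.center G := by
  classical
  have := Fintype.ofFinite A
  by_contra hle
  obtain ⟨b₁, hb₁A, hb₁⟩ := SetLike.not_le_iff_exists.mp hle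
  obtain ⟨c, hc⟩ := gp_E k R S hSchur2 A
  have hcon := gp_contract χ k R S hStr A c hc b₁
  have hn0 : (n : ℂ) ≠ 0 := by
    have h1 : (χ : G → ℂ) 1 = n := by
      rw [← hRtr, map_one, Matrix.trace_one, Fintype.card_fin]
    rw [← h1]
    exact Helper25.irr_one_ne_zero χ
  have hzero : (χ : G → ℂ) ((b₁⁻¹) ^ k) = 0 := by
    apply gp_vanish χ R hfaith hRtr hSchur A H1 H2 (A.pow_mem (A.inv_mem hb₁A) k)
    intro h
    apply hb₁
    have := gp_center_of_pow k hk h
    simpa using Subgroup.inv_mem _ this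
  rw [hzero, mul_zero, zero_smul] at hcon
  have hterm : ∀ b : A, (χ : G → ℂ) (((b : G) * b₁⁻¹) ^ k) • R (((b : G) ^ k)⁻¹)
      = if (b : G) * b₁⁻¹ ∈ Subgroup.center G then (n : ℂ) • R ((b₁ ^ k)⁻¹) else 0 := by
    intro b
    by_cases hz : (b : G) * b₁⁻¹ ∈ Subgroup.center G
    · rw [if_pos hz]
      have hzk : ((b : G) * b₁⁻¹) ^ k ∈ Subgroup.center G := Subgroup.pow_mem _ hz k
      have hb : (b : G) = ((b : G) * b₁⁻¹) * b₁ := by group
      have hcomm : Commute ((b : G) * b₁⁻¹) b₁ := (Subgroup.mem_center_iff.mp hz b₁).symm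
      have hbk : ((b : G) ^ k)⁻¹ = (b₁ ^ k)⁻¹ * ((((b : G) * b₁⁻¹) ^ k)⁻¹) := by
        conv_lhs => rw [hb]
        rw [hcomm.mul_pow, mul_inv_rev]
      rw [hbk, map_mul, ← Matrix.mul_smul, gp_central χ R hRtr hSchur hzk, Matrix.mul_smul,
        Matrix.mul_one]
    · rw [if_neg hz]
      have h0 : (χ : G → ℂ) (((b : G) * b₁⁻¹) ^ k) = 0 := by
        apply gp_vanish χ R hfaith hRtr hSchur A H1 H2
          (A.pow_mem (A.mul_mem b.2 (A.inv_mem hb₁A)) k)
        intro h
        exact hz (gp_center_of_pow k hk h)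
      rw [h0, zero_smul]
  rw [Finset.sum_congr rfl (fun b _ => hterm b), Finset.sum_ite, Finset.sum_const_zero, add_zero,
    Finset.sum_const] at hcon
  have hcard : (Finset.univ.filter (fun b : A => (b : G) * b₁⁻¹ ∈ Subgroup.center G)).card ≠ 0 := by
    apply Finset.card_ne_zero_of_mem (a := (⟨b₁, hb₁A⟩ : A))
    rw [Finset.mem_filter]
    refine ⟨Finset.mem_univ _, ?_⟩
    show b₁ * b₁⁻¹ ∈ Subgroup.center G
    rw [mul_inv_cancel]
    exact Subgroup.one_mem _
  have hR0 : R ((b₁ ^ k)⁻¹) = 0 := by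
    rw [← Nat.cast_smul_eq_nsmul ℂ, smul_smul] at hcon
    rcases smul_eq_zero.mp hcon with h | h
    · exact absurd h (mul_ne_zero (Nat.cast_ne_zero.mpr hcard) hn0)
    · exact h
  have h1 : R ((b₁ ^ k)⁻¹) * R (b₁ ^ k) = 1 := by rw [← map_mul, inv_mul_cancel, map_one]
  rw [hR0, Matrix.zero_mul] at h1
  have h2 := congrArg Matrix.trace h1
  rw [Matrix.trace_zero, Matrix.trace_one, Fintype.card_fin] at h2
  exact hn0 h2.symm

/-- an abelian normal subgroup is central -/
theorem gp_step1 (hk : Nat.Coprime k (Nat.card G))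
    (hfaith : ∀ g : G, (χ : G → ℂ) g = (χ : G → ℂ) 1 → g = 1)
    (hRtr : ∀ g, (R g).trace = (χ : G → ℂ) g) (hStr : ∀ g, (S g).trace = (χ : G → ℂ) (g ^ k))
    (hSchur2 : ∀ E : Matrix (Fin n) (Fin n) ℂ →ₗ[ℂ] Matrix (Fin n) (Fin n) ℂ,
      (∀ g M, E (R g * M * (S g).transpose) = R g * E M * (S g).transpose) →
      ∃ c : ℂ, ∀ M, E M = c • M)
    (A : Subgroup G) [hA : A.Normal] (hab : ∀ a ∈ A, ∀ b ∈ A, a * b = b * a) :
    A ≤ Subgroup.center G := by
  classical
  have := Fintype.ofFinite A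
  obtain ⟨c, hc⟩ := gp_E k R S hSchur2 A
  have hχ1 : (χ : G → ℂ) 1 = n := by
    rw [← hRtr, map_one, Matrix.trace_one, Fintype.card_fin]
  have hn0 : (n : ℂ) ≠ 0 := by
    rw [← hχ1]
    exact Helper25.irr_one_ne_zero χ
  have hdeg : charDegree (χ : G → ℂ) = n := by
    have h1 := Helper25.irr_one_eq_degree χ
    rw [hχ1] at h1
    exact_mod_cast h1.symm
  -- idempotency
  obtain ⟨F, hF⟩ : ∃ F : A → Matrix (Fin n) (Fin n) ℂ,
      F = fun b : A => R (((b : G) ^ k)⁻¹) * (S (b : G)).transpose := ⟨_, rfl⟩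
  have hF1 : ∑ b : A, F b = c • 1 := by
    rw [← hc 1, hF]
    apply Finset.sum_congr rfl
    intro b _
    rw [Matrix.mul_one]
  have hF2 : ∀ b' : A, ∑ b : A, F (b' * b) = c • F b' := by
    intro b'
    rw [← hc (F b')]
    apply Finset.sum_congr rfl
    intro b _
    rw [hF]
    show R ((((b' : G) * (b : G)) ^ k)⁻¹) * (S ((b' : G) * (b : G))).transpose
      = R (((b : G) ^ k)⁻¹) * (R (((b' : G) ^ k)⁻¹) * (S (b' : G)).transpose)
        * (S (b : G)).transpose
    have hcomm : Commute (b' : G) (b : G) := hab _ b'.2 _ b.2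
    have hS : S ((b' : G) * (b : G)) = S (b : G) * S (b' : G) := by rw [hcomm.eq, map_mul]
    rw [hS, hcomm.mul_pow, mul_inv_rev, map_mul, Matrix.transpose_mul]
    simp only [Matrix.mul_assoc]
  have hcc : c * c = (Nat.card A : ℂ) * c := by
    have h1 : ∑ b' : A, ∑ b : A, F (b' * b) = (c * c) • (1 : Matrix (Fin n) (Fin n) ℂ) := by
      rw [Finset.sum_congr rfl (fun b' _ => hF2 b'), ← Finset.smul_sum, hF1, smul_smul]
    have h2 : ∑ b' : A, ∑ b : A, F (b' * b)
        = ((Nat.card A : ℂ) * c) • (1 : Matrix (Fin n) (Fin n) ℂ) := by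
      have h3 : ∀ b' : A, ∑ b : A, F (b' * b) = c • 1 := by
        intro b'
        rw [← hF1]
        exact Fintype.sum_equiv (Equiv.mulLeft b') _ _ (fun b => rfl)
      rw [Finset.sum_congr rfl (fun b' _ => h3 b'), Finset.sum_const, Finset.card_univ,
        ← Nat.cast_smul_eq_nsmul ℂ, smul_smul, Nat.card_eq_fintype_card]
    have h4 := congrArg Matrix.trace (h1.symm.trans h2)
    rw [Matrix.trace_smul, Matrix.trace_smul, Matrix.trace_one, Fintype.card_fin, smul_eq_mul,
      smul_eq_mul] at h4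
    exact mul_right_cancel₀ hn0 h4
  -- trace identity
  have htr : ∑ b : A, ((‖(χ : G → ℂ) ((b : G) ^ k)‖ ^ 2 : ℝ) : ℂ) = c * n * n := by
    have hcon := gp_contract χ k R S hStr A c hc 1
    have h1 := congrArg Matrix.trace hcon
    rw [Matrix.trace_sum, Matrix.trace_smul, Matrix.trace_one, Fintype.card_fin, smul_eq_mul,
      inv_one, one_pow, hχ1] at h1
    rw [← h1]
    apply Finset.sum_congr rfl
    intro b _
    rw [Matrix.trace_smul, hRtr, smul_eq_mul, mul_one, Helper25.irr_inv,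
      Complex.mul_conj']
    push_cast
    rfl
  have hreal : ∑ b : A, ‖(χ : G → ℂ) ((b : G) ^ k)‖ ^ 2 = (c * n * n).re := by
    have := congrArg Complex.re htr
    rw [← this, ← Complex.ofReal_sum, Complex.ofReal_re]
  have hle : ∀ b : A, ‖(χ : G → ℂ) ((b : G) ^ k)‖ ^ 2 ≤ (n : ℝ) ^ 2 := by
    intro b
    have h1 := Helper25.irr_norm_le χ ((b : G) ^ k)
    rw [hχ1, Complex.norm_natCast] at h1
    exact pow_le_pow_left₀ (norm_nonneg _) h1 2
  have hc0 : c ≠ 0 := by
    intro h0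
    rw [h0, zero_mul, zero_mul, Complex.zero_re] at hreal
    have h1 : ‖(χ : G → ℂ) (((1 : A) : G) ^ k)‖ ^ 2 ≤ 0 := by
      rw [← hreal]
      exact Finset.single_le_sum (f := fun b : A => ‖(χ : G → ℂ) ((b : G) ^ k)‖ ^ 2)
        (fun b _ => sq_nonneg _) (Finset.mem_univ (1 : A))
    rw [OneMemClass.coe_one, one_pow, hχ1, Complex.norm_natCast] at h1
    have h2 : (0 : ℝ) < (n : ℝ) ^ 2 := by
      have : (n : ℝ) ≠ 0 := by exact_mod_cast (Nat.cast_ne_zero (R := ℂ)).mp hn0
      positivity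
    linarith
  have hcA : c = (Nat.card A : ℂ) := mul_right_cancel₀ hc0 hcc
  have hsum : ∑ b : A, ‖(χ : G → ℂ) ((b : G) ^ k)‖ ^ 2 = ∑ _b : A, (n : ℝ) ^ 2 := by
    rw [hreal, hcA, Finset.sum_const, Finset.card_univ, ← Nat.card_eq_fintype_card, nsmul_eq_mul]
    have : ((Nat.card A : ℂ) * n * n) = (((Nat.card A : ℝ) * (n : ℝ) ^ 2 : ℝ) : ℂ) := by
      push_cast
      ring
    rw [this, Complex.ofReal_re]
  have heq := (Finset.sum_eq_sum_iff_of_le (fun b _ => hle b)).mp hsum
  intro a ha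
  apply gp_center_of_pow k hk
  apply Helper25.irr_mem_center_of_norm_eq χ hfaith
  rw [hdeg]
  have h1 := heq ⟨a, ha⟩ (Finset.mem_univ _)
  have h2 : ‖(χ : G → ℂ) (a ^ k)‖ ^ 2 = (n : ℝ) ^ 2 := h1
  exact (sq_eq_sq₀ (norm_nonneg _) (Nat.cast_nonneg n)).mp h2

end data

/-- group theory: if abelian normal subgroups and normal subgroups of class two over the centre
are central, then so is every nilpotent normal subgroup -/
theorem gp_nilp {G : Type u} [Group G]
    (step1 : ∀ A : Subgroup G, A.Normal → (∀ a ∈ A, ∀ b ∈ A, a * b = b * a) →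
      A ≤ Subgroup.center G)
    (step2 : ∀ A : Subgroup G, A.Normal →
      (∀ a ∈ A, ∀ b ∈ A, a * b * a⁻¹ * b⁻¹ ∈ Subgroup.center G) →
      (∀ a ∈ A, (∀ b ∈ A, a * b = b * a) → a ∈ Subgroup.center G) → A ≤ Subgroup.center G)
    (N : Subgroup G) [hN : N.Normal] [hnil : Group.IsNilpotent N] : N ≤ Subgroup.center G := by
  have hZ : ∀ x : N, x ∈ Subgroup.center N → (x : G) ∈ Subgroup.center G := by
    have h1 := step1 ((Subgroup.center N).map N.subtype) inferInstance (by
      rintro _ ⟨a, ha, rfl⟩ _ ⟨b, hb, rfl⟩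
      have h2 := Subgroup.mem_center_iff.mp ha b
      exact congrArg Subtype.val h2.symm)
    intro x hx
    exact h1 ⟨x, hx, rfl⟩
  have hA : (Subgroup.upperCentralSeries N 2).map N.subtype ≤ Subgroup.center G := by
    apply step2 _ inferInstance
    · rintro _ ⟨a, ha, rfl⟩ _ ⟨b, hb, rfl⟩
      have h1 := (Subgroup.mem_upperCentralSeries_succ_iff.mp ha) b
      rw [Subgroup.upperCentralSeries_one] at h1
      have h2 := hZ _ h1
      rw [commutatorElement_def] at h2
      exact h2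
    · intro a ha hcomm
      have h1 := step1 ((Subgroup.center ((Subgroup.upperCentralSeries N 2).map N.subtype)).map
        ((Subgroup.upperCentralSeries N 2).map N.subtype).subtype) inferInstance (by
        rintro _ ⟨a, ha, rfl⟩ _ ⟨b, hb, rfl⟩
        have h2 := Subgroup.mem_center_iff.mp ha b
        exact congrArg Subtype.val h2.symm)
      apply h1
      refine ⟨⟨a, ha⟩, ?_, rfl⟩
      show (⟨a, ha⟩ : ((Subgroup.upperCentralSeries N 2).map N.subtype)) ∈ Subgroup.center _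
      rw [Subgroup.mem_center_iff]
      intro b
      exact Subtype.ext (hcomm b b.2).symm
  have h21 : Subgroup.upperCentralSeries N 2 ≤ Subgroup.upperCentralSeries N 1 := by
    intro x hx
    rw [Subgroup.upperCentralSeries_one, Subgroup.mem_center_iff]
    intro y
    have h1 := hA ⟨x, hx, rfl⟩
    exact Subtype.ext (Subgroup.mem_center_iff.mp h1 y)
  have hall : ∀ c : ℕ, Subgroup.upperCentralSeries N c ≤ Subgroup.upperCentralSeries N 1 := by
    intro c
    induction c with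
    | zero =>
      rw [Subgroup.upperCentralSeries_zero]
      exact bot_le
    | succ c ih =>
      intro x hx
      apply h21
      show x ∈ Subgroup.upperCentralSeries N (1 + 1)
      rw [Subgroup.mem_upperCentralSeries_succ_iff]
      intro y
      exact ih (Subgroup.mem_upperCentralSeries_succ_iff.mp hx y)
  obtain ⟨c, hc⟩ := Group.IsNilpotent.nilpotent N
  have htop : Subgroup.upperCentralSeries N 1 = ⊤ := by
    have h1 := hall c
    rw [hc] at h1
    exact top_le_iff.mp h1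
  apply step1 N hN
  intro a ha b hb
  have h1 : (⟨a, ha⟩ : N) ∈ Subgroup.center N := by
    rw [← Subgroup.upperCentralSeries_one, htop]
    trivial
  exact congrArg Subtype.val (Subgroup.mem_center_iff.mp h1 ⟨b, hb⟩).symm

/-- **Main theorem.** If the product of a faithful irreducible character with a Galois conjugate
is irreducible, the Fitting subgroup is the centre. -/
theorem gp_main {G : Type u} [Group G] [Finite G] (χ : IrrCharacter G)
    (hfaith : ∀ g : G, (χ : G → ℂ) g = (χ : G → ℂ) 1 → g = 1) (k : ℕ)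
    (hk : Nat.Coprime k (Nat.card G))
    (hirr : IsIrrCharacter G (fun g => (χ : G → ℂ) g * (χ : G → ℂ) (g ^ k))) :
    fittingSubgroup G = Subgroup.center G := by
  obtain ⟨n, R, S, hRtr, hStr, hSchur, hSchur2⟩ := gp_setup χ k hk hirr
  have step1 : ∀ A : Subgroup G, A.Normal → (∀ a ∈ A, ∀ b ∈ A, a * b = b * a) →
      A ≤ Subgroup.center G := by
    intro A hA hab
    exact gp_step1 χ k R S hk hfaith hRtr hStr hSchur2 A hab
  have step2 : ∀ A : Subgroup G, A.Normal →
      (∀ a ∈ A, ∀ b ∈ A, a * b * a⁻¹ * b⁻¹ ∈ Subgroup.center G) →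
      (∀ a ∈ A, (∀ b ∈ A, a * b = b * a) → a ∈ Subgroup.center G) →
      A ≤ Subgroup.center G := by
    intro A hA H1 H2
    exact gp_step2 χ k R S hk hfaith hRtr hStr hSchur hSchur2 A H1 H2
  apply le_antisymm
  · apply sSup_le
    rintro N ⟨hNn, hNnil⟩
    exact gp_nilp step1 step2 N
  · apply le_sSup
    exact ⟨inferInstance, ⟨⟨1, Subgroup.upperCentralSeries_one_eq_top_iff.mpr inferInstance⟩⟩⟩

end Cfsg.Agent.Helper24
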