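import Mathlib
import Cfsg.Prelude
import Cfsg.Agent.Helper24.BlockDeg
import Cfsg.Agent.Helper7.MinMax
import Cfsg.Agent.S4505

/-!
# Pairing classes with their inverses (p = 2)

If `F` is a class function with `F g⁻¹ = F g`, whose class sums are local integers, and which
vanishes on real elements, then `∑ g, F g` lies in the local ideal at `2`.
-/

namespace Cfsg.Agent.Helper24

open Cfsg Cfsg.Agent.Helper25 Cfsg.Agent.Helper7

universe u

variable {G : Type u} [Group G]

theorem li_sum_of_inv_pairing [Fintype G] {M : Ideal AlgInt} (hM : IsPModular 2 M)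
    (F : G → ℂ) (hF : ∀ g x : G, F (x * g * x⁻¹) = F g) (hinv : ∀ g : G, F g⁻¹ = F g)
    (hlr : ∀ g : G, MemLocalRing M (((Subgroup.centralizer ({g} : Set G)).index : ℂ) * F g))
    (hfix : ∀ g x : G, x * g * x⁻¹ = g⁻¹ → F g = 0) :
    MemLocalIdeal M (∑ g : G, F g) := by
  classical
  haveI : Fintype (ConjClasses G) := Fintype.ofFinite _
  have hex : ∀ C : ConjClasses G, ∃ g : G, ConjClasses.mk g = C := fun C =>
    ConjClasses.exists_rep C
  choose rep hrep using hex
  rw [Cfsg.Agent.S4505.sum_eq_sum_conjClasses rep hrep F hF]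
  set φ : ConjClasses G → ℂ := fun C =>
    ((Subgroup.centralizer ({rep C} : Set G)).index : ℂ) * F (rep C) with hφ
  -- the value of φ at the class of g
  have hφmk : ∀ g : G, φ (ConjClasses.mk g)
      = ((Subgroup.centralizer ({g} : Set G)).index : ℂ) * F g := by
    intro g
    have h1 : IsConj g (rep (ConjClasses.mk g)) :=
      ConjClasses.mk_eq_mk_iff_isConj.mp (hrep (ConjClasses.mk g)).symm
    obtain ⟨x, hx⟩ := isConj_iff.mp h1
    simp only [hφ]
    rw [← hx, index_centralizer_conj, hF]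
  set inv : ConjClasses G → ConjClasses G := fun C => ConjClasses.mk (rep C)⁻¹ with hinvdef
  have hinvmk : ∀ g : G, inv (ConjClasses.mk g) = ConjClasses.mk g⁻¹ := by
    intro g
    have h1 : IsConj g (rep (ConjClasses.mk g)) :=
      ConjClasses.mk_eq_mk_iff_isConj.mp (hrep (ConjClasses.mk g)).symm
    obtain ⟨x, hx⟩ := isConj_iff.mp h1
    simp only [hinvdef]
    apply ConjClasses.mk_eq_mk_iff_isConj.mpr
    rw [isConj_iff]
    refine ⟨x⁻¹, ?_⟩
    rw [← hx]
    group
  have hinvol : Function.Involutive inv := by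
    intro C
    obtain ⟨g, rfl⟩ := ConjClasses.exists_rep C
    exact (congrArg inv (hinvmk g)).trans ((hinvmk g⁻¹).trans (by rw [inv_inv]))
  set σ : Equiv.Perm (ConjClasses G) := hinvol.toPerm inv with hσ
  have hσ2 : σ * σ = 1 := by
    ext C
    simp only [Equiv.Perm.mul_apply, Equiv.Perm.one_apply, hσ]
    exact hinvol C
  have hφσ : ∀ C, φ (σ C) = φ C := by
    intro C
    obtain ⟨g, rfl⟩ := ConjClasses.exists_rep C
    have e1 : φ (inv (ConjClasses.mk g)) = φ (ConjClasses.mk g⁻¹) := congrArg φ (hinvmk g)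
    have e2 : φ (ConjClasses.mk g⁻¹) = φ (ConjClasses.mk g) := by
      rw [hφmk, hφmk, centralizer_inv_eq, hinv]
    exact e1.trans e2
  have hmem : ∀ q : Subgroup.zpowers σ, (q : Equiv.Perm (ConjClasses G)) = 1 ∨
      (q : Equiv.Perm (ConjClasses G)) = σ := by
    rintro ⟨q, hq⟩
    obtain ⟨k, rfl⟩ := Subgroup.mem_zpowers_iff.mp hq
    have hσ2' : σ ^ (2 : ℤ) = 1 := by rw [zpow_two]; exact hσ2
    rcases Int.even_or_odd' k with ⟨m, rfl | rfl⟩
    · left
      show σ ^ (2 * m) = 1
      rw [zpow_mul, hσ2', one_zpow]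
    · right
      show σ ^ (2 * m + 1) = σ
      rw [zpow_add, zpow_mul, hσ2', one_zpow, one_mul, zpow_one]
  have hP : IsPGroup 2 (Subgroup.zpowers σ) := by
    intro q
    refine ⟨1, ?_⟩
    apply Subtype.ext
    rw [pow_one, Subgroup.coe_pow, Subgroup.coe_one]
    rcases hmem q with h | h
    · rw [h, one_pow]
    · rw [h, pow_two]; exact hσ2
  refine li_sum_of_pgroup_action (P := Subgroup.zpowers σ) hM hP φ ?_ ?_ ?_
  · intro q C
    show φ ((q : Equiv.Perm (ConjClasses G)) C) = φ C
    rcases hmem q with h | h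
    · rw [h]; rfl
    · rw [h]; exact hφσ C
  · intro C
    obtain ⟨g, rfl⟩ := ConjClasses.exists_rep C
    rw [hφmk]
    exact hlr _
  · intro C hC
    have h1 : σ C = C := hC ⟨σ, Subgroup.mem_zpowers σ⟩
    have h2 : ConjClasses.mk (rep C)⁻¹ = ConjClasses.mk (rep C) := by
      have : inv C = C := h1
      rw [hrep C]
      exact this
    have h3 : IsConj (rep C) (rep C)⁻¹ := (ConjClasses.mk_eq_mk_iff_isConj.mp h2).symm
    obtain ⟨x, hx⟩ := isConj_iff.mp h3
    simp only [hφ]
    rw [hfix (rep C) x hx, mul_zero]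

end Cfsg.Agent.Helper24
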