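import Mathlib
import Cfsg.Agent.Helper24.SelfCent
import Cfsg.Agent.Helper7.KleinBlock
import Cfsg.Agent.Helper9.Klein2
import Cfsg.Agent.Helper9.Klein1

/-!
# Groups of order `4 g₀` (`g₀` odd) without a normal 2-complement (helper24)

Group-theoretic facts: the Sylow 2-subgroup `P` is a four-group, `N_G(P)` permutes its involutions
transitively, a normalizing element fixing an involution of `P` centralizes `P`; counting of pairs of
involutions whose product has even order.
-/

set_option autoImplicit false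

namespace Cfsg.Agent.Helper24

open Cfsg

universe u

section grp

variable {G : Type u} [Group G] [Finite G]

/-- a 2-element normalizing a Sylow 2-subgroup lies in it -/
theorem k4_mem_of_normalizer (P : Sylow 2 G) (y : G)
    (hyN : y ∈ Subgroup.normalizer ((P : Subgroup G) : Set G)) (k : ℕ) (hy : y ^ (2 ^ k) = 1) :
    y ∈ (P : Subgroup G) := by
  haveI : Fact (Nat.Prime 2) := ⟨Nat.prime_two⟩
  have hp : IsPGroup 2 (Subgroup.zpowers y) := by
    have h7 : orderOf y ∣ 2 ^ k := orderOf_dvd_of_pow_eq_one hy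
    obtain ⟨j, -, hj⟩ := (Nat.dvd_prime_pow Nat.prime_two).mp h7
    exact IsPGroup.of_card (n := j) (by rw [Nat.card_zpowers, hj])
  have h8 : IsPGroup 2 (Subgroup.zpowers y ⊔ (P : Subgroup G) : Subgroup G) :=
    IsPGroup.to_sup_of_normal_right' hp P.isPGroup' ((Subgroup.zpowers_le).mpr hyN)
  have h9 := P.is_maximal' h8 le_sup_right
  rw [← h9]
  exact Subgroup.mem_sup_left (Subgroup.mem_zpowers _)

/-- a group of exponent 2 is abelian -/
theorem k4_comm (P : Subgroup G) (hsq : ∀ a ∈ P, a * a = 1) :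
    ∀ a ∈ P, ∀ b ∈ P, a * b = b * a := by
  intro a ha b hb
  have h1 := hsq (a * b) (Subgroup.mul_mem _ ha hb)
  have h2 := hsq a ha
  have h3 := hsq b hb
  calc a * b = a * (a * b * (a * b)) * b := by rw [h1, mul_one]
    _ = (a * a) * (b * a) * (b * b) := by group
    _ = b * a := by rw [h2, h3, one_mul, mul_one]

/-- if conjugation by `n ∈ N(P)` swaps `x` with its image (`P` an abelian Sylow 2-subgroup)
then it fixes `x` -/
theorem k4_fix (P : Sylow 2 G)
    (hcomm : ∀ a ∈ (P : Subgroup G), ∀ b ∈ (P : Subgroup G), a * b = b * a)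
    (n : G) (hn : n ∈ Subgroup.normalizer ((P : Subgroup G) : Set G)) (x : G)
    (hx : x ∈ (P : Subgroup G)) (hsw : n * (n * x * n⁻¹) * n⁻¹ = x) : n * x * n⁻¹ = x := by
  have hpow : ∀ j : ℕ, n ^ (2 * j) * x * (n ^ (2 * j))⁻¹ = x := by
    intro j
    induction j with
    | zero => simp
    | succ j ih =>
      have e : n ^ (2 * (j + 1)) * x * (n ^ (2 * (j + 1)))⁻¹
          = n * (n * (n ^ (2 * j) * x * (n ^ (2 * j))⁻¹) * n⁻¹) * n⁻¹ := by
        have : 2 * (j + 1) = 2 * j + 1 + 1 := by ring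
        rw [this, pow_succ', pow_succ']
        group
      rw [e, ih, hsw]
  obtain ⟨a, m, hm, ho⟩ := Nat.exists_eq_two_pow_mul_odd (orderOf_pos n).ne'
  obtain ⟨t, ht⟩ := hm
  have hnm : n ^ m ∈ (P : Subgroup G) := by
    apply k4_mem_of_normalizer P _ (Subgroup.pow_mem _ hn m) a
    rw [← pow_mul, mul_comm, ← ho, pow_orderOf_eq_one]
  have h1 : n ^ m * x * (n ^ m)⁻¹ = x := by
    rw [hcomm _ hnm x hx, mul_inv_cancel_right]
  have h2 : n ^ m * x * (n ^ m)⁻¹ = n * (n ^ (2 * t) * x * (n ^ (2 * t))⁻¹) * n⁻¹ := by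
    rw [ht, pow_succ']
    group
  rw [h2, hpow t] at h1
  exact h1

/-- the elements of a subgroup of order 4 -/
theorem k4_enum (P : Subgroup G) (hcard : Nat.card P = 4) (z q : G) (hz : z ∈ P) (hq : q ∈ P)
    (hz1 : z ≠ 1) (hq1 : q ≠ 1) (hqz : q ≠ z) (hzz : z * z = 1) :
    ∀ y ∈ P, y = 1 ∨ y = z ∨ y = q ∨ y = z * q := by
  classical
  have hzq1 : z * q ≠ 1 := by
    intro h
    apply hqz
    calc q = (z * z) * q := by rw [hzz, one_mul]
      _ = z * (z * q) := by group
      _ = z := by rw [h, mul_one]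
  have hzqz : z * q ≠ z := by
    intro h
    apply hq1
    exact mul_left_cancel (h.trans (mul_one z).symm)
  have hzqq : z * q ≠ q := by
    intro h
    apply hz1
    exact mul_right_cancel (h.trans (one_mul q).symm)
  have hS : ((({1, z, q, z * q} : Finset G) : Set G)) = ((P : Subgroup G) : Set G) := by
    apply Set.eq_of_subset_of_ncard_le
    · intro x hx
      simp only [Finset.coe_insert, Finset.coe_singleton, Set.mem_insert_iff,
        Set.mem_singleton_iff] at hx
      rcases hx with rfl | rfl | rfl | rfl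
      · exact Subgroup.one_mem _
      · exact hz
      · exact hq
      · exact Subgroup.mul_mem _ hz hq
    · rw [Set.ncard_coe_finset]
      have h4 : ({1, z, q, z * q} : Finset G).card = 4 := by
        rw [Finset.card_insert_of_notMem, Finset.card_insert_of_notMem,
          Finset.card_insert_of_notMem, Finset.card_singleton]
        · simp only [Finset.mem_singleton]
          exact fun h => hzqq h.symm
        · simp only [Finset.mem_insert, Finset.mem_singleton]
          rintro (h | h)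
          · exact hqz h.symm
          · exact hzqz h.symm
        · simp only [Finset.mem_insert, Finset.mem_singleton]
          rintro (h | h | h)
          · exact hz1 h.symm
          · exact hq1 h.symm
          · exact hzq1 h.symm
      rw [h4]
      have h5 : (((P : Subgroup G) : Set G)).ncard = Nat.card (P : Subgroup G) :=
        (Nat.card_coe_set_eq _).symm
      rw [h5]
      exact hcard.le
    · exact Set.toFinite _
  intro y hy
  have hy' : y ∈ ((({1, z, q, z * q} : Finset G) : Set G)) := by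
    rw [hS]
    exact hy
  simpa only [Finset.coe_insert, Finset.coe_singleton, Set.mem_insert_iff,
    Set.mem_singleton_iff] using hy'

/-- a subgroup of order 4 has an element outside `{1, z}` -/
theorem k4_exists_third (P : Subgroup G) (hcard : Nat.card P = 4) (z : G) :
    ∃ a ∈ P, a ≠ 1 ∧ a ≠ z := by
  classical
  by_contra hcon
  push Not at hcon
  have hsub : ((P : Subgroup G) : Set G) ⊆ ((({1, z} : Finset G)) : Set G) := by
    intro x hx
    simp only [Finset.coe_insert, Finset.coe_singleton, Set.mem_insert_iff,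
      Set.mem_singleton_iff]
    by_cases h1 : x = 1
    · left; exact h1
    · right; exact hcon x hx h1
  have h1 := Set.ncard_le_ncard hsub (Finset.finite_toSet _)
  rw [Set.ncard_coe_finset] at h1
  have h5 : (((P : Subgroup G) : Set G)).ncard = Nat.card (P : Subgroup G) :=
    (Nat.card_coe_set_eq _).symm
  have h2 : ({1, z} : Finset G).card ≤ 2 := Finset.card_le_two
  omega

/-- an element of `N(P)` fixing an involution of the four-group `P` centralizes `P` -/
theorem k4_claimA (P : Sylow 2 G) (hcard : Nat.card (P : Subgroup G) = 4)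
    (hsq : ∀ a ∈ (P : Subgroup G), a * a = 1) (n : G)
    (hn : n ∈ Subgroup.normalizer ((P : Subgroup G) : Set G)) (z : G)
    (hz : z ∈ (P : Subgroup G)) (hz1 : z ≠ 1) (hnz : n * z * n⁻¹ = z) :
    ∀ x ∈ (P : Subgroup G), n * x * n⁻¹ = x := by
  intro x hx
  by_contra hne
  have hcomm := k4_comm (P : Subgroup G) hsq
  have hx1 : x ≠ 1 := by
    intro h
    apply hne
    rw [h]
    group
  have hxz : x ≠ z := by
    intro h
    apply hne
    rw [h]
    exact hnz
  have hc : n * x * n⁻¹ ∈ (P : Subgroup G) := (Subgroup.mem_normalizer_iff.mp hn x).mp hx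
  rcases k4_enum (P : Subgroup G) hcard z x hz hx hz1 hx1 hxz (hsq z hz) _ hc with h | h | h | h
  · apply hx1
    have : x = n⁻¹ * (n * x * n⁻¹) * n := by group
    rw [this, h]
    group
  · apply hxz
    have h' : n * x * n⁻¹ = n * z * n⁻¹ := h.trans hnz.symm
    exact mul_left_cancel (mul_right_cancel h')
  · exact hne h
  · apply hne
    apply k4_fix P hcomm n hn x hx
    rw [h]
    have e : n * (z * x) * n⁻¹ = (n * z * n⁻¹) * (n * x * n⁻¹) := by group
    rw [e, hnz, h, ← mul_assoc, hsq z hz, one_mul]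

/-- `N(P)` is transitive on the involutions of `P` when `N(P) ≰ C(P)` -/
theorem k4_trans (P : Sylow 2 G) (hcard : Nat.card (P : Subgroup G) = 4)
    (hsq : ∀ a ∈ (P : Subgroup G), a * a = 1)
    (hNC : ¬ Subgroup.normalizer ((P : Subgroup G) : Set G)
      ≤ Subgroup.centralizer ((P : Subgroup G) : Set G))
    (J : G) (hJ : J ∈ (P : Subgroup G)) (hJ1 : J ≠ 1) :
    ∀ z ∈ (P : Subgroup G), z ≠ 1 →
      ∃ n ∈ Subgroup.normalizer ((P : Subgroup G) : Set G), n * J * n⁻¹ = z := by
  obtain ⟨n₀, hn₀N, hn₀C⟩ := SetLike.not_le_iff_exists.mp hNC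
  have hcomm := k4_comm (P : Subgroup G) hsq
  have hcent : ∀ z ∈ (P : Subgroup G), z ≠ 1 → n₀ * z * n₀⁻¹ ≠ z := by
    intro z hz hz1 h
    apply hn₀C
    rw [Subgroup.mem_centralizer_iff]
    intro x hx
    have h2 := k4_claimA P hcard hsq n₀ hn₀N z hz hz1 h x hx
    calc x * n₀ = n₀ * x * n₀⁻¹ * n₀ := by rw [h2]
      _ = n₀ * x := by group
  have h1 : n₀ * J * n₀⁻¹ ≠ J := hcent J hJ hJ1
  obtain ⟨z₁, hz₁⟩ : ∃ z₁, z₁ = n₀ * J * n₀⁻¹ := ⟨_, rfl⟩
  rw [← hz₁] at h1
  have hz₁P : z₁ ∈ (P : Subgroup G) := by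
    rw [hz₁]
    exact (Subgroup.mem_normalizer_iff.mp hn₀N J).mp hJ
  have hz₁1 : z₁ ≠ 1 := by
    intro h
    apply hJ1
    have : J = n₀⁻¹ * (n₀ * J * n₀⁻¹) * n₀ := by group
    rw [this, ← hz₁, h]
    group
  have hz₂P : n₀ * z₁ * n₀⁻¹ ∈ (P : Subgroup G) :=
    (Subgroup.mem_normalizer_iff.mp hn₀N z₁).mp hz₁P
  have henum := k4_enum (P : Subgroup G) hcard J z₁ hJ hz₁P hJ1 hz₁1 h1 (hsq J hJ)
  have hz₂ : n₀ * z₁ * n₀⁻¹ = J * z₁ := by
    rcases henum _ hz₂P with h | h | h | h
    · exfalso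
      apply hz₁1
      have : z₁ = n₀⁻¹ * (n₀ * z₁ * n₀⁻¹) * n₀ := by group
      rw [this, h]
      group
    · exfalso
      apply h1
      rw [hz₁]
      apply k4_fix P hcomm n₀ hn₀N J hJ
      rw [← hz₁]
      exact h
    · exact absurd h (hcent z₁ hz₁P hz₁1)
    · exact h
  intro z hz hz1
  rcases henum z hz with h | h | h | h
  · exact absurd h hz1
  · refine ⟨1, Subgroup.one_mem _, ?_⟩
    rw [h]
    group
  · exact ⟨n₀, hn₀N, by rw [h, hz₁]⟩
  · refine ⟨n₀ * n₀, Subgroup.mul_mem _ hn₀N hn₀N, ?_⟩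
    have e : n₀ * n₀ * J * (n₀ * n₀)⁻¹ = n₀ * (n₀ * J * n₀⁻¹) * n₀⁻¹ := by group
    rw [e, ← hz₁, hz₂, h]

/-- every 2-element squares to one when the Sylow 2-subgroups have exponent 2 -/
theorem k4_sq_of_two_elt (P : Sylow 2 G) (hsq : ∀ a ∈ (P : Subgroup G), a * a = 1) (y : G)
    (k : ℕ) (hy : y ^ (2 ^ k) = 1) : y * y = 1 := by
  haveI : Fact (Nat.Prime 2) := ⟨Nat.prime_two⟩
  have hp : IsPGroup 2 (Subgroup.zpowers y) := by
    have h7 : orderOf y ∣ 2 ^ k := orderOf_dvd_of_pow_eq_one hy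
    obtain ⟨j, -, hj⟩ := (Nat.dvd_prime_pow Nat.prime_two).mp h7
    exact IsPGroup.of_card (n := j) (by rw [Nat.card_zpowers, hj])
  obtain ⟨Q, hQ⟩ := hp.exists_le_sylow
  obtain ⟨g, hg⟩ := MulAction.exists_smul_eq G P Q
  have h1 : y ∈ g • P := by
    rw [hg]
    exact hQ (Subgroup.mem_zpowers y)
  rw [sc_mem_smul_sylow_iff] at h1
  have h2 := hsq _ h1
  have h3 : y * y = g * ((g⁻¹ * y * g) * (g⁻¹ * y * g)) * g⁻¹ := by group
  rw [h3, h2]
  group

/-- all involutions are conjugate to `J` -/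
theorem k4_conj (P : Sylow 2 G) (J : G)
    (hT : ∀ z ∈ (P : Subgroup G), z ≠ 1 →
      ∃ n ∈ Subgroup.normalizer ((P : Subgroup G) : Set G), n * J * n⁻¹ = z)
    (s : G) (hs : orderOf s = 2) : ∃ g : G, g * J * g⁻¹ = s := by
  haveI : Fact (Nat.Prime 2) := ⟨Nat.prime_two⟩
  have hp : IsPGroup 2 (Subgroup.zpowers s) :=
    IsPGroup.of_card (n := 1) (by rw [Nat.card_zpowers, hs, pow_one])
  obtain ⟨Q, hQ⟩ := hp.exists_le_sylow
  obtain ⟨g, hg⟩ := MulAction.exists_smul_eq G P Q
  have h1 : s ∈ g • P := by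
    rw [hg]
    exact hQ (Subgroup.mem_zpowers s)
  rw [sc_mem_smul_sylow_iff] at h1
  have hs1 : s ≠ 1 := by
    intro h
    rw [h, orderOf_one] at hs
    norm_num at hs
  have h2 : g⁻¹ * s * g ≠ 1 := by
    intro h
    apply hs1
    have : s = g * (g⁻¹ * s * g) * g⁻¹ := by group
    rw [this, h]
    group
  obtain ⟨n, hn, hnJ⟩ := hT _ h1 h2
  refine ⟨g * n, ?_⟩
  have e : g * n * J * (g * n)⁻¹ = g * (n * J * n⁻¹) * g⁻¹ := by group
  rw [e, hnJ]
  group

/-- structure of the Sylow 2-subgroup of a group of order `4 g₀` without normal 2-complement -/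
theorem k4_of_no_complement (g₀ : ℕ) (hg₀ : Odd g₀) (hG : Nat.card G = 4 * g₀)
    (hnc : ¬ ∃ N : Subgroup G, N.Normal ∧ Nat.card N = g₀) (P : Sylow 2 G) :
    (Nat.card G).factorization 2 = 2 ∧ Nat.card (P : Subgroup G) = 4 ∧
      (∀ a ∈ (P : Subgroup G), a * a = 1) ∧
      ¬ Subgroup.normalizer ((P : Subgroup G) : Set G)
        ≤ Subgroup.centralizer ((P : Subgroup G) : Set G) := by
  haveI : Fact (Nat.Prime 2) := ⟨Nat.prime_two⟩
  have hg₀0 : g₀ ≠ 0 := by
    rintro rfl
    exact absurd hg₀ (by decide)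
  have hfac : (Nat.card G).factorization 2 = 2 := by
    rw [hG, Nat.factorization_mul (by norm_num) hg₀0]
    have h4 : (Nat.factorization 4) 2 = 2 := by
      have : (4 : ℕ) = 2 ^ 2 := by norm_num
      rw [this, Nat.Prime.factorization_pow Nat.prime_two]
      simp
    have hg : g₀.factorization 2 = 0 :=
      Nat.factorization_eq_zero_of_not_dvd (Nat.odd_iff.mp hg₀ |> fun h => by omega)
    show (Nat.factorization 4) 2 + g₀.factorization 2 = 2
    rw [h4, hg]
  have hcard : Nat.card (P : Subgroup G) = 4 := by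
    rw [P.card_eq_multiplicity, hfac]
    norm_num
  have hindex : (P : Subgroup G).index = g₀ := by
    have h1 := Subgroup.index_mul_card (P : Subgroup G)
    rw [hcard, hG] at h1
    omega
  have hcontra : ∀ K : Subgroup G, K.Normal → K.IsComplement' (P : Subgroup G) → False := by
    intro K hKn hcompl
    apply hnc
    refine ⟨K, hKn, ?_⟩
    rw [← hindex]
    exact (hcompl.index_eq_card).symm
  have hNC : ¬ Subgroup.normalizer ((P : Subgroup G) : Set G)
        ≤ Subgroup.centralizer ((P : Subgroup G) : Set G) := by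
    intro hNC
    exact hcontra _ inferInstance (MonoidHom.ker_transferSylow_isComplement' P hNC)
  refine ⟨hfac, hcard, ?_, hNC⟩
  by_contra hcon
  push Not at hcon
  obtain ⟨a, haP, ha⟩ := hcon
  have ho : orderOf (⟨a, haP⟩ : (P : Subgroup G)) = 4 := by
    rw [Subgroup.orderOf_mk]
    have h1 : orderOf a ∣ 2 ^ 2 := by
      have := orderOf_dvd_natCard (⟨a, haP⟩ : (P : Subgroup G))
      rw [hcard, Subgroup.orderOf_mk] at this
      exact this
    obtain ⟨j, hj, hj2⟩ := (Nat.dvd_prime_pow Nat.prime_two).mp h1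
    have h3 : a ^ orderOf a = 1 := pow_orderOf_eq_one a
    interval_cases j
    · rw [hj2] at h3
      exfalso
      apply ha
      simp at h3
      rw [h3, mul_one]
    · rw [hj2] at h3
      exfalso
      apply ha
      rw [← pow_two]
      simpa using h3
    · rw [hj2]
      norm_num
  have hcyc : IsCyclic (P : Subgroup G) :=
    isCyclic_of_orderOf_eq_card (⟨a, haP⟩ : (P : Subgroup G)) (by rw [ho, hcard])
  have hmin : (Nat.card G).minFac = 2 := by
    rw [Nat.minFac_eq_two_iff, hG]
    exact ⟨2 * g₀, by ring⟩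
  exact hcontra _ inferInstance (IsCyclic.isComplement' hmin hcyc)

end grp

section count

variable {G : Type u} [Group G] [Fintype G] [DecidableEq G]

theorem k4_invol {s : G} (hs : orderOf s = 2) : s * s = 1 ∧ s ≠ 1 := by
  refine ⟨?_, ?_⟩
  · rw [← pow_two, ← hs, pow_orderOf_eq_one]
  · intro h
    rw [h, orderOf_one] at hs
    norm_num at hs

theorem k4_orderOf_two {s : G} (h1 : s * s = 1) (h2 : s ≠ 1) : orderOf s = 2 := by
  haveI : Fact (Nat.Prime 2) := ⟨Nat.prime_two⟩
  exact orderOf_eq_prime (by rw [pow_two]; exact h1) h2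

theorem k4_mem_cent_singleton (J c : G) :
    c ∈ Subgroup.centralizer ({J} : Set G) ↔ c * J * c⁻¹ = J := by
  rw [Subgroup.mem_centralizer_iff]
  constructor
  · intro h
    rw [← h J rfl]
    group
  · intro h y hy
    rw [Set.mem_singleton_iff.mp hy]
    calc J * c = c * J * c⁻¹ * c := by rw [h]
      _ = c * J := by group

/-- involutions other than `z` commuting with `z` -/
noncomputable def k4A (z : G) : Finset G :=
  Finset.univ.filter (fun s : G => orderOf s = 2 ∧ s ≠ z ∧ s * z = z * s)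

theorem mem_k4A (z s : G) : s ∈ k4A z ↔ orderOf s = 2 ∧ s ≠ z ∧ s * z = z * s := by
  unfold k4A
  rw [Finset.mem_filter]
  exact ⟨fun h => h.2, fun h => ⟨Finset.mem_univ _, h⟩⟩

/-- the number of involutions `≠ J` commuting with `J` -/
theorem k4_card_A (P : Sylow 2 G) (hfac : (Nat.card G).factorization 2 = 2)
    (hcard : Nat.card (P : Subgroup G) = 4)
    (hsq : ∀ a ∈ (P : Subgroup G), a * a = 1)
    (hNC : ¬ Subgroup.normalizer ((P : Subgroup G) : Set G)
      ≤ Subgroup.centralizer ((P : Subgroup G) : Set G))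
    (J : G) (hJ : J ∈ (P : Subgroup G)) (hJ1 : J ≠ 1) :
    Nat.card (Subgroup.centralizer ((P : Subgroup G) : Set G)) * (k4A J).card
      = 2 * Nat.card (Subgroup.centralizer ({J} : Set G)) := by
  classical
  haveI : Fact (Nat.Prime 2) := ⟨Nat.prime_two⟩
  have hcomm := k4_comm (P : Subgroup G) hsq
  have hT := k4_trans P hcard hsq hNC J hJ hJ1
  have hJJ : J * J = 1 := hsq J hJ
  obtain ⟨a, haP, ha1, haJ⟩ := k4_exists_third (P : Subgroup G) hcard J
  have henum := k4_enum (P : Subgroup G) hcard J a hJ haP hJ1 ha1 haJ hJJ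
  obtain ⟨b, hb⟩ : ∃ b, b = J * a := ⟨_, rfl⟩
  have hbP : b ∈ (P : Subgroup G) := by rw [hb]; exact Subgroup.mul_mem _ hJ haP
  have hab : a ≠ b := by
    intro h
    apply hJ1
    rw [hb] at h
    exact mul_right_cancel (h.symm.trans (one_mul a).symm)
  have hb1 : b ≠ 1 := by
    intro h
    apply haJ
    rw [hb] at h
    calc a = (J * J) * a := by rw [hJJ, one_mul]
      _ = J * (J * a) := by group
      _ = J := by rw [h, mul_one]
  have hbJ : b ≠ J := by
    intro h
    apply ha1
    rw [hb] at h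
    exact mul_left_cancel (h.trans (mul_one J).symm)
  have hJb : J * b = a := by rw [hb, ← mul_assoc, hJJ, one_mul]
  -- key lemma
  have key : ∀ d x x₀ : G, d * J * d⁻¹ = J → x ∈ (P : Subgroup G) → x ≠ 1 → x ≠ J →
      (x₀ = x ∨ x₀ = J * x) → d * x * d⁻¹ = x₀ →
      x₀ = x ∧ d ∈ Subgroup.centralizer ((P : Subgroup G) : Set G) := by
    intro d x x₀ hdJ hxP hx1 hxJ hx₀ hdx
    have henx := k4_enum (P : Subgroup G) hcard J x hJ hxP hJ1 hx1 hxJ hJJ
    have hfixall : d * x * d⁻¹ = x → d ∈ Subgroup.centralizer ((P : Subgroup G) : Set G) := by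
      intro hfx
      rw [Subgroup.mem_centralizer_iff]
      intro y hy
      have hdy : d * y * d⁻¹ = y := by
        rcases henx y hy with h | h | h | h
        · rw [h]; group
        · rw [h]; exact hdJ
        · rw [h]; exact hfx
        · rw [h]
          have e : d * (J * x) * d⁻¹ = (d * J * d⁻¹) * (d * x * d⁻¹) := by group
          rw [e, hdJ, hfx]
      calc y * d = d * y * d⁻¹ * d := by rw [hdy]
        _ = d * y := by group
    rcases hx₀ with h | h
    · rw [h] at hdx
      exact ⟨h, hfixall hdx⟩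
    · exfalso
      rw [h] at hdx
      have hdJx : d * (J * x) * d⁻¹ = x := by
        have e : d * (J * x) * d⁻¹ = (d * J * d⁻¹) * (d * x * d⁻¹) := by group
        rw [e, hdJ, hdx, ← mul_assoc, hJJ, one_mul]
      have hdN : d ∈ Subgroup.normalizer ((P : Subgroup G) : Set G) := by
        rw [Subgroup.mem_normalizer_iff]
        intro y
        constructor
        · intro hy
          rcases henx y hy with h | h | h | h
          · rw [h]
            have : d * 1 * d⁻¹ = 1 := by group
            rw [this]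
            exact Subgroup.one_mem _
          · rw [h, hdJ]; exact hJ
          · rw [h, hdx]; exact Subgroup.mul_mem _ hJ hxP
          · rw [h, hdJx]; exact hxP
        · intro hy
          rcases henx _ hy with h | h | h | h
          · have : d * y * d⁻¹ = d * 1 * d⁻¹ := by rw [h]; group
            rw [mul_left_cancel (mul_right_cancel this)]
            exact Subgroup.one_mem _
          · have : d * y * d⁻¹ = d * J * d⁻¹ := h.trans hdJ.symm
            rw [mul_left_cancel (mul_right_cancel this)]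
            exact hJ
          · have : d * y * d⁻¹ = d * (J * x) * d⁻¹ := h.trans hdJx.symm
            rw [mul_left_cancel (mul_right_cancel this)]
            exact Subgroup.mul_mem _ hJ hxP
          · have : d * y * d⁻¹ = d * x * d⁻¹ := h.trans hdx.symm
            rw [mul_left_cancel (mul_right_cancel this)]
            exact hxP
      have h3 := k4_claimA P hcard hsq d hdN J hJ hJ1 hdJ x hxP
      rw [hdx] at h3
      exact hJ1 (mul_right_cancel (h3.trans (one_mul x).symm))
  have hpair : ∀ x ∈ ({a, b} : Finset G), x ∈ (P : Subgroup G) ∧ x ≠ 1 ∧ x ≠ J ∧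
      ∀ x₀ ∈ ({a, b} : Finset G), x₀ = x ∨ x₀ = J * x := by
    intro x hx
    rw [Finset.mem_insert, Finset.mem_singleton] at hx
    rcases hx with hx | hx
    · rw [hx]
      refine ⟨haP, ha1, haJ, ?_⟩
      intro x₀ hx₀
      rw [Finset.mem_insert, Finset.mem_singleton] at hx₀
      rcases hx₀ with h | h
      · left; exact h
      · right; rw [h, hb]
    · rw [hx]
      refine ⟨hbP, hb1, hbJ, ?_⟩
      intro x₀ hx₀
      rw [Finset.mem_insert, Finset.mem_singleton] at hx₀
      rcases hx₀ with h | h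
      · right; rw [h, hJb]
      · left; exact h
  obtain ⟨CJ, hCJ⟩ : ∃ CJ : Finset G, CJ = Finset.univ.filter
      (fun c : G => c ∈ Subgroup.centralizer ({J} : Set G)) := ⟨_, rfl⟩
  obtain ⟨CP, hCP⟩ : ∃ CP : Finset G, CP = Finset.univ.filter
      (fun c : G => c ∈ Subgroup.centralizer ((P : Subgroup G) : Set G)) := ⟨_, rfl⟩
  have hmemCJ : ∀ c, c ∈ CJ ↔ c * J * c⁻¹ = J := by
    intro c
    rw [hCJ, Finset.mem_filter, k4_mem_cent_singleton]
    exact ⟨fun h => h.2, fun h => ⟨Finset.mem_univ _, h⟩⟩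
  have hmemCP : ∀ c, c ∈ CP ↔ c ∈ Subgroup.centralizer ((P : Subgroup G) : Set G) := by
    intro c
    rw [hCP, Finset.mem_filter]
    exact ⟨fun h => h.2, fun h => ⟨Finset.mem_univ _, h⟩⟩
  have hCJcard : CJ.card = Nat.card (Subgroup.centralizer ({J} : Set G)) :=
    (Nat.subtype_card _ (fun x => by rw [hCJ]; simp)).symm
  have hCPcard : CP.card = Nat.card (Subgroup.centralizer ((P : Subgroup G) : Set G)) :=
    (Nat.subtype_card _ (fun x => by rw [hCP]; simp)).symm
  obtain ⟨f, hf⟩ : ∃ f : G × G → G, f = fun cx => cx.1 * cx.2 * cx.1⁻¹ := ⟨_, rfl⟩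
  have hmaps : ∀ cx ∈ CJ ×ˢ ({a, b} : Finset G), f cx ∈ k4A J := by
    rintro ⟨c, x⟩ hcx
    rw [Finset.mem_product] at hcx
    obtain ⟨hc, hx⟩ := hcx
    obtain ⟨hxP, hx1, hxJ, -⟩ := hpair x hx
    have hcJ : c * J * c⁻¹ = J := (hmemCJ c).mp hc
    rw [hf, mem_k4A]
    refine ⟨?_, ?_, ?_⟩
    · show orderOf (c * x * c⁻¹) = 2
      rw [Cfsg.Agent.Helper9.orderOf_conj_eq_h9]
      exact k4_orderOf_two (hsq x hxP) hx1
    · intro h
      have h' : c * x * c⁻¹ = c * J * c⁻¹ := h.trans hcJ.symm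
      exact hxJ (mul_left_cancel (mul_right_cancel h'))
    · have hxJc : x * J = J * x := hcomm x hxP J hJ
      show c * x * c⁻¹ * J = J * (c * x * c⁻¹)
      calc c * x * c⁻¹ * J = c * x * c⁻¹ * (c * J * c⁻¹) := by rw [hcJ]
        _ = c * (x * J) * c⁻¹ := by group
        _ = c * (J * x) * c⁻¹ := by rw [hxJc]
        _ = (c * J * c⁻¹) * (c * x * c⁻¹) := by group
        _ = J * (c * x * c⁻¹) := by rw [hcJ]
  have hfib : ∀ s ∈ k4A J,
      ((CJ ×ˢ ({a, b} : Finset G)).filter (fun cx => f cx = s)).card = CP.card := by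
    intro s hs
    rw [mem_k4A] at hs
    obtain ⟨hs2, hsJ, hsc⟩ := hs
    obtain ⟨hss, hs1⟩ := k4_invol hs2
    -- a preimage
    have hex : ∃ c₀ x₀, c₀ * J * c₀⁻¹ = J ∧ x₀ ∈ ({a, b} : Finset G) ∧ c₀ * x₀ * c₀⁻¹ = s := by
      have hK := Cfsg.Agent.Helper9.kleinOf_isKleinFour_h9 s J hss hJJ hsc hs1 hJ1 hsJ
      have hQcard : Nat.card (Cfsg.Agent.Helper9.kleinOf_h9 s J hss hJJ hsc)
          = 2 ^ (Nat.card G).factorization 2 := by
        rw [hK.card_four, hfac]
        norm_num
      obtain ⟨g, hg⟩ := MulAction.exists_smul_eq G P (Sylow.ofCard _ hQcard)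
      have hmemQ : ∀ y, y ∈ Cfsg.Agent.Helper9.kleinOf_h9 s J hss hJJ hsc → g⁻¹ * y * g ∈ (P : Subgroup G) := by
        intro y hy
        have h1 : y ∈ g • P := by
          rw [hg]
          exact hy
        rwa [sc_mem_smul_sylow_iff] at h1
      have hJg : g⁻¹ * J * g ∈ (P : Subgroup G) :=
        hmemQ J ((Cfsg.Agent.Helper9.mem_kleinOf_h9 s J hss hJJ hsc J).mpr (Or.inr (Or.inr (Or.inl rfl))))
      have hsg : g⁻¹ * s * g ∈ (P : Subgroup G) :=
        hmemQ s ((Cfsg.Agent.Helper9.mem_kleinOf_h9 s J hss hJJ hsc s).mpr (Or.inr (Or.inl rfl)))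
      have hJg1 : g⁻¹ * J * g ≠ 1 := by
        intro h
        apply hJ1
        have : J = g * (g⁻¹ * J * g) * g⁻¹ := by group
        rw [this, h]
        group
      obtain ⟨n, hn, hnJ⟩ := hT _ hJg hJg1
      have hcJ : (g * n) * J * (g * n)⁻¹ = J := by
        have e : g * n * J * (g * n)⁻¹ = g * (n * J * n⁻¹) * g⁻¹ := by group
        rw [e, hnJ]
        group
      have hx₀P : (g * n)⁻¹ * s * (g * n) ∈ (P : Subgroup G) := by
        have e : (g * n)⁻¹ * s * (g * n) = n⁻¹ * (g⁻¹ * s * g) * n⁻¹⁻¹ := by group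
        rw [e]
        exact (Subgroup.mem_normalizer_iff.mp (Subgroup.inv_mem _ hn) _).mp hsg
      have hx₀1 : (g * n)⁻¹ * s * (g * n) ≠ 1 := by
        intro h
        apply hs1
        have : s = (g * n) * ((g * n)⁻¹ * s * (g * n)) * (g * n)⁻¹ := by group
        rw [this, h]
        group
      have hx₀J : (g * n)⁻¹ * s * (g * n) ≠ J := by
        intro h
        apply hsJ
        have : s = (g * n) * ((g * n)⁻¹ * s * (g * n)) * (g * n)⁻¹ := by group
        rw [this, h]
        exact hcJ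
      refine ⟨g * n, (g * n)⁻¹ * s * (g * n), hcJ, ?_, by group⟩
      rw [Finset.mem_insert, Finset.mem_singleton]
      rcases henum _ hx₀P with h | h | h | h
      · exact absurd h hx₀1
      · exact absurd h hx₀J
      · left; exact h
      · right; rw [h, hb]
    obtain ⟨c₀, x₀, hc₀J, hx₀, hc₀s⟩ := hex
    obtain ⟨hx₀P, hx₀1, hx₀J, hx₀pair⟩ := hpair x₀ hx₀
    symm
    apply Finset.card_bij (fun d _ => (c₀ * d, x₀))
    · intro d hd
      rw [Finset.mem_filter, Finset.mem_product]
      have hdC := (hmemCP d).mp hd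
      have hdJ : J * d = d * J := Subgroup.mem_centralizer_iff.mp hdC J hJ
      have hdx : x₀ * d = d * x₀ := Subgroup.mem_centralizer_iff.mp hdC x₀ hx₀P
      refine ⟨⟨?_, hx₀⟩, ?_⟩
      · rw [hmemCJ]
        have e : c₀ * d * J * (c₀ * d)⁻¹ = c₀ * ((d * J) * d⁻¹) * c₀⁻¹ := by group
        rw [e, ← hdJ, mul_inv_cancel_right, hc₀J]
      · rw [hf]
        show c₀ * d * x₀ * (c₀ * d)⁻¹ = s
        have e : c₀ * d * x₀ * (c₀ * d)⁻¹ = c₀ * ((d * x₀) * d⁻¹) * c₀⁻¹ := by group
        rw [e, ← hdx, mul_inv_cancel_right, hc₀s]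
    · intro d₁ _ d₂ _ h
      have h1 := congrArg Prod.fst h
      exact mul_left_cancel h1
    · rintro ⟨c, x⟩ hcx
      rw [Finset.mem_filter, Finset.mem_product] at hcx
      obtain ⟨⟨hc, hx⟩, hfcx⟩ := hcx
      rw [hf] at hfcx
      have hfcx' : c * x * c⁻¹ = s := hfcx
      have hcJ := (hmemCJ c).mp hc
      obtain ⟨hxP, hx1, hxJ, hxpair⟩ := hpair x hx
      have hdJ : (c₀⁻¹ * c) * J * (c₀⁻¹ * c)⁻¹ = J := by
        have e : c₀⁻¹ * c * J * (c₀⁻¹ * c)⁻¹ = c₀⁻¹ * (c * J * c⁻¹) * c₀ := by group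
        rw [e, hcJ]
        have e2 : c₀⁻¹ * J * c₀ = c₀⁻¹ * (c₀ * J * c₀⁻¹) * c₀ := by rw [hc₀J]
        rw [e2]
        group
      have hdx : (c₀⁻¹ * c) * x * (c₀⁻¹ * c)⁻¹ = x₀ := by
        have e : c₀⁻¹ * c * x * (c₀⁻¹ * c)⁻¹ = c₀⁻¹ * (c * x * c⁻¹) * c₀ := by group
        rw [e, hfcx', ← hc₀s]
        group
      obtain ⟨hxx, hdC⟩ := key (c₀⁻¹ * c) x x₀ hdJ hxP hx1 hxJ (hxpair x₀ hx₀) hdx
      refine ⟨c₀⁻¹ * c, (hmemCP _).mpr hdC, ?_⟩
      rw [hxx, mul_inv_cancel_left]
  have h1 := Finset.card_eq_sum_card_fiberwise (f := f) (s := CJ ×ˢ ({a, b} : Finset G))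
    (t := k4A J) (fun x hx => hmaps x hx)
  rw [Finset.sum_congr rfl hfib, Finset.sum_const, smul_eq_mul, Finset.card_product,
    Finset.card_pair hab, hCJcard, hCPcard] at h1
  linarith

/-- conjugation invariance of `k4A` -/
theorem k4_card_A_conj (J g : G) : (k4A (g * J * g⁻¹)).card = (k4A J).card := by
  apply Finset.card_bij' (fun s _ => g⁻¹ * s * g) (fun s _ => g * s * g⁻¹)
  · intro s hs
    rw [mem_k4A] at hs
    obtain ⟨h1, h2, h3⟩ := hs
    show g⁻¹ * s * g ∈ k4A J
    rw [mem_k4A]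
    refine ⟨?_, ?_, ?_⟩
    · rw [Cfsg.Agent.Helper9.orderOf_conj_eq'_h9]
      exact h1
    · intro h
      apply h2
      have : s = g * (g⁻¹ * s * g) * g⁻¹ := by group
      rw [this, h]
    · calc g⁻¹ * s * g * J = g⁻¹ * (s * (g * J * g⁻¹)) * g := by group
        _ = g⁻¹ * ((g * J * g⁻¹) * s) * g := by rw [h3]
        _ = J * (g⁻¹ * s * g) := by group
  · intro s hs
    rw [mem_k4A] at hs
    obtain ⟨h1, h2, h3⟩ := hs
    show g * s * g⁻¹ ∈ k4A (g * J * g⁻¹)
    rw [mem_k4A]
    refine ⟨?_, ?_, ?_⟩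
    · rw [Cfsg.Agent.Helper9.orderOf_conj_eq_h9]
      exact h1
    · intro h
      apply h2
      exact mul_left_cancel (mul_right_cancel h)
    · calc g * s * g⁻¹ * (g * J * g⁻¹) = g * (s * J) * g⁻¹ := by group
        _ = g * (J * s) * g⁻¹ := by rw [h3]
        _ = g * J * g⁻¹ * (g * s * g⁻¹) := by group
  · intro s _
    show g * (g⁻¹ * s * g) * g⁻¹ = s
    group
  · intro s _
    show g⁻¹ * (g * s * g⁻¹) * g = s
    group

/-- the unique involution of a cyclic group -/
theorem k4_unique_invol (w z : G) (hz : orderOf z = 2) (hzw : z ∈ Subgroup.zpowers w) :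
    2 ∣ orderOf w ∧ z = w ^ (orderOf w / 2) := by
  have h2 : 2 ∣ orderOf w := by
    have := orderOf_dvd_of_mem_zpowers hzw
    rwa [hz] at this
  refine ⟨h2, ?_⟩
  obtain ⟨hzz, hz1⟩ := k4_invol hz
  have hfin : IsOfFinOrder w := isOfFinOrder_of_finite w
  obtain ⟨i, hi⟩ := (hfin.mem_powers_iff_mem_zpowers).mpr hzw
  have hi' : w ^ i = z := hi
  obtain ⟨m, hm⟩ := h2
  have h3 : orderOf w ∣ i * 2 := by
    apply orderOf_dvd_of_pow_eq_one
    rw [pow_mul, pow_two, hi']
    exact hzz
  have h4 : ¬ orderOf w ∣ i := by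
    intro h
    apply hz1
    rw [← hi']
    exact orderOf_dvd_iff_pow_eq_one.mp h
  have h5 : m ∣ i := by
    rw [hm] at h3
    have : m * 2 ∣ i * 2 := by rwa [mul_comm] at h3
    exact (Nat.mul_dvd_mul_iff_right (by norm_num)).mp this
  obtain ⟨j, hj⟩ := h5
  have hjodd : ¬ 2 ∣ j := by
    rintro ⟨l, hl⟩
    apply h4
    rw [hm, hj, hl]
    exact ⟨l, by ring⟩
  have hdiv : orderOf w / 2 = m := by
    rw [hm]
    exact Nat.mul_div_cancel_left m (by norm_num)
  rw [hdiv, ← hi', hj]
  obtain ⟨l, hl⟩ : ∃ l, j = 2 * l + 1 := ⟨j / 2, by omega⟩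
  rw [hl]
  have e : m * (2 * l + 1) = (2 * m) * l + m := by ring
  rw [e, pow_add, pow_mul, ← hm, pow_orderOf_eq_one, one_pow, one_mul]

/-- involutions invert their product -/
theorem k4_invert (s t : G) (hs : s * s = 1) (ht : t * t = 1) (k : ℕ) :
    s * (s * t) ^ k = ((s * t) ^ k)⁻¹ * s ∧ t * (s * t) ^ k = ((s * t) ^ k)⁻¹ * t := by
  have hsi : s⁻¹ = s := inv_eq_of_mul_eq_one_left hs
  have hti : t⁻¹ = t := inv_eq_of_mul_eq_one_left ht
  have e1 : s * (s * t) = t := by rw [← mul_assoc, hs, one_mul]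
  have e2 : (s * t)⁻¹ * s = t := by rw [mul_inv_rev, hsi, hti, mul_assoc, hs, mul_one]
  have e3 : (s * t)⁻¹ * t = t * (s * t) := by rw [mul_inv_rev, hsi, hti, mul_assoc]
  have h1 : SemiconjBy s (s * t) (s * t)⁻¹ := by
    show s * (s * t) = (s * t)⁻¹ * s
    rw [e1, e2]
  have h2 : SemiconjBy t (s * t) (s * t)⁻¹ := by
    show t * (s * t) = (s * t)⁻¹ * t
    rw [e3]
  refine ⟨?_, ?_⟩
  · have := h1.pow_right k
    rw [inv_pow] at this
    exact this
  · have := h2.pow_right k
    rw [inv_pow] at this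
    exact this

/-- an involution commuting with the commuting involutions `s ≠ z` lies in `{s, z, s z}` -/
theorem k4_mem_four (hfac : (Nat.card G).factorization 2 = 2) (s z y : G) (hs : orderOf s = 2)
    (hz : orderOf z = 2) (hsz : s ≠ z) (hc : s * z = z * s) (hy : y * y = 1)
    (hys : y * s = s * y) (hyz : y * z = z * y) :
    y = 1 ∨ y = s ∨ y = z ∨ y = s * z := by
  haveI : Fact (Nat.Prime 2) := ⟨Nat.prime_two⟩
  obtain ⟨hss, hs1⟩ := k4_invol hs
  obtain ⟨hzz, hz1⟩ := k4_invol hz
  have hK := Cfsg.Agent.Helper9.kleinOf_isKleinFour_h9 s z hss hzz hc hs1 hz1 hsz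
  have hQcard : Nat.card (Cfsg.Agent.Helper9.kleinOf_h9 s z hss hzz hc)
      = 2 ^ (Nat.card G).factorization 2 := by
    rw [hK.card_four, hfac]
    norm_num
  have hmem : y ∈ ((Sylow.ofCard _ hQcard : Sylow 2 G) : Subgroup G) := by
    apply k4_mem_of_normalizer _ y _ 1 (by rw [pow_one, pow_two]; exact hy)
    apply Subgroup.centralizer_le_normalizer
    rw [Subgroup.mem_centralizer_iff]
    intro h hh
    have hh' : h ∈ Cfsg.Agent.Helper9.kleinOf_h9 s z hss hzz hc := hh
    rcases (Cfsg.Agent.Helper9.mem_kleinOf_h9 s z hss hzz hc h).mp hh' with h0 | h0 | h0 | h0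
    · rw [h0, one_mul, mul_one]
    · rw [h0]; exact hys.symm
    · rw [h0]; exact hyz.symm
    · rw [h0]
      calc s * z * y = s * (z * y) := by group
        _ = s * (y * z) := by rw [hyz]
        _ = (s * y) * z := by group
        _ = (y * s) * z := by rw [hys]
        _ = y * (s * z) := by group
  exact (Cfsg.Agent.Helper9.mem_kleinOf_h9 s z hss hzz hc y).mp hmem

/-- for `s, t ∈ k4A z`, exactly one of `s t`, `s t z` generates a cyclic group containing `z` -/
theorem k4_xor (P : Sylow 2 G) (hfac : (Nat.card G).factorization 2 = 2)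
    (hsq : ∀ a ∈ (P : Subgroup G), a * a = 1) (z s t : G) (hz : orderOf z = 2)
    (hs : s ∈ k4A z) (ht : t ∈ k4A z) :
    z ∈ Subgroup.zpowers (s * t) ↔ ¬ z ∈ Subgroup.zpowers (s * (t * z)) := by
  rw [mem_k4A] at hs ht
  obtain ⟨hs2, hsz, hsc⟩ := hs
  obtain ⟨ht2, htz, htc⟩ := ht
  obtain ⟨hss, hs1⟩ := k4_invol hs2
  obtain ⟨htt, ht1⟩ := k4_invol ht2
  obtain ⟨hzz, hz1⟩ := k4_invol hz
  obtain ⟨w, hw⟩ : ∃ w, w = s * t := ⟨_, rfl⟩
  have hwz : w * z = z * w := by
    calc w * z = s * (t * z) := by rw [hw, mul_assoc]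
      _ = s * (z * t) := by rw [htc]
      _ = (s * z) * t := by rw [mul_assoc]
      _ = (z * s) * t := by rw [hsc]
      _ = z * w := by rw [hw, mul_assoc]
  have e : s * (t * z) = w * z := by rw [hw, mul_assoc]
  rw [e, ← hw]
  have hzpow : ∀ k : ℕ, ¬ 2 ∣ k → z ^ k = z := by
    intro k hk
    obtain ⟨l, hl⟩ : ∃ l, k = 2 * l + 1 := ⟨k / 2, by omega⟩
    rw [hl, pow_succ, pow_mul, pow_two, hzz, one_pow, one_mul]
  by_cases hpar : 2 ∣ orderOf w
  · obtain ⟨m, hm⟩ := hpar
    have hm0 : 0 < m := by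
      have := orderOf_pos w
      omega
    obtain ⟨y, hy⟩ : ∃ y, y = w ^ m := ⟨_, rfl⟩
    have hyy : y * y = 1 := by
      rw [hy, ← pow_add, ← two_mul, ← hm, pow_orderOf_eq_one]
    have hy1 : y ≠ 1 := by
      rw [hy]
      apply pow_ne_one_of_lt_orderOf hm0.ne'
      omega
    have hyi : y⁻¹ = y := inv_eq_of_mul_eq_one_left hyy
    have hinv := k4_invert s t hss htt m
    rw [← hw, ← hy, hyi] at hinv
    have hyz : y * z = z * y := by
      rw [hy]
      exact ((Commute.pow_left (show Commute w z from hwz) m)).eq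
    have hm1 := k4_mem_four hfac s z y hs2 hz hsz hsc hyy hinv.1.symm hyz
    have hm2 := k4_mem_four hfac t z y ht2 hz htz htc hyy hinv.2.symm hyz
    have hyz' : y = z := by
      by_cases hwz' : w = z
      · have ho : orderOf w = 2 := by rw [hwz']; exact hz
        have hm1' : m = 1 := by omega
        rw [hy, hm1', pow_one, hwz']
      · have hst : s ≠ t := by
          intro h
          apply hy1
          rw [hy, hw, h, htt, one_pow]
        have h1 : s ≠ t * z := by
          intro h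
          apply hwz'
          rw [hw, h, mul_assoc, ← htc, ← mul_assoc, htt, one_mul]
        have h2 : s * z ≠ t := by
          intro h
          apply hwz'
          rw [hw, ← h, ← mul_assoc, hss, one_mul]
        rcases hm1 with h | h | h | h
        · exact absurd h hy1
        · rcases hm2 with h' | h' | h' | h'
          · exact absurd h' hy1
          · exact absurd (h.symm.trans h') hst
          · exact h'
          · exact absurd (h.symm.trans h') h1
        · exact h
        · rcases hm2 with h' | h' | h' | h'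
          · exact absurd h' hy1
          · exact absurd (h.symm.trans h') h2
          · exact h'
          · exfalso
            exact hst (mul_right_cancel (h.symm.trans h'))
    have hmodd : ¬ 2 ∣ m := by
      rintro ⟨l, hl⟩
      apply hy1
      have h4 : (w ^ l) ^ (2 ^ 2) = 1 := by
        rw [← pow_mul]
        have : l * 2 ^ 2 = orderOf w := by rw [hm, hl]; ring
        rw [this, pow_orderOf_eq_one]
      have h5 := k4_sq_of_two_elt P hsq (w ^ l) 2 h4
      rw [hy, hl, two_mul, pow_add]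
      exact h5
    constructor
    · intro _ hcon
      have h6 : (w * z) ^ m = 1 := by
        rw [(show Commute w z from hwz).mul_pow, ← hy, hzpow m hmodd, hyz', hzz]
      have h7 : orderOf (w * z) ∣ m := orderOf_dvd_of_pow_eq_one h6
      have h8 := orderOf_dvd_of_mem_zpowers hcon
      rw [hz] at h8
      exact hmodd (h8.trans h7)
    · intro _
      rw [← hyz', hy]
      exact Subgroup.pow_mem _ (Subgroup.mem_zpowers w) m
  · constructor
    · intro h
      exfalso
      have := orderOf_dvd_of_mem_zpowers h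
      rw [hz] at this
      exact hpar this
    · intro h
      exfalso
      apply h
      have h6 : (w * z) ^ orderOf w = z := by
        rw [(show Commute w z from hwz).mul_pow, pow_orderOf_eq_one, one_mul, hzpow _ hpar]
      have h7 : (w * z) ^ orderOf w ∈ Subgroup.zpowers (w * z) :=
        Subgroup.pow_mem (Subgroup.zpowers (w * z)) (Subgroup.mem_zpowers (w * z)) _
      rw [h6] at h7
      exact h7

open Classical in
/-- pairs `(s, t)` in `k4A z` with `z ∈ ⟨s t⟩` -/
noncomputable def k4T (z : G) : Finset (G × G) :=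
  (k4A z ×ˢ k4A z).filter (fun st => z ∈ Subgroup.zpowers (st.1 * st.2))

theorem mem_k4T (z s t : G) :
    (s, t) ∈ k4T z ↔ s ∈ k4A z ∧ t ∈ k4A z ∧ z ∈ Subgroup.zpowers (s * t) := by
  unfold k4T
  rw [Finset.mem_filter, Finset.mem_product, and_assoc]

theorem k4_card_T (P : Sylow 2 G) (hfac : (Nat.card G).factorization 2 = 2)
    (hsq : ∀ a ∈ (P : Subgroup G), a * a = 1) (z : G) (hz : orderOf z = 2) :
    2 * (k4T z).card = (k4A z).card ^ 2 := by
  classical
  have hsub : k4T z ⊆ k4A z ×ˢ k4A z := by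
    rintro ⟨s, t⟩ hst
    rw [mem_k4T] at hst
    exact Finset.mem_product.mpr ⟨hst.1, hst.2.1⟩
  obtain ⟨hzz, hz1⟩ := k4_invol hz
  have hmulz : ∀ t ∈ k4A z, t * z ∈ k4A z := by
    intro t ht
    rw [mem_k4A] at ht ⊢
    obtain ⟨ht2, htz, htc⟩ := ht
    obtain ⟨htt, ht1⟩ := k4_invol ht2
    refine ⟨?_, ?_, ?_⟩
    · apply k4_orderOf_two
      · calc t * z * (t * z) = t * (z * t) * z := by group
          _ = t * (t * z) * z := by rw [htc]
          _ = (t * t) * (z * z) := by group
          _ = 1 := by rw [htt, hzz, one_mul]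
      · intro h
        apply htz
        calc t = t * (z * z) := by rw [hzz, mul_one]
          _ = (t * z) * z := by group
          _ = z := by rw [h, one_mul]
    · intro h
      apply ht1
      exact mul_right_cancel (h.trans (one_mul z).symm)
    · calc t * z * z = t * (z * z) := by group
        _ = (z * z) * t := by rw [hzz, mul_one, one_mul]
        _ = z * (z * t) := by group
        _ = z * (t * z) := by rw [htc]
  have hbij : (k4T z).card = ((k4A z ×ˢ k4A z) \ k4T z).card := by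
    apply Finset.card_bij (fun st _ => (st.1, st.2 * z))
    · rintro ⟨s, t⟩ hst
      rw [mem_k4T] at hst
      obtain ⟨hs, ht, hmem⟩ := hst
      show (s, t * z) ∈ (k4A z ×ˢ k4A z) \ k4T z
      rw [Finset.mem_sdiff, Finset.mem_product, mem_k4T]
      refine ⟨⟨hs, hmulz t ht⟩, ?_⟩
      rintro ⟨-, -, h⟩
      exact (k4_xor P hfac hsq z s t hz hs ht).mp hmem h
    · rintro ⟨s₁, t₁⟩ _ ⟨s₂, t₂⟩ _ h
      have h1 : s₁ = s₂ := congrArg Prod.fst h
      have h2 : t₁ * z = t₂ * z := congrArg Prod.snd h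
      rw [h1, mul_right_cancel h2]
    · rintro ⟨s, t⟩ hst
      rw [Finset.mem_sdiff, Finset.mem_product] at hst
      obtain ⟨⟨hs, ht⟩, hnot⟩ := hst
      have htz := hmulz t ht
      have e : t * z * z = t := by rw [mul_assoc, hzz, mul_one]
      refine ⟨(s, t * z), ?_, ?_⟩
      · rw [mem_k4T]
        refine ⟨hs, htz, ?_⟩
        by_contra hcon
        apply hnot
        rw [mem_k4T]
        exact ⟨hs, ht, (k4_xor P hfac hsq z s t hz hs ht).mpr hcon⟩
      · show (s, t * z * z) = (s, t)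
        rw [e]
  have h1 := Finset.card_sdiff_of_subset hsub
  have h2 : (k4A z ×ˢ k4A z).card = (k4A z).card ^ 2 := by rw [Finset.card_product, sq]
  have h3 := Finset.card_le_card hsub
  omega

theorem k4_mem_A_of_mem_zpowers (s t z : G) (hs : orderOf s = 2) (ht : orderOf t = 2)
    (hz : orderOf z = 2) (hzw : z ∈ Subgroup.zpowers (s * t)) : s ∈ k4A z ∧ t ∈ k4A z := by
  obtain ⟨hss, hs1⟩ := k4_invol hs
  obtain ⟨htt, ht1⟩ := k4_invol ht
  obtain ⟨hzz, hz1⟩ := k4_invol hz
  obtain ⟨h2, hzeq⟩ := k4_unique_invol (s * t) z hz hzw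
  have hzi : z⁻¹ = z := inv_eq_of_mul_eq_one_left hzz
  have hinv := k4_invert s t hss htt (orderOf (s * t) / 2)
  rw [← hzeq, hzi] at hinv
  have hcomm_w : z * (s * t) = (s * t) * z := by
    rw [hzeq]
    exact (Commute.pow_self (s * t) _).eq
  have hcase : s * t = t * s → z = s * t := by
    intro hst
    have hw2 : (s * t) * (s * t) = 1 := by
      calc s * t * (s * t) = s * (t * s) * t := by group
        _ = s * (s * t) * t := by rw [hst]
        _ = (s * s) * (t * t) := by group
        _ = 1 := by rw [hss, htt, one_mul]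
    have ho : orderOf (s * t) = 2 := by
      have h3 : orderOf (s * t) ∣ 2 := orderOf_dvd_of_pow_eq_one (by rw [pow_two]; exact hw2)
      have h4 := Nat.le_of_dvd (by norm_num) h3
      have h5 := Nat.le_of_dvd (orderOf_pos _) h2
      omega
    rw [hzeq, ho]
    norm_num
  refine ⟨(mem_k4A z s).mpr ⟨hs, ?_, hinv.1⟩, (mem_k4A z t).mpr ⟨ht, ?_, hinv.2⟩⟩
  · intro h
    rw [← h] at hcomm_w
    have hst : s * t = t * s := by
      have h' : t = s * t * s := by
        calc t = (s * s) * t := by rw [hss, one_mul]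
          _ = s * (s * t) := by group
          _ = s * t * s := hcomm_w
      calc s * t = s * (s * t * s) := by rw [← h']
        _ = (s * s) * (t * s) := by group
        _ = t * s := by rw [hss, one_mul]
    have h3 := hcase hst
    rw [← h] at h3
    exact ht1 (mul_left_cancel (h3.symm.trans (mul_one s).symm))
  · intro h
    rw [← h] at hcomm_w
    have hst : s * t = t * s := by
      have h1 : t * (s * t) = s := by rw [hcomm_w, mul_assoc, htt, mul_one]
      calc s * t = (t * (s * t)) * t := by rw [h1]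
        _ = t * s * (t * t) := by group
        _ = t * s := by rw [htt, mul_one]
    have h3 := hcase hst
    rw [← h] at h3
    exact hs1 (mul_right_cancel (h3.symm.trans (one_mul t).symm))

/-- pairs of involutions with even-order product, fibred over the involution they determine -/
theorem k4_card_E :
    ((Finset.univ.filter (fun s : G => orderOf s = 2) ×ˢ
        Finset.univ.filter (fun s : G => orderOf s = 2)).filter
        (fun st => 2 ∣ orderOf (st.1 * st.2))).card
      = ∑ z ∈ Finset.univ.filter (fun s : G => orderOf s = 2), (k4T z).card := by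
  classical
  have hdisj : ((Finset.univ.filter (fun s : G => orderOf s = 2) : Finset G) : Set G).PairwiseDisjoint
      k4T := by
    intro z hz z' hz' hne
    rw [Function.onFun, Finset.disjoint_left]
    rintro ⟨s, t⟩ h1 h2
    rw [mem_k4T] at h1 h2
    apply hne
    rw [Finset.mem_coe, Finset.mem_filter] at hz hz'
    rw [(k4_unique_invol (s * t) z hz.2 h1.2.2).2, (k4_unique_invol (s * t) z' hz'.2 h2.2.2).2]
  rw [← Finset.card_biUnion hdisj]
  congr 1
  ext ⟨s, t⟩
  rw [Finset.mem_filter, Finset.mem_product, Finset.mem_filter, Finset.mem_filter,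
    Finset.mem_biUnion]
  constructor
  · rintro ⟨⟨⟨-, hs⟩, ⟨-, ht⟩⟩, h2⟩
    have h2' : 2 ∣ orderOf (s * t) := h2
    have hz : orderOf ((s * t) ^ (orderOf (s * t) / 2)) = 2 :=
      orderOf_pow_orderOf_div (orderOf_pos _).ne' h2'
    refine ⟨(s * t) ^ (orderOf (s * t) / 2), Finset.mem_filter.mpr ⟨Finset.mem_univ _, hz⟩, ?_⟩
    have hmem : (s * t) ^ (orderOf (s * t) / 2) ∈ Subgroup.zpowers (s * t) :=
      Subgroup.pow_mem (Subgroup.zpowers (s * t)) (Subgroup.mem_zpowers (s * t)) _
    obtain ⟨h3, h4⟩ := k4_mem_A_of_mem_zpowers s t _ hs ht hz hmem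
    exact (mem_k4T _ s t).mpr ⟨h3, h4, hmem⟩
  · rintro ⟨z, hz, hst⟩
    rw [Finset.mem_filter] at hz
    rw [mem_k4T] at hst
    obtain ⟨hs, ht, hmem⟩ := hst
    rw [mem_k4A] at hs ht
    refine ⟨⟨⟨Finset.mem_univ _, hs.1⟩, ⟨Finset.mem_univ _, ht.1⟩⟩, ?_⟩
    exact (k4_unique_invol (s * t) z hz.2 hmem).1

/-- the counting identities in a group of order `4 g₀` without normal 2-complement -/
theorem k4_count (g₀ : ℕ) (hg₀ : Odd g₀) (hG : Nat.card G = 4 * g₀)
    (hnc : ¬ ∃ N : Subgroup G, N.Normal ∧ Nat.card N = g₀) (P : Sylow 2 G) (J : G)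
    (hJ : J ∈ (P : Subgroup G)) (hJ2 : orderOf J = 2) :
    (Finset.univ.filter (fun s : G => orderOf s = 2)).card
        * Nat.card (Subgroup.centralizer ({J} : Set G)) = Nat.card G ∧
    ((Finset.univ.filter (fun s : G => orderOf s = 2) ×ˢ
        Finset.univ.filter (fun s : G => orderOf s = 2)).filter
        (fun st => 2 ∣ orderOf (st.1 * st.2))).card
        * Nat.card (Subgroup.centralizer ((P : Subgroup G) : Set G)) ^ 2
      = 2 * Nat.card G * Nat.card (Subgroup.centralizer ({J} : Set G)) := by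
  classical
  obtain ⟨hfac, hcard, hsq, hNC⟩ := k4_of_no_complement g₀ hg₀ hG hnc P
  obtain ⟨hJJ, hJ1⟩ := k4_invol hJ2
  have hT := k4_trans P hcard hsq hNC J hJ hJ1
  have hconj := k4_conj P J hT
  have hcl := Cfsg.Agent.Helper9.card_conj_mul_centralizer_h9 J
  have hI : Nat.card {x : G // IsConj J x}
      = (Finset.univ.filter (fun s : G => orderOf s = 2)).card := by
    rw [Nat.card_eq_fintype_card, Fintype.card_subtype]
    congr 1
    ext x
    simp only [Finset.mem_filter, Finset.mem_univ, true_and]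
    constructor
    · intro h
      obtain ⟨c, hc⟩ := isConj_iff.mp h
      rw [← hc, Cfsg.Agent.Helper9.orderOf_conj_eq_h9]
      exact hJ2
    · intro h
      obtain ⟨g, hg⟩ := hconj x h
      exact isConj_iff.mpr ⟨g, hg⟩
  rw [hI] at hcl
  refine ⟨hcl, ?_⟩
  rw [k4_card_E]
  have hA := k4_card_A P hfac hcard hsq hNC J hJ hJ1
  have hTz : ∀ z ∈ Finset.univ.filter (fun s : G => orderOf s = 2),
      2 * (k4T z).card = (k4A J).card ^ 2 := by
    intro z hz
    rw [Finset.mem_filter] at hz
    obtain ⟨g, hg⟩ := hconj z hz.2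
    rw [k4_card_T P hfac hsq z hz.2, ← hg, k4_card_A_conj]
  have hsum : 2 * ∑ z ∈ Finset.univ.filter (fun s : G => orderOf s = 2), (k4T z).card
      = (Finset.univ.filter (fun s : G => orderOf s = 2)).card * (k4A J).card ^ 2 := by
    rw [Finset.mul_sum, Finset.sum_congr rfl hTz, Finset.sum_const, smul_eq_mul]
  have key : 2 * ((∑ z ∈ Finset.univ.filter (fun s : G => orderOf s = 2), (k4T z).card)
      * Nat.card (Subgroup.centralizer ((P : Subgroup G) : Set G)) ^ 2)
      = 2 * (2 * Nat.card G * Nat.card (Subgroup.centralizer ({J} : Set G))) := by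
    calc 2 * ((∑ z ∈ Finset.univ.filter (fun s : G => orderOf s = 2), (k4T z).card)
          * Nat.card (Subgroup.centralizer ((P : Subgroup G) : Set G)) ^ 2)
        = (2 * ∑ z ∈ Finset.univ.filter (fun s : G => orderOf s = 2), (k4T z).card)
          * Nat.card (Subgroup.centralizer ((P : Subgroup G) : Set G)) ^ 2 := by ring
      _ = (Finset.univ.filter (fun s : G => orderOf s = 2)).card * (k4A J).card ^ 2
          * Nat.card (Subgroup.centralizer ((P : Subgroup G) : Set G)) ^ 2 := by rw [hsum]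
      _ = (Finset.univ.filter (fun s : G => orderOf s = 2)).card
          * (Nat.card (Subgroup.centralizer ((P : Subgroup G) : Set G)) * (k4A J).card) ^ 2 := by
        ring
      _ = (Finset.univ.filter (fun s : G => orderOf s = 2)).card
          * (2 * Nat.card (Subgroup.centralizer ({J} : Set G))) ^ 2 := by rw [hA]
      _ = 2 * (2 * ((Finset.univ.filter (fun s : G => orderOf s = 2)).card
          * Nat.card (Subgroup.centralizer ({J} : Set G)))
          * Nat.card (Subgroup.centralizer ({J} : Set G))) := by ring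
      _ = 2 * (2 * Nat.card G * Nat.card (Subgroup.centralizer ({J} : Set G))) := by rw [hcl]
  exact Nat.eq_of_mul_eq_mul_left (by norm_num) key

end count

end Cfsg.Agent.Helper24
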