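import Mathlib
import Cfsg.Agent.Helper24.Klein4
import Cfsg.Agent.Helper7.KleinBlock
import Cfsg.Agent.Helper7.SectionSum
import Cfsg.Agent.Helper25.BlockIdem
import Cfsg.Agent.Helper25.BlockOrth

/-!
# Principal 2-block `{1, χ₁, χ₂, χ₃}` with Klein four Sylow 2-subgroups (helper24)

* `k4_section_const`: a character of the principal 2-block is constant on `u · (odd elements of
  C(u))` for an involution `u`.
* `k4_theta`: `1 + ε₁χ₁ + ε₂χ₂ + ε₃χ₃` is `4` on elements of even order and `0` on odd order.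
* `k4_class_sum`: `∑_{s,t involutions} ψ(st) = |I|² ψ(J)² / ψ(1)`.
-/

set_option autoImplicit false

namespace Cfsg.Agent.Helper24

open Cfsg Cfsg.Agent.Helper25 Cfsg.Agent.Helper7

universe u

variable {G : Type u} [Group G]

/-- values of principal block characters on the 2-section of an involution -/
theorem k4_section_const [Finite G] {M : Ideal AlgInt} (hM : IsPModular 2 M) (P : Sylow 2 G)
    (hfac : (Nat.card G).factorization 2 = 2)
    (hsq : ∀ a ∈ (P : Subgroup G), a * a = 1)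
    (u : G) (hu : orderOf u = 2) (χ : IrrCharacter G) (hχ : χ ∈ principalBlock M G)
    (y : G) (hyu : y * u = u * y) (hy : ¬ 2 ∣ orderOf y) :
    (χ : G → ℂ) (u * y) = (χ : G → ℂ) u := by
  classical
  haveI : Fact (Nat.Prime 2) := ⟨Nat.prime_two⟩
  haveI := Fintype.ofFinite G
  obtain ⟨huu, hu1⟩ := k4_invol hu
  have hpu : IsPGroup 2 (Subgroup.zpowers u) :=
    IsPGroup.of_card (n := 1) (by rw [Nat.card_zpowers, hu, pow_one])
  obtain ⟨P', hP'⟩ := hpu.exists_le_sylow
  have huP' : u ∈ (P' : Subgroup G) := hP' (Subgroup.mem_zpowers u)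
  have hcardP' : Nat.card (P' : Subgroup G) = 4 := by
    rw [P'.card_eq_multiplicity, hfac]
    norm_num
  have hsqP' : ∀ a ∈ (P' : Subgroup G), a * a = 1 := by
    intro a ha
    apply k4_sq_of_two_elt P hsq a 2
    have h := orderOf_dvd_natCard (⟨a, ha⟩ : (P' : Subgroup G))
    rw [Subgroup.orderOf_mk, hcardP'] at h
    have h4 : a ^ 4 = 1 := orderOf_dvd_iff_pow_eq_one.mp h
    have e : (2 : ℕ) ^ 2 = 4 := by norm_num
    rw [e]
    exact h4
  have hcomm := k4_comm (P' : Subgroup G) hsqP'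
  have hPle : (P' : Subgroup G) ≤ Subgroup.centralizer ({u} : Set G) := by
    intro a ha
    rw [Subgroup.mem_centralizer_iff]
    intro w hw
    rw [Set.mem_singleton_iff.mp hw]
    exact hcomm u huP' a ha
  have huH : u ∈ Subgroup.centralizer ({u} : Set G) := hPle huP'
  have hcardQ : Nat.card ((P' : Subgroup G).subgroupOf (Subgroup.centralizer ({u} : Set G)))
      = 4 :=
    (Nat.card_congr (Subgroup.subgroupOfEquivOfLe hPle).toEquiv).trans hcardP'
  have hfacH : (Nat.card (Subgroup.centralizer ({u} : Set G))).factorization 2 = 2 := by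
    apply le_antisymm
    · have hd : Nat.card (Subgroup.centralizer ({u} : Set G)) ∣ Nat.card G :=
        Subgroup.card_subgroup_dvd_card _
      have h1 := (Nat.factorization_le_iff_dvd Nat.card_pos.ne' Nat.card_pos.ne').mpr hd 2
      rwa [hfac] at h1
    · have hd : 2 ^ 2 ∣ Nat.card (Subgroup.centralizer ({u} : Set G)) := by
        have h1 := Subgroup.card_subgroup_dvd_card
          ((P' : Subgroup G).subgroupOf (Subgroup.centralizer ({u} : Set G)))
        rw [hcardQ] at h1
        exact h1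
      exact (Nat.Prime.pow_dvd_iff_le_factorization Nat.prime_two Nat.card_pos.ne').mp hd
  obtain ⟨Q, hQ⟩ : ∃ Q : Sylow 2 (Subgroup.centralizer ({u} : Set G)),
      (Q : Subgroup (Subgroup.centralizer ({u} : Set G)))
        = (P' : Subgroup G).subgroupOf (Subgroup.centralizer ({u} : Set G)) :=
    ⟨Sylow.ofCard ((P' : Subgroup G).subgroupOf (Subgroup.centralizer ({u} : Set G)))
      (by rw [hcardQ, hfacH]; norm_num), Sylow.coe_ofCard _ _⟩
  obtain ⟨k, hk⟩ := pPrimeCore_index_of_klein_central Q (by rw [hQ]; exact hcardQ)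
    (by
      intro a ha
      have ha' : a ∈ (Q : Subgroup (Subgroup.centralizer ({u} : Set G))) := ha
      rw [hQ] at ha'
      apply Subtype.ext
      exact hsqP' (a : G) (Subgroup.mem_subgroupOf.mp ha'))
    ⟨u, huH⟩
    (by
      show (⟨u, huH⟩ : Subgroup.centralizer ({u} : Set G))
        ∈ (Q : Subgroup (Subgroup.centralizer ({u} : Set G)))
      rw [hQ]
      exact Subgroup.mem_subgroupOf.mpr huP')
    (by
      intro h
      exact hu1 (congrArg (Subtype.val : Subgroup.centralizer ({u} : Set G) → G) h))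
    (by
      intro h
      apply Subtype.ext
      exact (Subgroup.mem_centralizer_iff.mp h.2 u rfl).symm)
  have hyH : y ∈ Subgroup.centralizer ({u} : Set G) := by
    rw [Subgroup.mem_centralizer_iff]
    intro w hw
    rw [Set.mem_singleton_iff.mp hw]
    exact hyu.symm
  obtain ⟨y', hy'⟩ : ∃ y' : Subgroup.centralizer ({u} : Set G), y' = ⟨y, hyH⟩ := ⟨_, rfl⟩
  have hy'ord : ¬ 2 ∣ orderOf y' := by
    rw [hy', Subgroup.orderOf_mk]
    exact hy
  haveI hKn : (pPrimeCore 2 (Subgroup.centralizer ({u} : Set G))).Normal :=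
    Subgroup.sSup_normal _ (fun _ h => h.1)
  have hyK : y' ∈ pPrimeCore 2 (Subgroup.centralizer ({u} : Set G)) := by
    rw [← QuotientGroup.eq_one_iff]
    have h1 : orderOf (QuotientGroup.mk' (pPrimeCore 2 (Subgroup.centralizer ({u} : Set G))) y')
        ∣ orderOf y' := orderOf_map_dvd _ y'
    have h2 : orderOf (QuotientGroup.mk' (pPrimeCore 2 (Subgroup.centralizer ({u} : Set G))) y')
        ∣ 2 ^ k := by
      rw [← hk, Subgroup.index_eq_card]
      exact orderOf_dvd_natCard _
    have h3 : Nat.Coprime (orderOf y') (2 ^ k) :=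
      Nat.Coprime.pow_right k ((Nat.Prime.coprime_iff_not_dvd Nat.prime_two).mpr hy'ord).symm
    have h4 := Nat.eq_one_of_dvd_coprimes h3 h1 h2
    exact orderOf_eq_one_iff.mp h4
  have hconst : ∀ ξ ∈ principalBlock M (Subgroup.centralizer ({u} : Set G)),
      (ξ : Subgroup.centralizer ({u} : Set G) → ℂ) y'
        = (ξ : Subgroup.centralizer ({u} : Set G) → ℂ) 1 := by
    intro ξ hξ
    have hker := (mem_principalBlock_iff_of_pNilpotent hM k hk ξ).mp hξ
    exact (mem_irrKer ξ y').mp (hker hyK)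
  have hbp : blockPart (principalBlock M (Subgroup.centralizer ({u} : Set G)))
        (fun c : Subgroup.centralizer ({u} : Set G) => (χ : G → ℂ) (u * (c : G))) y'
      = blockPart (principalBlock M (Subgroup.centralizer ({u} : Set G)))
        (fun c : Subgroup.centralizer ({u} : Set G) => (χ : G → ℂ) (u * (c : G))) 1 := by
    unfold blockPart
    apply finsum_mem_congr rfl
    intro ξ hξ
    rw [hconst ξ hξ]
  have h1 := section_eq_blockPart_principal hM u 1 (by rw [hu, pow_one]) χ y' hy'ord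
  have h2 := section_eq_blockPart_principal hM u 1 (by rw [hu, pow_one]) χ
    (1 : Subgroup.centralizer ({u} : Set G)) (by rw [orderOf_one]; norm_num)
  rw [if_pos hχ] at h1 h2
  rw [hbp, h2] at h1
  have e1 : ((1 : Subgroup.centralizer ({u} : Set G)) : G) = 1 := rfl
  have e2 : (y' : G) = y := by rw [hy']
  rw [e1, mul_one, e2] at h1
  exact h1.symm

/-- sums over the principal block `{1, χ₁, χ₂, χ₃}` -/
theorem k4_sum_block [Finite G] {M : Ideal AlgInt} (χ₁ χ₂ χ₃ : IrrCharacter G)
    (hB : principalBlock M G = {χ : IrrCharacter G | (χ : G → ℂ) = (fun _ => 1) ∨ χ = χ₁ ∨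
      χ = χ₂ ∨ χ = χ₃})
    (hdist : (χ₁ : G → ℂ) ≠ (fun _ => 1) ∧ (χ₂ : G → ℂ) ≠ (fun _ => 1) ∧
      (χ₃ : G → ℂ) ≠ (fun _ => 1) ∧ χ₁ ≠ χ₂ ∧ χ₁ ≠ χ₃ ∧ χ₂ ≠ χ₃)
    (f : IrrCharacter G → ℂ) :
    ∑ χ ∈ (Set.toFinite (principalBlock M G)).toFinset, f χ
      = f (trivChar G) + f χ₁ + f χ₂ + f χ₃ := by
  classical
  have hset : (Set.toFinite (principalBlock M G)).toFinset = {trivChar G, χ₁, χ₂, χ₃} := by
    ext χ
    rw [Set.Finite.mem_toFinset, hB, Finset.mem_insert, Finset.mem_insert, Finset.mem_insert,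
      Finset.mem_singleton]
    constructor
    · rintro (h | h | h | h)
      · left; exact Subtype.ext h
      · right; left; exact h
      · right; right; left; exact h
      · right; right; right; exact h
    · rintro (h | h | h | h)
      · left; rw [h]; rfl
      · right; left; exact h
      · right; right; left; exact h
      · right; right; right; exact h
  rw [hset, Finset.sum_insert, Finset.sum_insert, Finset.sum_insert, Finset.sum_singleton]
  · ring
  · simp only [Finset.mem_singleton]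
    exact hdist.2.2.2.2.2
  · simp only [Finset.mem_insert, Finset.mem_singleton]
    rintro (h | h)
    · exact hdist.2.2.2.1 h
    · exact hdist.2.2.2.2.1 h
  · simp only [Finset.mem_insert, Finset.mem_singleton]
    rintro (h | h | h)
    · exact hdist.1 (by rw [← h]; rfl)
    · exact hdist.2.1 (by rw [← h]; rfl)
    · exact hdist.2.2.1 (by rw [← h]; rfl)

/-- `θ = 1 + ε₁χ₁ + ε₂χ₂ + ε₃χ₃` is `4` times the indicator of the elements of even order -/
theorem k4_theta [Finite G] {M : Ideal AlgInt} (hM : IsPModular 2 M) (P : Sylow 2 G)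
    (hfac : (Nat.card G).factorization 2 = 2)
    (hsq : ∀ a ∈ (P : Subgroup G), a * a = 1) (J : G) (hJ2 : orderOf J = 2)
    (hconj : ∀ s : G, orderOf s = 2 → ∃ g : G, g * J * g⁻¹ = s)
    (χ₁ χ₂ χ₃ : IrrCharacter G) (ε₁ ε₂ ε₃ : ℤ)
    (hB : principalBlock M G = {χ : IrrCharacter G | (χ : G → ℂ) = (fun _ => 1) ∨ χ = χ₁ ∨
      χ = χ₂ ∨ χ = χ₃})
    (hdist : (χ₁ : G → ℂ) ≠ (fun _ => 1) ∧ (χ₂ : G → ℂ) ≠ (fun _ => 1) ∧
      (χ₃ : G → ℂ) ≠ (fun _ => 1) ∧ χ₁ ≠ χ₂ ∧ χ₁ ≠ χ₃ ∧ χ₂ ≠ χ₃)
    (hε : (ε₁ = 1 ∨ ε₁ = -1) ∧ (ε₂ = 1 ∨ ε₂ = -1) ∧ (ε₃ = 1 ∨ ε₃ = -1))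
    (hval : (χ₁ : G → ℂ) J = ε₁ ∧ (χ₂ : G → ℂ) J = ε₂ ∧ (χ₃ : G → ℂ) J = ε₃) (g : G) :
    1 + (ε₁ : ℂ) * (χ₁ : G → ℂ) g + (ε₂ : ℂ) * (χ₂ : G → ℂ) g + (ε₃ : ℂ) * (χ₃ : G → ℂ) g
      = if 2 ∣ orderOf g then 4 else 0 := by
  classical
  haveI := Fintype.ofFinite G
  obtain ⟨hJJ, hJ1⟩ := k4_invol hJ2
  by_cases h2 : 2 ∣ orderOf g
  · rw [if_pos h2]
    obtain ⟨u, y, huy, hc, ⟨k, hk⟩, hy⟩ := exists_isPPart (p := 2) Nat.prime_two g
    have huu : u * u = 1 :=
      k4_sq_of_two_elt P hsq u k (by rw [← hk]; exact pow_orderOf_eq_one u)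
    have hu1 : u ≠ 1 := by
      intro h
      rw [h, one_mul] at huy
      rw [huy] at hy
      exact hy h2
    have hu2 : orderOf u = 2 := k4_orderOf_two huu hu1
    obtain ⟨c, hc'⟩ := hconj u hu2
    have hmem : ∀ χ ∈ principalBlock M G, (χ : G → ℂ) g = (χ : G → ℂ) J := by
      intro χ hχ
      rw [← huy, k4_section_const hM P hfac hsq u hu2 χ hχ y hc.eq.symm hy, ← hc', irr_conj]
    have h1 : χ₁ ∈ principalBlock M G := by
      rw [hB]
      exact Or.inr (Or.inl rfl)
    have h2' : χ₂ ∈ principalBlock M G := by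
      rw [hB]
      exact Or.inr (Or.inr (Or.inl rfl))
    have h3 : χ₃ ∈ principalBlock M G := by
      rw [hB]
      exact Or.inr (Or.inr (Or.inr rfl))
    rw [hmem χ₁ h1, hmem χ₂ h2', hmem χ₃ h3, hval.1, hval.2.1, hval.2.2]
    rcases hε.1 with h | h <;> rcases hε.2.1 with h' | h' <;> rcases hε.2.2 with h'' | h'' <;>
      (rw [h, h', h'']; norm_num)
  · rw [if_neg h2]
    have h := weak_block_orth hM (isPBlock_principalBlock (M := M) (G := G)) g J h2
      (by rw [hJ2])
    have h' := k4_sum_block χ₁ χ₂ χ₃ hB hdist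
      (fun χ => (χ : G → ℂ) g * (χ : G → ℂ) J⁻¹)
    beta_reduce at h'
    rw [h'] at h
    have hJi : J⁻¹ = J := inv_eq_of_mul_eq_one_left hJJ
    rw [hJi, hval.1, hval.2.1, hval.2.2, trivChar_apply, trivChar_apply] at h
    linear_combination h

open Classical in
/-- the class algebra constant for the class of involutions -/
theorem k4_class_sum [Fintype G] (J : G) (hJ2 : orderOf J = 2)
    (hconj : ∀ s : G, orderOf s = 2 → ∃ g : G, g * J * g⁻¹ = s) (ψ : IrrCharacter G) :
    ∑ s ∈ Finset.univ.filter (fun s : G => orderOf s = 2),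
        ∑ t ∈ Finset.univ.filter (fun s : G => orderOf s = 2), (ψ : G → ℂ) (s * t)
      = ((Finset.univ.filter (fun s : G => orderOf s = 2)).card : ℂ) ^ 2
          * (ψ : G → ℂ) J ^ 2 / (ψ : G → ℂ) 1 := by
  obtain ⟨f, hf⟩ : ∃ f : G → ℂ, f = fun g => if orderOf g = 2 then 1 else 0 := ⟨_, rfl⟩
  have hf1 : ∀ g : G, orderOf g = 2 → f g = 1 := by
    intro g hg
    rw [hf]
    exact if_pos hg
  have hf0 : ∀ g : G, orderOf g ≠ 2 → f g = 0 := by
    intro g hg
    rw [hf]
    exact if_neg hg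
  have hfc : ∀ g x : G, f (x * g * x⁻¹) = f g := by
    intro g x
    rw [hf]
    show (if orderOf (x * g * x⁻¹) = 2 then (1 : ℂ) else 0) = if orderOf g = 2 then 1 else 0
    rw [Cfsg.Agent.Helper9.orderOf_conj_eq_h9]
  have h1 := omega_conv (f₁ := f) (f₂ := f) hfc ψ
  have hom : omega f ψ = ((Finset.univ.filter (fun s : G => orderOf s = 2)).card : ℂ)
      * (ψ : G → ℂ) J / (ψ : G → ℂ) 1 := by
    unfold omega
    congr 1
    have e : ∀ g : G, f g * (ψ : G → ℂ) g = if orderOf g = 2 then (ψ : G → ℂ) J else 0 := by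
      intro g
      by_cases hg : orderOf g = 2
      · rw [if_pos hg, hf1 g hg, one_mul]
        obtain ⟨c, hc⟩ := hconj g hg
        rw [← hc, irr_conj]
      · rw [if_neg hg, hf0 g hg, zero_mul]
    rw [Finset.sum_congr rfl (fun g _ => e g), ← Finset.sum_filter, Finset.sum_const,
      nsmul_eq_mul]
  have hconv : omega (conv f f) ψ
      = (∑ s ∈ Finset.univ.filter (fun s : G => orderOf s = 2),
        ∑ t ∈ Finset.univ.filter (fun s : G => orderOf s = 2), (ψ : G → ℂ) (s * t))
        / (ψ : G → ℂ) 1 := by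
    unfold omega conv
    congr 1
    calc ∑ g : G, (∑ x : G, f x * f (x⁻¹ * g)) * (ψ : G → ℂ) g
        = ∑ g : G, ∑ x : G, f x * f (x⁻¹ * g) * (ψ : G → ℂ) g := by
          apply Finset.sum_congr rfl
          intro g _
          rw [Finset.sum_mul]
      _ = ∑ x : G, ∑ g : G, f x * f (x⁻¹ * g) * (ψ : G → ℂ) g := Finset.sum_comm
      _ = ∑ x : G, ∑ h : G, f x * f h * (ψ : G → ℂ) (x * h) := by
          apply Finset.sum_congr rfl
          intro x _
          rw [← Equiv.sum_comp (Equiv.mulLeft x)]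
          apply Finset.sum_congr rfl
          intro h _
          show f x * f (x⁻¹ * (x * h)) * (ψ : G → ℂ) (x * h) = _
          rw [inv_mul_cancel_left]
      _ = _ := by
          rw [Finset.sum_filter]
          apply Finset.sum_congr rfl
          intro x _
          by_cases hx : orderOf x = 2
          · rw [if_pos hx, Finset.sum_filter]
            apply Finset.sum_congr rfl
            intro h _
            by_cases hh : orderOf h = 2
            · rw [if_pos hh, hf1 x hx, hf1 h hh, one_mul, one_mul]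
            · rw [if_neg hh, hf0 h hh, mul_zero, zero_mul]
          · rw [if_neg hx]
            apply Finset.sum_eq_zero
            intro h _
            rw [hf0 x hx, zero_mul, zero_mul]
  rw [hom, hconv] at h1
  have hψ1 := irr_one_ne_zero ψ
  rw [div_eq_iff hψ1] at h1
  rw [h1]
  field_simp

end Cfsg.Agent.Helper24
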