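import Mathlib

/-!
Helper24: every subgroup of a finite nilpotent group (in particular of a finite `p`-group) is
subnormal.
-/

set_option autoImplicit false

namespace Cfsg.Agent.Helper24

/-- In a finite nilpotent group every subgroup is subnormal. -/
theorem h24_isSubnormal_of_isNilpotent {G : Type*} [Group G] [Finite G] [Group.IsNilpotent G]
    (H : Subgroup G) : H.IsSubnormal := by
  have key : ∀ n : ℕ, ∀ H : Subgroup G, Nat.card G - Nat.card H = n → H.IsSubnormal := by
    intro n
    induction n using Nat.strong_induction_on with
    | _ n ih =>
      intro H hn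
      by_cases hH : H = ⊤
      · rw [hH]; exact Subgroup.IsSubnormal.top
      have hlt : H < Subgroup.normalizer (H : Set G) :=
        Group.normalizerCondition_of_isNilpotent H (lt_top_iff_ne_top.mpr hH)
      have hcard : Nat.card H < Nat.card (Subgroup.normalizer (H : Set G)) :=
        lt_of_le_of_ne (Subgroup.card_le_of_le hlt.le)
          (fun heq => hlt.ne (Subgroup.eq_of_le_of_card_ge hlt.le heq.ge))
      have hle : Nat.card (Subgroup.normalizer (H : Set G)) ≤ Nat.card G :=
        Subgroup.card_le_card_group _
      have hK : (Subgroup.normalizer (H : Set G)).IsSubnormal :=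
        ih (Nat.card G - Nat.card (Subgroup.normalizer (H : Set G))) (by omega) _ rfl
      exact Subgroup.IsSubnormal.trans hlt.le
        (Subgroup.Normal.isSubnormal Subgroup.normal_in_normalizer) hK
  exact key _ H rfl

/-- A subgroup of a finite `p`-subgroup `P` is subnormal in every subgroup `K ≤ P` containing
it. -/
theorem h24_isSubnormal_subgroupOf_of_isPGroup {G : Type*} [Group G] [Finite G] (p : ℕ)
    [Fact p.Prime] (A K : Subgroup G) (hK : IsPGroup p K) :
    (A.subgroupOf K).IsSubnormal := by
  have : Group.IsNilpotent K := hK.isNilpotent
  exact h24_isSubnormal_of_isNilpotent _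

end Cfsg.Agent.Helper24
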