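import Mathlib
import Cfsg.Agent.Helper24.SelfCent

set_option autoImplicit false

namespace Cfsg.Agent.Helper24

open scoped Pointwise

set_option linter.unusedSectionVars false
set_option linter.style.haveILetI false

/-! Counting Sylow subgroups through equivariant maps. -/

theorem h24_card_eq_mul_fiber {G X Y : Type*} [Group G] [MulAction G X]
    [MulAction.IsPretransitive G X] [Finite X] (φ : X → Y) (hφ : Function.Surjective φ)
    (hcompat : ∀ (g : G) (z z' : X), φ z = φ z' → φ (g • z) = φ (g • z')) (x0 : X) :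
    Nat.card X = Nat.card Y * Nat.card {x // φ x = φ x0} := by
  classical
  haveI : Finite Y := Finite.of_surjective φ hφ
  haveI : Fintype Y := Fintype.ofFinite Y
  have hfib : ∀ y : Y, Nat.card {x // φ x = y} = Nat.card {x // φ x = φ x0} := by
    intro y
    obtain ⟨x, rfl⟩ := hφ y
    obtain ⟨g, hg⟩ := MulAction.exists_smul_eq G x0 x
    apply le_antisymm
    · apply Nat.card_le_card_of_injective (fun z : {z // φ z = φ x} =>
        (⟨g⁻¹ • z.1, by
          have h1 := hcompat g⁻¹ z.1 x z.2
          rw [h1, ← hg, inv_smul_smul]⟩ : {z // φ z = φ x0}))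
      intro z z' h
      have h1 : g⁻¹ • z.1 = g⁻¹ • z'.1 := congrArg Subtype.val h
      exact Subtype.ext (MulAction.injective g⁻¹ h1)
    · apply Nat.card_le_card_of_injective (fun z : {z // φ z = φ x0} =>
        (⟨g • z.1, by
          have h1 := hcompat g z.1 x0 z.2
          rw [h1, hg]⟩ : {z // φ z = φ x}))
      intro z z' h
      have h1 : g • z.1 = g • z'.1 := congrArg Subtype.val h
      exact Subtype.ext (MulAction.injective g h1)
  rw [Nat.card_congr (Equiv.sigmaFiberEquiv φ).symm, Nat.card_sigma]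
  simp only [hfib, Finset.sum_const, Finset.card_univ, smul_eq_mul, Nat.card_eq_fintype_card]

theorem h24_mem_map_smul_sylow {G H : Type*} [Group G] [Group H] {p : ℕ} (f : G →* H) (g : G)
    (Q : Sylow p G) (y : H) :
    y ∈ ((g • Q : Sylow p G) : Subgroup G).map f ↔
      (f g)⁻¹ * y * f g ∈ (Q : Subgroup G).map f := by
  constructor
  · rintro ⟨z, hz, rfl⟩
    have hz' : g⁻¹ * z * g ∈ (Q : Subgroup G) := (sc_mem_smul_sylow_iff p g z Q).1 hz
    refine ⟨g⁻¹ * z * g, hz', ?_⟩
    simp
  · rintro ⟨q, hq, hqe⟩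
    refine ⟨g * q * g⁻¹, ?_, ?_⟩
    · have h2 : g * q * g⁻¹ ∈ g • Q := by
        rw [sc_mem_smul_sylow_iff]
        have h1 : g⁻¹ * (g * q * g⁻¹) * g = q := by group
        rw [h1]; exact hq
      exact h2
    · rw [map_mul, map_mul, map_inv, hqe]; group

theorem h24_relIndex_sup_of_normal {G : Type*} [Group G] [Finite G] (A B : Subgroup G)
    [B.Normal] : A.relIndex (A ⊔ B) = A.relIndex B := by
  have e1 : Nat.card A * A.relIndex (A ⊔ B) = Nat.card (A ⊔ B : Subgroup G) := by
    rw [← Subgroup.relIndex_bot_left A, ← Subgroup.relIndex_bot_left (A ⊔ B)]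
    exact Subgroup.relIndex_mul_relIndex _ _ _ bot_le le_sup_left
  have e2 : Nat.card B * B.relIndex (A ⊔ B) = Nat.card (A ⊔ B : Subgroup G) := by
    rw [← Subgroup.relIndex_bot_left B, ← Subgroup.relIndex_bot_left (A ⊔ B)]
    exact Subgroup.relIndex_mul_relIndex _ _ _ bot_le le_sup_right
  have e3 : B.relIndex (A ⊔ B) = B.relIndex A := Subgroup.relIndex_sup_right A B
  have e4 : Nat.card (A ⊓ B : Subgroup G) * B.relIndex A = Nat.card A := by
    rw [← Subgroup.relIndex_bot_left (A ⊓ B), ← Subgroup.relIndex_bot_left A,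
      ← Subgroup.inf_relIndex_right B A, inf_comm]
    exact Subgroup.relIndex_mul_relIndex _ _ _ bot_le inf_le_right
  have e5 : Nat.card (A ⊓ B : Subgroup G) * A.relIndex B = Nat.card B := by
    rw [← Subgroup.relIndex_bot_left (A ⊓ B), ← Subgroup.relIndex_bot_left B,
      ← Subgroup.inf_relIndex_right A B]
    exact Subgroup.relIndex_mul_relIndex _ _ _ bot_le inf_le_right
  have hpos : 0 < Nat.card A := Nat.card_pos
  apply Nat.eq_of_mul_eq_mul_left hpos
  rw [e1, ← e2, e3, ← e5, ← e4]
  ring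

theorem h24_not_dvd_index_inter {G : Type*} [Group G] [Finite G] {p : ℕ} [Fact p.Prime]
    (K : Subgroup G) [K.Normal] (Q : Sylow p G) :
    ¬ p ∣ ((Q : Subgroup G).subgroupOf K).index := by
  have h1 : ((Q : Subgroup G).subgroupOf K).index = (Q : Subgroup G).relIndex K := rfl
  rw [h1, ← h24_relIndex_sup_of_normal]
  intro h
  exact Q.not_dvd_index (h.trans (Subgroup.relIndex_dvd_index_of_le le_sup_left))

/-- The Sylow subgroup `Q ∩ K` of a normal subgroup `K`. -/
noncomputable def h24_sylInter {G : Type*} [Group G] [Finite G] {p : ℕ} [Fact p.Prime]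
    (K : Subgroup G) [K.Normal] (Q : Sylow p G) : Sylow p ↥K :=
  (Q.2.comap_subtype (K := K)).toSylow (h24_not_dvd_index_inter K Q)

theorem h24_mem_sylInter {G : Type*} [Group G] [Finite G] {p : ℕ} [Fact p.Prime]
    (K : Subgroup G) [K.Normal] (Q : Sylow p G) (k : ↥K) :
    k ∈ h24_sylInter K Q ↔ (k : G) ∈ (Q : Subgroup G) := Iff.rfl

theorem h24_le_normalizer_inf_normal {G : Type*} [Group G] (Q K : Subgroup G) [hK : K.Normal] :
    Q ≤ Subgroup.normalizer ((Q ⊓ K : Subgroup G) : Set G) := by
  intro y hy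
  rw [Subgroup.mem_normalizer_iff]
  intro h
  constructor
  · rintro ⟨h1, h2⟩
    exact ⟨Q.mul_mem (Q.mul_mem hy h1) (Q.inv_mem hy), hK.conj_mem _ h2 y⟩
  · rintro ⟨h1, h2⟩
    refine ⟨?_, ?_⟩
    · have h3 := Q.mul_mem (Q.mul_mem (Q.inv_mem hy) h1) hy
      have h4 : y⁻¹ * (y * h * y⁻¹) * y = h := by group
      rw [h4] at h3; exact h3
    · have h3 := hK.conj_mem _ h2 y⁻¹
      have h4 : y⁻¹ * (y * h * y⁻¹) * y⁻¹⁻¹ = h := by group
      rw [h4] at h3; exact h3

theorem h24_card_sylow_le {G : Type*} [Group G] [Finite G] {p : ℕ} [Fact p.Prime]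
    (M : Subgroup G) (P : Sylow p G) (hP : (P : Subgroup G) ≤ M) :
    Nat.card {Q : Sylow p G // (Q : Subgroup G) ≤ M} = Nat.card (Sylow p ↥M) := by
  apply Nat.card_eq_of_bijective (fun Q : {Q : Sylow p G // (Q : Subgroup G) ≤ M} => Q.1.subtype Q.2)
  constructor
  · intro Q Q' h
    exact Subtype.ext (Sylow.subtype_injective h)
  · intro R
    have hcard : Nat.card ((R : Subgroup ↥M).map M.subtype) = p ^ (Nat.card G).factorization p := by
      rw [Subgroup.card_map_of_injective (Subgroup.subtype_injective M)]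
      have h1 : Nat.card (R : Subgroup ↥M) = Nat.card ((P.subtype hP : Sylow p ↥M) : Subgroup ↥M) := by
        have a := Sylow.card_eq_multiplicity R
        have b := Sylow.card_eq_multiplicity (P.subtype hP)
        exact a.trans b.symm
      rw [h1, Sylow.coe_subtype, Nat.card_congr (Subgroup.subgroupOfEquivOfLe hP).toEquiv]
      exact Sylow.card_eq_multiplicity P
    refine ⟨⟨Sylow.ofCard ((R : Subgroup ↥M).map M.subtype) hcard, ?_⟩, ?_⟩
    · rw [Sylow.coe_ofCard]
      exact Subgroup.map_subtype_le _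
    · apply Sylow.ext
      rw [Sylow.coe_subtype, Sylow.coe_ofCard]
      exact Subgroup.comap_map_eq_self_of_injective (Subgroup.subtype_injective M) _

theorem h24_card_sylow_quot_of_pgroup (H : Type*) [Group H] [Finite H] (p : ℕ) [Fact p.Prime]
    (L : Subgroup H) [L.Normal] (hL : IsPGroup p L) :
    Nat.card (Sylow p (H ⧸ L)) = Nat.card (Sylow p H) := by
  symm
  have hf : Function.Surjective (QuotientGroup.mk' L) := QuotientGroup.mk'_surjective _
  apply Nat.card_eq_of_bijective (Sylow.mapSurjective hf)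
  refine ⟨?_, Sylow.mapSurjective_surjective hf p⟩
  intro P Q hPQ
  have h1 : (P : Subgroup H).map (QuotientGroup.mk' L) = (Q : Subgroup H).map (QuotientGroup.mk' L) := by
    have h0 := congrArg (fun R : Sylow p (H ⧸ L) => R.toSubgroup) hPQ
    exact h0
  have h2 : (P : Subgroup H) ⊔ L = (Q : Subgroup H) ⊔ L := by
    have h0 := congrArg (Subgroup.comap (QuotientGroup.mk' L)) h1
    rwa [Subgroup.comap_map_eq, Subgroup.comap_map_eq, QuotientGroup.ker_mk'] at h0
  rw [sup_eq_left.2 (hL.le_sylow_of_normal P), sup_eq_left.2 (hL.le_sylow_of_normal Q)] at h2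
  exact Sylow.ext h2

theorem h24_map_eq_iff {G : Type*} [Group G] [Finite G] {p : ℕ} [Fact p.Prime]
    (K : Subgroup G) [K.Normal] (P Q : Sylow p G) :
    Q.mapSurjective (QuotientGroup.mk'_surjective K) = P.mapSurjective (QuotientGroup.mk'_surjective K)
      ↔ (Q : Subgroup G) ≤ (P : Subgroup G) ⊔ K := by
  constructor
  · intro h y hy
    have h1 : (Q : Subgroup G).map (QuotientGroup.mk' K) = (P : Subgroup G).map (QuotientGroup.mk' K) := by
      have h0 := congrArg (fun R : Sylow p (G ⧸ K) => R.toSubgroup) h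
      exact h0
    have h2 : QuotientGroup.mk' K y ∈ (P : Subgroup G).map (QuotientGroup.mk' K) := by
      rw [← h1]; exact Subgroup.mem_map_of_mem _ hy
    obtain ⟨u, hu, hue⟩ := h2
    have h3 : u⁻¹ * y ∈ K := by
      rw [← QuotientGroup.eq_one_iff, QuotientGroup.mk_mul, QuotientGroup.mk_inv]
      have h4 : (u : G ⧸ K) = (y : G ⧸ K) := hue
      rw [h4]; group
    have h5 : y = u * (u⁻¹ * y) := by group
    rw [h5]
    exact Subgroup.mul_mem_sup hu h3
  · intro h
    apply Sylow.ext
    have hle : (Q : Subgroup G).map (QuotientGroup.mk' K) ≤ (P : Subgroup G).map (QuotientGroup.mk' K) := by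
      rintro _ ⟨y, hy, rfl⟩
      have hy' := h hy
      have h3 := Subgroup.mul_normal (P : Subgroup G) K
      have hy'' : y ∈ (((P : Subgroup G) : Set G) * (K : Set G)) := by
        rw [← h3]; exact hy'
      obtain ⟨u, hu, k, hk, rfl⟩ := Set.mem_mul.1 hy''
      refine ⟨u, hu, ?_⟩
      show ((u : G) : G ⧸ K) = ((u * k : G) : G ⧸ K)
      rw [QuotientGroup.mk_mul, (QuotientGroup.eq_one_iff k).2 hk, mul_one]
    have h6 := (Q.mapSurjective (QuotientGroup.mk'_surjective K)).is_maximal'
      (P.mapSurjective (QuotientGroup.mk'_surjective K)).2 hle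
    exact h6.symm

theorem h24_card_sylow_eq_quot_mul {G : Type*} [Group G] [Finite G] {p : ℕ} [Fact p.Prime]
    (K : Subgroup G) [K.Normal] (P : Sylow p G) :
    Nat.card (Sylow p G)
      = Nat.card (Sylow p (G ⧸ K)) * Nat.card (Sylow p ↥((P : Subgroup G) ⊔ K)) := by
  have h1 := h24_card_eq_mul_fiber (G := G)
    (fun Q : Sylow p G => Q.mapSurjective (QuotientGroup.mk'_surjective K))
    (Sylow.mapSurjective_surjective (QuotientGroup.mk'_surjective K) p) (by
      intro g z z' hzz
      apply Sylow.ext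
      have h0 : (z : Subgroup G).map (QuotientGroup.mk' K) = (z' : Subgroup G).map (QuotientGroup.mk' K) := by
        have h0 := congrArg (fun R : Sylow p (G ⧸ K) => R.toSubgroup) hzz
        exact h0
      ext y
      show y ∈ ((g • z : Sylow p G) : Subgroup G).map (QuotientGroup.mk' K)
        ↔ y ∈ ((g • z' : Sylow p G) : Subgroup G).map (QuotientGroup.mk' K)
      rw [h24_mem_map_smul_sylow, h24_mem_map_smul_sylow, h0]) P
  rw [h1]
  congr 1
  rw [← h24_card_sylow_le ((P : Subgroup G) ⊔ K) P le_sup_left]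
  apply Nat.card_congr
  exact Equiv.subtypeEquivRight (fun Q => h24_map_eq_iff K P Q)

end Cfsg.Agent.Helper24
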