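import Mathlib
import Cfsg.Agent.Helper2.CosetAvg
import Cfsg.Agent.Helper2.Conj
import Cfsg.Agent.Helper25.CharOrth
import Cfsg.Agent.Helper25.BlockRank
import Cfsg.Agent.Helper11.AbelChar
import Cfsg.Agent.Helper11.ConjChar

/-!
# Irreducible characters which are nonzero on exactly two conjugacy classes (helper24)

`χ` irreducible, nonzero exactly on the normal `p`-subgroup `N ≠ 1`, and nonzero on exactly two
classes of `G`, `|G| > 2`.  Then `N` is abelian, all of `N \ 1` is one class, centralizers of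
elements of `N \ 1` are Sylow `p`-subgroups, every other irreducible character has `N` in its
kernel, and an element outside `N` is conjugate to its whole coset.
-/

set_option autoImplicit false

namespace Cfsg.Agent.Helper24

open Cfsg
open scoped ComplexConjugate

universe u

variable {G : Type u} [Group G]

/-- any two nonidentity elements in the support are conjugate -/
theorem tc_conj [Finite G] (χ : G → ℂ) (h1 : χ 1 ≠ 0)
    (hχ : Nat.card {C : ConjClasses G // ∃ g ∈ C.carrier, χ g ≠ 0} = 2)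
    {x y : G} (hx : χ x ≠ 0) (hy : χ y ≠ 0) (hx1 : x ≠ 1) (hy1 : y ≠ 1) : IsConj x y := by
  classical
  by_contra hxy
  have : Fintype {C : ConjClasses G // ∃ g ∈ C.carrier, χ g ≠ 0} := Fintype.ofFinite _
  have h3 : 2 < Fintype.card {C : ConjClasses G // ∃ g ∈ C.carrier, χ g ≠ 0} := by
    rw [Fintype.two_lt_card_iff]
    refine ⟨⟨ConjClasses.mk 1, 1, ConjClasses.mem_carrier_mk, h1⟩,
      ⟨ConjClasses.mk x, x, ConjClasses.mem_carrier_mk, hx⟩,
      ⟨ConjClasses.mk y, y, ConjClasses.mem_carrier_mk, hy⟩, ?_, ?_, ?_⟩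
    · intro h
      have h' := congrArg Subtype.val h
      rw [ConjClasses.mk_eq_mk_iff_isConj, isConj_one_right] at h'
      exact hx1 h'
    · intro h
      have h' := congrArg Subtype.val h
      rw [ConjClasses.mk_eq_mk_iff_isConj, isConj_one_right] at h'
      exact hy1 h'
    · intro h
      have h' := congrArg Subtype.val h
      rw [ConjClasses.mk_eq_mk_iff_isConj] at h'
      exact hxy h'
  rw [← Nat.card_eq_fintype_card, hχ] at h3
  exact lt_irrefl _ h3

/-- sum over `G` of a function supported on the subgroup `N` -/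
theorem tc_sum_supp [Fintype G] (N : Subgroup G) [Fintype N] (φ : G → ℂ)
    (h : ∀ g, g ∉ N → φ g = 0) : ∑ g : G, φ g = ∑ n : N, φ n := by
  classical
  rw [← Finset.sum_subtype (Finset.univ.filter (· ∈ N)) (by simp) φ]
  symm
  apply Finset.sum_subset (Finset.filter_subset _ _)
  intro g _ hg
  apply h
  simpa using hg

/-- a sum of products, one factor being constant off a point -/
theorem tc_sum_mul {α : Type*} [Fintype α] [DecidableEq α] (a : α) (φ ψ : α → ℂ) (c : ℂ)
    (h : ∀ x, x ≠ a → φ x = c) :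
    ∑ x, φ x * ψ x = (φ a - c) * ψ a + c * ∑ x, ψ x := by
  have h1 : ∀ x, φ x * ψ x = (if x = a then (φ a - c) * ψ a else 0) + c * ψ x := by
    intro x
    by_cases hx : x = a
    · subst hx
      rw [if_pos rfl]
      ring
    · rw [if_neg hx, h x hx]
      ring
  rw [Finset.sum_congr rfl (fun x _ => h1 x), Finset.sum_add_distrib, Finset.sum_ite_eq',
    if_pos (Finset.mem_univ a), ← Finset.mul_sum]

/-- a sum of a function which is constant off a point -/
theorem tc_sum_const {α : Type*} [Fintype α] [DecidableEq α] (a : α) (φ : α → ℂ) (c : ℂ)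
    (h : ∀ x, x ≠ a → φ x = c) :
    ∑ x, φ x = (φ a - c) + c * (Fintype.card α : ℂ) := by
  have := tc_sum_mul a φ (fun _ => 1) c h
  simpa using this

/-- the standing hypotheses -/
structure TC (p : ℕ) (χ : IrrCharacter G) (N : Subgroup G) : Prop where
  card : 2 < Nat.card G
  two : Nat.card {C : ConjClasses G // ∃ g ∈ C.carrier, (χ : G → ℂ) g ≠ 0} = 2
  supp : ∀ g : G, g ∈ N ↔ (χ : G → ℂ) g ≠ 0
  pgrp : IsPGroup p N
  ne : N ≠ ⊥

variable {p : ℕ} {χ : IrrCharacter G} {N : Subgroup G}

theorem TC.conj [Finite G] (h : TC p χ N) {x y : G} (hx : x ∈ N) (hy : y ∈ N) (hx1 : x ≠ 1)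
    (hy1 : y ≠ 1) : IsConj x y :=
  tc_conj (χ : G → ℂ) ((h.supp 1).mp N.one_mem) h.two ((h.supp x).mp hx) ((h.supp y).mp hy) hx1 hy1

/-- `N` is abelian -/
theorem TC.comm [Finite G] [Fact p.Prime] [hNn : N.Normal] (h : TC p χ N) (a b : N) :
    a * b = b * a := by
  haveI : Nontrivial N := (Subgroup.nontrivial_iff_ne_bot N).mpr h.ne
  haveI := h.pgrp.center_nontrivial
  obtain ⟨z, hz⟩ := exists_ne (1 : Subgroup.center N)
  have hz1 : ((z : N) : G) ≠ 1 := by
    intro h'
    apply hz
    apply Subtype.ext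
    apply Subtype.ext
    exact h'
  by_cases ha : a = 1
  · subst ha
    simp
  have hconj := h.conj (z : N).2 a.2 hz1 (fun h' => ha (Subtype.ext h'))
  obtain ⟨g, hg⟩ := isConj_iff.mp hconj
  have hb' : g⁻¹ * b * g ∈ N := by simpa using hNn.conj_mem b b.2 g⁻¹
  have hc : (z : N) * ⟨g⁻¹ * b * g, hb'⟩ = ⟨g⁻¹ * b * g, hb'⟩ * (z : N) :=
    (Subgroup.mem_center_iff.mp z.2 _).symm
  have hc' : ((z : N) : G) * (g⁻¹ * b * g) = (g⁻¹ * b * g) * ((z : N) : G) :=
    congrArg Subtype.val hc
  apply Subtype.ext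
  show (a : G) * b = b * a
  rw [← hg]
  calc g * ((z : N) : G) * g⁻¹ * b = g * (((z : N) : G) * (g⁻¹ * b * g)) * g⁻¹ := by group
    _ = g * ((g⁻¹ * b * g) * ((z : N) : G)) * g⁻¹ := by rw [hc']
    _ = b * (g * ((z : N) : G) * g⁻¹) := by group

/-- `N` is not in the kernel of `χ` -/
theorem TC.not_le_ker [Finite G] [Fact p.Prime] [hNn : N.Normal] (h : TC p χ N) :
    ¬ N ≤ Helper25.irrKer χ := by
  classical
  intro hle
  have := Fintype.ofFinite G
  have hNk : ∀ g ∈ N, (χ : G → ℂ) g = (χ : G → ℂ) 1 :=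
    fun g hg => (Helper25.mem_irrKer χ g).mp (hle hg)
  have h1 : classInner (χ : G → ℂ) (Helper25.trivChar G : G → ℂ) ≠ 0 := by
    unfold classInner
    have h2 : ∑ g : G, (χ : G → ℂ) g * conj ((Helper25.trivChar G : G → ℂ) g)
        = (Nat.card N : ℂ) * (χ : G → ℂ) 1 := by
      rw [tc_sum_supp N _ (fun g hg => by
        have : (χ : G → ℂ) g = 0 := by
          by_contra hne
          exact hg ((h.supp g).mpr hne)
        rw [this, zero_mul])]
      rw [Finset.sum_congr rfl (fun (n : N) _ => by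
        rw [hNk n n.2, Helper25.trivChar_apply, map_one, mul_one])]
      rw [Finset.sum_const, Finset.card_univ, nsmul_eq_mul, Nat.card_eq_fintype_card]
    rw [h2]
    apply mul_ne_zero
    · exact inv_ne_zero (Nat.cast_ne_zero.mpr Nat.card_pos.ne')
    · exact mul_ne_zero (Nat.cast_ne_zero.mpr Nat.card_pos.ne') ((h.supp 1).mp N.one_mem)
  rw [Helper25.irr_classInner] at h1
  have heq : χ = Helper25.trivChar G := by
    by_contra hne
    exact h1 (if_neg hne)
  have htop : ∀ g : G, g ∈ N := fun g => (h.supp g).mpr (by rw [heq]; simp)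
  have hcomm : ∀ a b : G, a * b = b * a :=
    fun a b => congrArg Subtype.val (h.comm ⟨a, htop a⟩ ⟨b, htop b⟩)
  have heq2 : ∀ x y : G, x ≠ 1 → y ≠ 1 → x = y := by
    intro x y hx hy
    obtain ⟨c, hc⟩ := isConj_iff.mp (h.conj (htop x) (htop y) hx hy)
    rw [← hc, hcomm c x, mul_inv_cancel_right]
  have h3 := h.card
  rw [Nat.card_eq_fintype_card, Fintype.two_lt_card_iff] at h3
  obtain ⟨a, b, c, hab, hac, hbc⟩ := h3
  by_cases ha : a = 1
  · exact hbc (heq2 b c (fun hb => hab (ha.trans hb.symm)) (fun hc => hac (ha.trans hc.symm)))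
  · by_cases hb : b = 1
    · exact hac (heq2 a c ha (fun hc => hbc (hb.trans hc.symm)))
    · exact hab (heq2 a b ha hb)

/-- the value `c` on `N \ 1`, with `(χ 1 - c) + c * |N| = 0` and `χ 1 * (χ 1 - c) = |G|` -/
theorem TC.vals [Finite G] [Fact p.Prime] [hNn : N.Normal] (h : TC p χ N) :
    ∃ c : ℂ, (∀ x ∈ N, x ≠ 1 → (χ : G → ℂ) x = c) ∧
      ((χ : G → ℂ) 1 - c) + c * (Nat.card N : ℂ) = 0 ∧
      ((χ : G → ℂ) 1 - c) * (χ : G → ℂ) 1 = (Nat.card G : ℂ) := by
  classical
  have := Fintype.ofFinite G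
  obtain ⟨x0, hx0⟩ := (Subgroup.ne_bot_iff_exists_ne_one).mp h.ne
  have hx0' : (x0 : G) ≠ 1 := fun h' => hx0 (Subtype.ext h')
  have hc : ∀ x ∈ N, x ≠ 1 → (χ : G → ℂ) x = (χ : G → ℂ) x0 := by
    intro x hx hx1
    obtain ⟨g, hg⟩ := isConj_iff.mp (h.conj x0.2 hx hx0' hx1)
    rw [← hg, Helper25.irr_conj]
  have hcN : ∀ n : N, n ≠ 1 → (χ : G → ℂ) n = (χ : G → ℂ) x0 :=
    fun n hn => hc n n.2 (fun h' => hn (Subtype.ext h'))
  have hs : ∑ n : N, (χ : G → ℂ) n = 0 := by
    have h1 := Helper2.irr_sum_coset_normal χ N h.not_le_ker 1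
    have h2 := tc_sum_supp N (fun g => if g ∈ N then (χ : G → ℂ) (g * 1) else 0)
      (fun g hg => if_neg hg)
    have h3 : ∑ n : N, (χ : G → ℂ) n
        = ∑ n : N, (fun g => if g ∈ N then (χ : G → ℂ) (g * 1) else 0) (n : G) := by
      apply Finset.sum_congr rfl
      intro n _
      simp
    rw [h3, ← h2]
    convert h1
  have hsum := tc_sum_const (1 : N) (fun n : N => (χ : G → ℂ) n) ((χ : G → ℂ) x0) hcN
  rw [hs] at hsum
  refine ⟨(χ : G → ℂ) x0, hc, ?_, ?_⟩
  · rw [Nat.card_eq_fintype_card]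
    exact hsum.symm
  · have hnorm := Helper25.irr_classInner χ χ
    rw [if_pos rfl] at hnorm
    unfold classInner at hnorm
    rw [inv_mul_eq_one₀ (Nat.cast_ne_zero.mpr Nat.card_pos.ne')] at hnorm
    rw [hnorm, tc_sum_supp N _ (fun g hg => by
        have : (χ : G → ℂ) g = 0 := by
          by_contra hne
          exact hg ((h.supp g).mpr hne)
        rw [this, zero_mul])]
    rw [tc_sum_mul (1 : N) (fun n : N => (χ : G → ℂ) n) (fun n : N => conj ((χ : G → ℂ) n))
      ((χ : G → ℂ) x0) hcN, ← map_sum, hs, map_zero, mul_zero, add_zero]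
    congr 1
    show (χ : G → ℂ) 1 = conj ((χ : G → ℂ) 1)
    rw [Helper25.irr_one_eq_degree, Complex.conj_natCast]

/-- the degree equation `χ(1)² |N| = |G| (|N| - 1)` -/
theorem TC.deg [Finite G] [Fact p.Prime] [hNn : N.Normal] (h : TC p χ N) :
    charDegree (χ : G → ℂ) ^ 2 * Nat.card N = Nat.card G * (Nat.card N - 1) := by
  obtain ⟨c, -, h1, h2⟩ := h.vals
  rw [Helper25.irr_one_eq_degree] at h1 h2
  have hm : 1 ≤ Nat.card N := Nat.card_pos
  have h3 : ((charDegree (χ : G → ℂ) ^ 2 * Nat.card N : ℕ) : ℂ)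
      = ((Nat.card G * (Nat.card N - 1) : ℕ) : ℂ) := by
    push_cast [Nat.cast_sub hm]
    linear_combination (charDegree (χ : G → ℂ) : ℂ) * h1 + ((Nat.card N : ℂ) - 1) * h2
  exact_mod_cast h3

/-- the class of a nonidentity element of `N` is `N \ 1` -/
theorem TC.class_card [Finite G] [Fact p.Prime] [hNn : N.Normal] (h : TC p χ N) {x : G}
    (hx : x ∈ N) (hx1 : x ≠ 1) :
    (Nat.card N - 1) * Nat.card (Subgroup.centralizer ({x} : Set G)) = Nat.card G := by
  classical
  rw [← Helper2.card_conj_mul_card_centralizer x]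
  congr 1
  have := Fintype.ofFinite N
  have e : {y : G // IsConj x y} ≃ {n : N // ¬ (n = 1)} :=
    { toFun := fun y => ⟨⟨y.1, by
          obtain ⟨g, hg⟩ := isConj_iff.mp y.2
          rw [← hg]
          exact hNn.conj_mem x hx g⟩, by
          intro h'
          apply hx1
          have h'' : (y.1 : G) = 1 := congrArg Subtype.val h'
          have h3 := y.2
          rw [h'', isConj_one_left] at h3
          exact h3⟩
      invFun := fun n => ⟨n.1.1, h.conj hx n.1.2 hx1 (fun h' => n.2 (Subtype.ext h'))⟩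
      left_inv := fun y => rfl
      right_inv := fun n => rfl }
  rw [Nat.card_congr e, Nat.card_eq_fintype_card, Nat.card_eq_fintype_card,
    Fintype.card_subtype_compl, Fintype.card_subtype_eq]

/-- centralizers of nonidentity elements of `N` have the order of a Sylow `p`-subgroup -/
theorem TC.cent_card [Finite G] [Fact p.Prime] [hNn : N.Normal] (h : TC p χ N) {x : G}
    (hx : x ∈ N) (hx1 : x ≠ 1) :
    Nat.card (Subgroup.centralizer ({x} : Set G)) = p ^ (Nat.card G).factorization p := by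
  have hp := (Fact.out : p.Prime)
  have hcl := h.class_card hx hx1
  have hdeg := h.deg
  obtain ⟨C, hC⟩ : ∃ C, C = Nat.card (Subgroup.centralizer ({x} : Set G)) := ⟨_, rfl⟩
  obtain ⟨m, hm⟩ : ∃ m, m = Nat.card N := ⟨_, rfl⟩
  obtain ⟨n, hn⟩ : ∃ n, n = Nat.card G := ⟨_, rfl⟩
  obtain ⟨d, hd⟩ : ∃ d, d = charDegree (χ : G → ℂ) := ⟨_, rfl⟩
  rw [← hC, ← hm, ← hn] at hcl
  rw [← hm, ← hn, ← hd] at hdeg
  rw [← hC, ← hn]
  have hn0 : n ≠ 0 := by rw [hn]; exact Nat.card_pos.ne'
  have hC0 : C ≠ 0 := by rw [hC]; exact Nat.card_pos.ne'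
  have hd0 : d ≠ 0 := by rw [hd]; exact (Helper25.irr_degree_pos χ).ne'
  have hm0 : m ≠ 0 := by rw [hm]; exact Nat.card_pos.ne'
  have hm1 : m - 1 ≠ 0 := by
    intro h0
    rw [h0, zero_mul] at hcl
    exact hn0 hcl.symm
  obtain ⟨k, hk⟩ : ∃ k, m = p ^ k := by
    rw [hm]
    exact IsPGroup.iff_card.mp h.pgrp
  have hk0 : k ≠ 0 := by
    rintro rfl
    rw [pow_zero] at hk
    rw [hk] at hm1
    exact hm1 rfl
  apply Nat.eq_of_factorization_eq hC0 (pow_ne_zero _ hp.ne_zero)
  intro q
  by_cases hq : q.Prime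
  swap
  · rw [Nat.factorization_eq_zero_of_not_prime _ hq, Nat.factorization_eq_zero_of_not_prime _ hq]
  have e1 : n.factorization q = (m - 1).factorization q + C.factorization q := by
    rw [← hcl, Nat.factorization_mul hm1 hC0]
    rfl
  have e2 : 2 * d.factorization q + m.factorization q
      = n.factorization q + (m - 1).factorization q := by
    have h3 : (d ^ 2 * m).factorization q = (n * (m - 1)).factorization q := by rw [hdeg]
    rw [Nat.factorization_mul (pow_ne_zero 2 hd0) hm0, Nat.factorization_mul hn0 hm1,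
      Nat.factorization_pow] at h3
    simpa using h3
  rw [Nat.factorization_pow]
  simp only [Finsupp.smul_apply, smul_eq_mul]
  by_cases hqp : q = p
  · subst hqp
    rw [hp.factorization_self, mul_one]
    have h4 : (m - 1).factorization q = 0 := Nat.factorization_eq_zero_of_not_dvd (by
      intro hdvd
      have h1 : q ∣ m := by
        rw [hk]
        exact dvd_pow_self q hk0
      have h5 := Nat.dvd_sub h1 hdvd
      have h6 : m - (m - 1) = 1 := by omega
      rw [h6] at h5
      exact hp.one_lt.ne' (Nat.dvd_one.mp h5))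
    omega
  · have hpq : p.factorization q = 0 := Nat.factorization_eq_zero_of_not_dvd
      (fun hdvd => hqp ((Nat.prime_dvd_prime_iff_eq hq hp).mp hdvd))
    rw [hpq, mul_zero]
    have hmq : m.factorization q = 0 := by
      rw [hk, Nat.factorization_pow]
      simp [hpq]
    have hvan : q ^ n.factorization q ∣ d := by
      rw [hn, hd]
      apply Helper25.pow_dvd_degree_of_vanish hq χ
      intro y hy
      by_contra hne
      have hyN : y ∈ N := (h.supp y).mpr hne
      obtain ⟨j, hj⟩ := (IsPGroup.iff_orderOf.mp h.pgrp) ⟨y, hyN⟩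
      rw [Subgroup.orderOf_mk] at hj
      rw [hj] at hy
      exact hqp ((Nat.prime_dvd_prime_iff_eq hq hp).mp (hq.dvd_of_dvd_pow hy))
    have hle : n.factorization q ≤ d.factorization q :=
      (hq.pow_dvd_iff_le_factorization hd0).mp hvan
    omega

/-- the inertia group of a nontrivial irreducible character of `N` has index `|N| - 1` -/
theorem TC.inertia [Finite G] [Fact p.Prime] [hNn : N.Normal] (h : TC p χ N) (μ : IrrCharacter N)
    (hμ : (μ : N → ℂ) ≠ fun _ => 1) (T : Subgroup G)
    (hT : ∀ g : G, g ∈ T ↔ ∀ n : N, (μ : N → ℂ) (MulAut.conjNormal g n) = (μ : N → ℂ) n) :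
    (Nat.card N - 1) * Nat.card T = Nat.card G := by
  classical
  have := Fintype.ofFinite G
  have hμ1 : (μ : N → ℂ) 1 = 1 := Helper11.irr_one_of_comm h.comm μ
  have hμt : μ ≠ Helper25.trivChar N := by
    intro h'
    apply hμ
    rw [h']
    rfl
  have hm0 : (Nat.card N : ℂ) ≠ 0 := Nat.cast_ne_zero.mpr Nat.card_pos.ne'
  have hsμ : ∑ n : N, (μ : N → ℂ) n = 0 := by
    have h1 := Helper25.irr_classInner μ (Helper25.trivChar N)
    rw [if_neg hμt] at h1
    unfold classInner at h1
    rcases mul_eq_zero.mp h1 with h2 | h2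
    · exact absurd h2 (inv_ne_zero hm0)
    · rw [← h2]
      apply Finset.sum_congr rfl
      intro n _
      rw [Helper25.trivChar_apply, map_one, mul_one]
  have horth : ∀ g : G, ∑ n : N, (μ : N → ℂ) (MulAut.conjNormal g n) * conj ((μ : N → ℂ) n)
      = if g ∈ T then (Nat.card N : ℂ) else 0 := by
    intro g
    have hirr : IsIrrCharacter N (fun n : N => (μ : N → ℂ) (MulAut.conjNormal g n)) :=
      Helper11.isIrrCharacter_comp_mulEquiv (MulAut.conjNormal g) μ.2
    have h1 := Helper25.irr_classInner (⟨_, hirr⟩ : IrrCharacter N) μ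
    unfold classInner at h1
    by_cases hg : g ∈ T
    · rw [if_pos hg]
      have heq : (⟨_, hirr⟩ : IrrCharacter N) = μ := Subtype.ext (funext ((hT g).mp hg))
      rw [if_pos heq, inv_mul_eq_one₀ hm0] at h1
      exact h1.symm
    · rw [if_neg hg]
      have hne : (⟨_, hirr⟩ : IrrCharacter N) ≠ μ := fun heq =>
        hg ((hT g).mpr (fun n => congrFun (congrArg Subtype.val heq) n))
      rw [if_neg hne] at h1
      rcases mul_eq_zero.mp h1 with h2 | h2
      · exact absurd h2 (inv_ne_zero hm0)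
      · exact h2
  obtain ⟨F, hF⟩ : ∃ F : N → ℂ, F = fun n => ∑ g : G, (μ : N → ℂ) (MulAut.conjNormal g n) :=
    ⟨_, rfl⟩
  have hF1 : F 1 = (Nat.card G : ℂ) := by
    rw [hF]
    simp only [map_one, hμ1]
    rw [Finset.sum_const, Finset.card_univ, nsmul_eq_mul, mul_one, Nat.card_eq_fintype_card]
  obtain ⟨x0, hx0⟩ := (Subgroup.ne_bot_iff_exists_ne_one).mp h.ne
  have hx0' : (x0 : G) ≠ 1 := fun h' => hx0 (Subtype.ext h')
  have hFc : ∀ n : N, n ≠ 1 → F n = F x0 := by
    intro n hn
    obtain ⟨c, hc⟩ := isConj_iff.mp (h.conj x0.2 n.2 hx0' (fun h' => hn (Subtype.ext h')))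
    have hn' : n = MulAut.conjNormal c x0 := by
      apply Subtype.ext
      rw [MulAut.conjNormal_apply, hc]
    rw [hF, hn']
    show ∑ g : G, (μ : N → ℂ) (MulAut.conjNormal g (MulAut.conjNormal c x0))
      = ∑ g : G, (μ : N → ℂ) (MulAut.conjNormal g x0)
    apply Fintype.sum_equiv (Equiv.mulRight c)
    intro g
    show _ = (μ : N → ℂ) (MulAut.conjNormal (g * c) x0)
    rw [map_mul, MulAut.mul_apply]
  have hA : ∑ n : N, F n = 0 := by
    rw [hF, Finset.sum_comm]
    apply Finset.sum_eq_zero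
    intro g _
    rw [← hsμ]
    exact Equiv.sum_comp (MulAut.conjNormal g : N ≃* N).toEquiv (fun n => (μ : N → ℂ) n)
  have hB : ∑ n : N, F n * conj ((μ : N → ℂ) n) = (Nat.card N : ℂ) * (Nat.card T : ℂ) := by
    rw [hF]
    simp only [Finset.sum_mul]
    rw [Finset.sum_comm]
    rw [Finset.sum_congr rfl (fun g _ => horth g)]
    rw [mul_comm]
    convert Helper2.sum_indicator_subgroup T (Nat.card N : ℂ)
  have e1 := tc_sum_const (1 : N) F (F x0) hFc
  have e2 := tc_sum_mul (1 : N) F (fun n => conj ((μ : N → ℂ) n)) (F x0) hFc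
  rw [hA, hF1, ← Nat.card_eq_fintype_card] at e1
  rw [hB, hF1, ← map_sum, hsμ, map_zero, mul_zero, add_zero, hμ1, map_one, mul_one] at e2
  have h5 : (Nat.card T : ℂ) + F x0 = 0 := by
    apply mul_left_cancel₀ hm0
    linear_combination e2 - e1
  have hm : 1 ≤ Nat.card N := Nat.card_pos
  have h6 : (((Nat.card N - 1) * Nat.card T : ℕ) : ℂ) = ((Nat.card G : ℕ) : ℂ) := by
    push_cast [Nat.cast_sub hm]
    linear_combination e2 - h5
  exact_mod_cast h6

/-- the inertia group of a nontrivial irreducible character of `N` is a Sylow `p`-subgroup -/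
theorem TC.inertia_sylow [Finite G] [Fact p.Prime] [hNn : N.Normal] (h : TC p χ N)
    (μ : IrrCharacter N) (hμ : (μ : N → ℂ) ≠ fun _ => 1) :
    ∃ P : Sylow p G, ∀ g : G, g ∈ (P : Subgroup G) ↔
      ∀ n : N, (μ : N → ℂ) (MulAut.conjNormal g n) = (μ : N → ℂ) n := by
  obtain ⟨T, hT⟩ : ∃ T : Subgroup G, ∀ g : G, g ∈ T ↔
      ∀ n : N, (μ : N → ℂ) (MulAut.conjNormal g n) = (μ : N → ℂ) n := by
    refine ⟨{ carrier := {g | ∀ n : N, (μ : N → ℂ) (MulAut.conjNormal g n) = (μ : N → ℂ) n}
              mul_mem' := ?_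
              one_mem' := ?_
              inv_mem' := ?_ }, fun g => Iff.rfl⟩
    · intro a b ha hb n
      rw [map_mul, MulAut.mul_apply, ha, hb]
    · intro n
      rw [map_one, MulAut.one_apply]
    · intro a ha n
      rw [← ha (MulAut.conjNormal a⁻¹ n), ← MulAut.mul_apply, ← map_mul, mul_inv_cancel, map_one,
        MulAut.one_apply]
  obtain ⟨x0, hx0⟩ := (Subgroup.ne_bot_iff_exists_ne_one).mp h.ne
  have hx0' : (x0 : G) ≠ 1 := fun h' => hx0 (Subtype.ext h')
  have h1 := h.inertia μ hμ T hT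
  have h2 := h.class_card x0.2 hx0'
  have h3 := h.cent_card x0.2 hx0'
  have hm1 : Nat.card N - 1 ≠ 0 := by
    intro h0
    rw [h0, zero_mul] at h1
    exact Nat.card_pos.ne' h1.symm
  have h4 : Nat.card T = p ^ (Nat.card G).factorization p := by
    rw [← h3]
    exact Nat.eq_of_mul_eq_mul_left (Nat.pos_of_ne_zero hm1) (h1.trans h2.symm)
  refine ⟨Sylow.ofCard T h4, fun g => ?_⟩
  rw [Sylow.coe_ofCard]
  exact hT g

/-- the sum of an irreducible character over a normal subgroup not in its kernel vanishes -/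
theorem tc_sum_normal [Fintype G] (ψ : IrrCharacter G) (N : Subgroup G) [N.Normal] [Fintype N]
    (hle : ¬ N ≤ Helper25.irrKer ψ) : ∑ n : N, (ψ : G → ℂ) n = 0 := by
  classical
  have h1 := Helper2.irr_sum_coset_normal ψ N hle 1
  have h2 := tc_sum_supp N (fun g => if g ∈ N then (ψ : G → ℂ) (g * 1) else 0)
    (fun g hg => if_neg hg)
  have h3 : ∑ n : N, (ψ : G → ℂ) n
      = ∑ n : N, (fun g => if g ∈ N then (ψ : G → ℂ) (g * 1) else 0) (n : G) := by
    apply Finset.sum_congr rfl
    intro n _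
    simp
  rw [h3, ← h2]
  convert h1

/-- every irreducible character other than `χ` has `N` in its kernel -/
theorem TC.others [Finite G] [Fact p.Prime] [hNn : N.Normal] (h : TC p χ N) (ψ : IrrCharacter G)
    (hψ : ψ ≠ χ) : N ≤ Helper25.irrKer ψ := by
  classical
  by_contra hle
  have := Fintype.ofFinite G
  obtain ⟨c, hc, h1, h2⟩ := h.vals
  have hcN : ∀ n : N, n ≠ 1 → (χ : G → ℂ) n = c :=
    fun n hn => hc n n.2 (fun h' => hn (Subtype.ext h'))
  have hs := tc_sum_normal ψ N hle
  have horth := Helper25.irr_classInner χ ψ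
  rw [if_neg (Ne.symm hψ)] at horth
  unfold classInner at horth
  have h3 : ∑ g : G, (χ : G → ℂ) g * conj ((ψ : G → ℂ) g) = 0 := by
    rcases mul_eq_zero.mp horth with h4 | h4
    · exact absurd h4 (inv_ne_zero (Nat.cast_ne_zero.mpr Nat.card_pos.ne'))
    · exact h4
  rw [tc_sum_supp N _ (fun g hg => by
        have : (χ : G → ℂ) g = 0 := by
          by_contra hne
          exact hg ((h.supp g).mpr hne)
        rw [this, zero_mul])] at h3
  rw [tc_sum_mul (1 : N) (fun n : N => (χ : G → ℂ) n) (fun n : N => conj ((ψ : G → ℂ) n))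
      c hcN, ← map_sum, hs, map_zero, mul_zero, add_zero] at h3
  rcases mul_eq_zero.mp h3 with h4 | h4
  · have h4' : (χ : G → ℂ) 1 - c = 0 := h4
    rw [h4', zero_add] at h1
    have hm0 : (Nat.card N : ℂ) ≠ 0 := Nat.cast_ne_zero.mpr Nat.card_pos.ne'
    have hc0 : c = 0 := by
      rcases mul_eq_zero.mp h1 with h5 | h5
      · exact h5
      · exact absurd h5 hm0
    rw [hc0, sub_zero] at h4'
    exact (h.supp 1).mp N.one_mem h4'
  · exact Helper25.irr_one_ne_zero ψ ((map_eq_zero _).mp h4)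

/-- an element outside `N` is conjugate to every element of its coset -/
theorem TC.conj_coset [Finite G] [Fact p.Prime] [hNn : N.Normal] (h : TC p χ N) {x : G}
    (hx : x ∉ N) {n : G} (hn : n ∈ N) : IsConj x (n * x) := by
  classical
  have := Fintype.ofFinite G
  by_contra hcon
  have h1 := Helper25.second_orthogonality x (n * x)
  rw [if_neg hcon] at h1
  have h2 := Helper25.second_orthogonality x x
  rw [if_pos (IsConj.refl x)] at h2
  have h3 : ∑ ψ : IrrCharacter G, (ψ : G → ℂ) x * (ψ : G → ℂ) (n * x)⁻¹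
      = ∑ ψ : IrrCharacter G, (ψ : G → ℂ) x * (ψ : G → ℂ) x⁻¹ := by
    apply Finset.sum_congr rfl
    intro ψ _
    by_cases hψ : ψ = χ
    · have h0 : (ψ : G → ℂ) x = 0 := by
        rw [hψ]
        by_contra hne
        exact hx ((h.supp x).mpr hne)
      rw [h0, zero_mul, zero_mul]
    · congr 1
      have hmem : x⁻¹ * n⁻¹ * x ∈ N := by simpa using hNn.conj_mem n⁻¹ (N.inv_mem hn) x⁻¹
      have h4 := Helper2.irr_mul_of_le_ker ψ N (h.others ψ hψ) hmem x⁻¹
      rw [← h4]
      congr 1
      group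
  rw [h1, h2] at h3
  exact (Nat.cast_ne_zero.mpr Nat.card_pos.ne') h3.symm

/-- the number of elements conjugating `x` to a given conjugate -/
theorem tc_card_conj_fiber [Finite G] {x y : G} (hxy : IsConj x y) :
    Nat.card {g : G // g * x * g⁻¹ = y} = Nat.card (Subgroup.centralizer ({x} : Set G)) := by
  obtain ⟨c, hc⟩ := isConj_iff.mp hxy
  apply Nat.card_congr
  exact
    { toFun := fun g => ⟨c⁻¹ * g.1, by
        rw [Subgroup.mem_centralizer_singleton_iff]
        have h1 : g.1 * x * g.1⁻¹ = c * x * c⁻¹ := g.2.trans hc.symm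
        have h2 : c⁻¹ * g.1 * x * (c⁻¹ * g.1)⁻¹ = x := by
          calc c⁻¹ * g.1 * x * (c⁻¹ * g.1)⁻¹ = c⁻¹ * (g.1 * x * g.1⁻¹) * c := by group
            _ = c⁻¹ * (c * x * c⁻¹) * c := by rw [h1]
            _ = x := by group
        calc c⁻¹ * g.1 * x = c⁻¹ * g.1 * x * (c⁻¹ * g.1)⁻¹ * (c⁻¹ * g.1) := by group
          _ = x * (c⁻¹ * g.1) := by rw [h2]⟩
      invFun := fun z => ⟨c * z.1, by
        have h1 := Subgroup.mem_centralizer_singleton_iff.mp z.2
        rw [← hc]
        calc c * z.1 * x * (c * z.1)⁻¹ = c * (z.1 * x) * z.1⁻¹ * c⁻¹ := by group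
          _ = c * (x * z.1) * z.1⁻¹ * c⁻¹ := by rw [h1]
          _ = c * x * c⁻¹ := by group⟩
      left_inv := fun g => Subtype.ext (by simp)
      right_inv := fun z => Subtype.ext (by simp) }

/-- for `x` outside `N`, the centralizers of `x` in `G` and of `xN` in `G/N` have the same order -/
theorem TC.cent_quot [Finite G] [Fact p.Prime] [hNn : N.Normal] (h : TC p χ N) {x : G}
    (hx : x ∉ N) :
    Nat.card (Subgroup.centralizer ({x} : Set G))
      = Nat.card (Subgroup.centralizer ({(x : G ⧸ N)} : Set (G ⧸ N))) := by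
  classical
  have := Fintype.ofFinite N
  obtain ⟨D, hD⟩ : ∃ D, D = Subgroup.centralizer ({(x : G ⧸ N)} : Set (G ⧸ N)) := ⟨_, rfl⟩
  obtain ⟨B, hB⟩ : ∃ B, B = D.comap (QuotientGroup.mk' N) := ⟨_, rfl⟩
  rw [← hD]
  have hmemB : ∀ g : G, g ∈ B ↔ g * x * g⁻¹ * x⁻¹ ∈ N := by
    intro g
    rw [hB, Subgroup.mem_comap, hD, Subgroup.mem_centralizer_singleton_iff]
    show ((g * x : G) : G ⧸ N) = ((x * g : G) : G ⧸ N) ↔ _
    rw [QuotientGroup.eq_iff_div_mem]
    have : g * x / (x * g) = g * x * g⁻¹ * x⁻¹ := by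
      rw [div_eq_mul_inv, mul_inv_rev]
      simp only [mul_assoc]
    rw [this]
  have hB1 : Nat.card B = Nat.card D * Nat.card N := by
    have h1 : B.index = D.index := by
      rw [hB]
      exact Subgroup.index_comap_of_surjective D (QuotientGroup.mk'_surjective N)
    have h2 := Subgroup.card_mul_index B
    have h3 := Subgroup.card_mul_index D
    have h4 := Subgroup.card_eq_card_quotient_mul_card_subgroup N
    have h5 : D.index ≠ 0 := Subgroup.index_ne_zero_of_finite
    apply Nat.eq_of_mul_eq_mul_right (Nat.pos_of_ne_zero h5)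
    rw [← h1, h2, h4, ← h3, h1]
    ring
  obtain ⟨f, hf⟩ : ∃ f : B → N, ∀ b : B, ((f b : N) : G) = b.1 * x * b.1⁻¹ * x⁻¹ :=
    ⟨fun b => ⟨b.1 * x * b.1⁻¹ * x⁻¹, (hmemB b.1).mp b.2⟩, fun b => rfl⟩
  have hfib : ∀ n : N, Nat.card {b : B // f b = n}
      = Nat.card (Subgroup.centralizer ({x} : Set G)) := by
    intro n
    rw [← tc_card_conj_fiber (h.conj_coset hx n.2)]
    apply Nat.card_congr
    exact
      { toFun := fun b => ⟨b.1.1, by
          have h1 := congrArg Subtype.val b.2
          rw [hf] at h1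
          rw [← h1]
          group⟩
        invFun := fun g => ⟨⟨g.1, (hmemB g.1).mpr (by
            rw [g.2]
            simp)⟩, Subtype.ext (by
            rw [hf]
            show g.1 * x * g.1⁻¹ * x⁻¹ = n
            rw [g.2]
            group)⟩
        left_inv := fun b => rfl
        right_inv := fun g => rfl }
  have hB2 : Nat.card B = Nat.card N * Nat.card (Subgroup.centralizer ({x} : Set G)) := by
    rw [← Nat.card_congr (Equiv.sigmaFiberEquiv f), Nat.card_sigma,
      Finset.sum_congr rfl (fun n _ => hfib n), Finset.sum_const, Finset.card_univ, smul_eq_mul,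
      Nat.card_eq_fintype_card (α := N)]
  have h6 : Nat.card N * Nat.card (Subgroup.centralizer ({x} : Set G))
      = Nat.card N * Nat.card D := by
    rw [← hB2, hB1, mul_comm]
  exact Nat.eq_of_mul_eq_mul_left Nat.card_pos h6

/-- a normal `p`-subgroup lies in every Sylow `p`-subgroup -/
theorem tc_normal_le_sylow [Finite G] [Fact p.Prime] (N : Subgroup G) [hNn : N.Normal]
    (hNp : IsPGroup p N) (Q : Sylow p G) : N ≤ Q := by
  obtain ⟨Q', hQ'⟩ := hNp.exists_le_sylow
  obtain ⟨g, hg⟩ := MulAction.exists_smul_eq G Q' Q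
  intro x hx
  have h1 : g⁻¹ * x * g ∈ (Q' : Subgroup G) := hQ' (by
    have := hNn.conj_mem x hx g⁻¹
    simpa using this)
  rw [← hg, Sylow.smul_def, Sylow.pointwise_smul_def, Subgroup.mem_pointwise_smul_iff_inv_smul_mem]
  simpa [MulAut.smul_def] using h1

/-- for `z ∈ P` outside `N`, `|C_P(z)| |N|` divides `|P|` -/
theorem TC.centP_bound [Finite G] [Fact p.Prime] [hNn : N.Normal] (h : TC p χ N) (P : Sylow p G)
    (z : (P : Subgroup G)) (hz : (z : G) ∉ N) :
    Nat.card (Subgroup.centralizer ({z} : Set (P : Subgroup G))) * Nat.card N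
      ∣ Nat.card (P : Subgroup G) := by
  have hp := (Fact.out : p.Prime)
  have h1 : Nat.card (Subgroup.centralizer ({z} : Set (P : Subgroup G)))
      ∣ Nat.card (Subgroup.centralizer ({(z : G)} : Set G)) := by
    rw [← Subgroup.card_map_of_injective (Subgroup.subtype_injective (P : Subgroup G))]
    apply Subgroup.card_dvd_of_le
    rintro _ ⟨c, hc, rfl⟩
    have hc' := Subgroup.mem_centralizer_singleton_iff.mp (SetLike.mem_coe.mp hc)
    rw [Subgroup.mem_centralizer_singleton_iff]
    exact congrArg Subtype.val hc'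
  rw [h.cent_quot hz] at h1
  have h2 : Nat.card (Subgroup.centralizer ({((z : G) : G ⧸ N)} : Set (G ⧸ N)))
      ∣ Nat.card (G ⧸ N) := Subgroup.card_subgroup_dvd_card _
  have h3 : Nat.card (Subgroup.centralizer ({z} : Set (P : Subgroup G))) * Nat.card N
      ∣ Nat.card G := by
    rw [Subgroup.card_eq_card_quotient_mul_card_subgroup N]
    exact mul_dvd_mul_right (h1.trans h2) _
  obtain ⟨j, hj⟩ := IsPGroup.iff_card.mp
    (P.isPGroup'.to_subgroup (Subgroup.centralizer ({z} : Set (P : Subgroup G))))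
  obtain ⟨k, hk⟩ := IsPGroup.iff_card.mp h.pgrp
  rw [hj, hk, ← pow_add] at h3 ⊢
  rw [P.card_eq_multiplicity]
  exact pow_dvd_pow p ((hp.pow_dvd_iff_le_factorization Nat.card_pos.ne').mp h3)

/-- if a term of the upper central series of `P` is properly inside `N`, so is the next -/
theorem TC.ucs_step [Finite G] [Fact p.Prime] [hNn : N.Normal] (h : TC p χ N) (P : Sylow p G)
    (i : ℕ) (hi : Subgroup.upperCentralSeries (P : Subgroup G) i ≤ N.subgroupOf (P : Subgroup G))
    (hne : Subgroup.upperCentralSeries (P : Subgroup G) i ≠ N.subgroupOf (P : Subgroup G)) :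
    Subgroup.upperCentralSeries (P : Subgroup G) (i + 1) ≤ N.subgroupOf (P : Subgroup G) := by
  intro z hz
  by_contra hzN
  have hzN' : (z : G) ∉ N := fun h' => hzN (Subgroup.mem_subgroupOf.mpr h')
  have hb := h.centP_bound P z hzN'
  have hinj : Nat.card {y : (P : Subgroup G) // IsConj z y}
      ≤ Nat.card (Subgroup.upperCentralSeries (P : Subgroup G) i) := by
    have hmem : ∀ y : {y : (P : Subgroup G) // IsConj z y},
        y.1 * z⁻¹ ∈ Subgroup.upperCentralSeries (P : Subgroup G) i := by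
      intro y
      obtain ⟨g, hg⟩ := isConj_iff.mp y.2
      have h1 := (Subgroup.mem_upperCentralSeries_succ_iff.mp hz) g
      rw [commutatorElement_def] at h1
      have h2 := Subgroup.inv_mem _ h1
      have h3 : (z * g * z⁻¹ * g⁻¹)⁻¹ = y.1 * z⁻¹ := by
        rw [← hg]
        group
      rw [h3] at h2
      exact h2
    apply Nat.card_le_card_of_injective (fun y => (⟨y.1 * z⁻¹, hmem y⟩ :
      Subgroup.upperCentralSeries (P : Subgroup G) i))
    intro a b hab
    have h1 : a.1 * z⁻¹ = b.1 * z⁻¹ := congrArg Subtype.val hab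
    exact Subtype.ext (mul_right_cancel h1)
  have hlt : Nat.card (Subgroup.upperCentralSeries (P : Subgroup G) i)
      < Nat.card (N.subgroupOf (P : Subgroup G)) := by
    by_contra hge
    exact hne (Subgroup.eq_of_le_of_card_ge hi (not_lt.mp hge))
  have hNcard : Nat.card (N.subgroupOf (P : Subgroup G)) = Nat.card N :=
    Nat.card_congr (Subgroup.subgroupOfEquivOfLe (tc_normal_le_sylow N h.pgrp P)).toEquiv
  have hcl := Helper2.card_conj_mul_card_centralizer z
  have h5 := Nat.le_of_dvd Nat.card_pos hb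
  have h6 : 0 < Nat.card (Subgroup.centralizer ({z} : Set (P : Subgroup G))) := Nat.card_pos
  rw [hNcard] at hlt
  nlinarith

/-- the centre of `P` lies in `N` -/
theorem TC.center_le [Finite G] [Fact p.Prime] [hNn : N.Normal] (h : TC p χ N) (P : Sylow p G) :
    (Subgroup.center (P : Subgroup G)).map (P : Subgroup G).subtype ≤ N := by
  have h0 : Subgroup.upperCentralSeries (P : Subgroup G) 0 ≤ N.subgroupOf (P : Subgroup G) := by
    rw [Subgroup.upperCentralSeries_zero]
    exact bot_le
  have h1 : Subgroup.upperCentralSeries (P : Subgroup G) 0 ≠ N.subgroupOf (P : Subgroup G) := by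
    rw [Subgroup.upperCentralSeries_zero]
    intro h2
    have h3 := Subgroup.subgroupOf_eq_bot.mp h2.symm
    exact h.ne (h3.eq_bot_of_le (tc_normal_le_sylow N h.pgrp P))
  have h2 := h.ucs_step P 0 h0 h1
  rw [zero_add, Subgroup.upperCentralSeries_one] at h2
  rintro _ ⟨z, hz, rfl⟩
  exact Subgroup.mem_subgroupOf.mp (h2 hz)

/-- `N` is a term of the upper central series of `P` -/
theorem TC.ucs [Finite G] [Fact p.Prime] [hNn : N.Normal] (h : TC p χ N) (P : Sylow p G) :
    ∃ i : ℕ, Subgroup.upperCentralSeries (P : Subgroup G) i = N.subgroupOf (P : Subgroup G) := by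
  have key : ∀ i : ℕ, Subgroup.upperCentralSeries (P : Subgroup G) i ≤ N.subgroupOf (P : Subgroup G)
      ∨ ∃ j : ℕ, Subgroup.upperCentralSeries (P : Subgroup G) j = N.subgroupOf (P : Subgroup G) := by
    intro i
    induction i with
    | zero =>
      left
      rw [Subgroup.upperCentralSeries_zero]
      exact bot_le
    | succ i ih =>
      rcases ih with ih | ih
      · by_cases heq : Subgroup.upperCentralSeries (P : Subgroup G) i
            = N.subgroupOf (P : Subgroup G)
        · exact Or.inr ⟨i, heq⟩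
        · exact Or.inl (h.ucs_step P i ih heq)
      · exact Or.inr ih
  haveI : Group.IsNilpotent (P : Subgroup G) := P.isPGroup'.isNilpotent
  obtain ⟨c, hc⟩ := Group.IsNilpotent.nilpotent (P : Subgroup G)
  rcases key c with h1 | h1
  · rw [hc] at h1
    exact ⟨c, hc.trans (top_le_iff.mp h1).symm⟩
  · exact h1

/-- the centre of `P` is `N` exactly when `P` is normal -/
theorem TC.center_eq_iff [Finite G] [Fact p.Prime] [hNn : N.Normal] (h : TC p χ N)
    (P : Sylow p G) :
    (Subgroup.center (P : Subgroup G)).map (P : Subgroup G).subtype = N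
      ↔ (P : Subgroup G).Normal := by
  have hNP := tc_normal_le_sylow N h.pgrp P
  constructor
  · intro heq
    have hcent : ∀ x ∈ N, x ≠ 1 → (P : Subgroup G) = Subgroup.centralizer ({x} : Set G) := by
      intro x hx hx1
      apply Subgroup.eq_of_le_of_card_ge
      · intro y hy
        rw [← heq] at hx
        obtain ⟨z, hz, rfl⟩ := hx
        rw [Subgroup.mem_centralizer_singleton_iff]
        have h1 := Subgroup.mem_center_iff.mp hz ⟨y, hy⟩
        exact congrArg Subtype.val h1
      · rw [h.cent_card hx hx1, P.card_eq_multiplicity]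
    obtain ⟨x0, hx0⟩ := (Subgroup.ne_bot_iff_exists_ne_one).mp h.ne
    have hx0' : (x0 : G) ≠ 1 := fun h' => hx0 (Subtype.ext h')
    constructor
    intro y hy g
    have h1 : g * x0 * g⁻¹ ∈ N := hNn.conj_mem x0 x0.2 g
    have h2 : g * x0 * g⁻¹ ≠ 1 := by
      intro h3
      apply hx0'
      have h4 : (x0 : G) = g⁻¹ * (g * x0 * g⁻¹) * g := by group
      rw [h4, h3]
      group
    rw [hcent _ h1 h2, Subgroup.mem_centralizer_singleton_iff]
    rw [hcent _ x0.2 hx0', Subgroup.mem_centralizer_singleton_iff] at hy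
    calc g * y * g⁻¹ * (g * x0 * g⁻¹) = g * (y * x0) * g⁻¹ := by group
      _ = g * (x0 * y) * g⁻¹ := by rw [hy]
      _ = g * x0 * g⁻¹ * (g * y * g⁻¹) := by group
  · intro hnorm
    apply le_antisymm (h.center_le P)
    intro x hx
    by_cases hx1 : x = 1
    · rw [hx1]
      exact Subgroup.one_mem _
    · have h1 := h.cent_card hx hx1
      have h2 : (P : Subgroup G) ≤ ((Sylow.ofCard _ h1 : Sylow p G) : Subgroup G) :=
        tc_normal_le_sylow (P : Subgroup G) P.isPGroup' _
      rw [Sylow.coe_ofCard] at h2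
      refine ⟨⟨x, hNP hx⟩, SetLike.mem_coe.mpr ?_, rfl⟩
      rw [Subgroup.mem_center_iff]
      intro y
      have h3 := Subgroup.mem_centralizer_singleton_iff.mp (h2 y.2)
      exact Subtype.ext h3

end Cfsg.Agent.Helper24
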